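import Cfsg.Agent.G7.Grp

set_option autoImplicit false
set_option maxHeartbeats 1000000

/-!
Characteristic polynomials of the stabilizers.
-/

namespace Cfsg.Agent.G7

open Matrix Polynomial

variable {K : Type*} [Field K]

lemma charpoly3 {R : Type*} [CommRing R] (A : Matrix (Fin 3) (Fin 3) R) : A.charpoly = X ^ 3 - C (A 0 0 + A 1 1 + A 2 2) * X ^ 2
    + C (A 0 0 * A 1 1 - A 0 1 * A 1 0 + (A 0 0 * A 2 2 - A 0 2 * A 2 0) + (A 1 1 * A 2 2 - A 1 2 * A 2 1)) * X
    - C A.det := by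
  rw [Matrix.charpoly, det_fin_three, det_fin_three]
  simp
  ring

lemma charpoly2 {R : Type*} [CommRing R] (A : Matrix (Fin 2) (Fin 2) R) : A.charpoly = X ^ 2 - C (A 0 0 + A 1 1) * X
    + C (A 0 0 * A 1 1 - A 0 1 * A 1 0) := by
  rw [Matrix.charpoly, det_fin_two]
  simp
  ring

lemma charpoly1 {R : Type*} [CommRing R] (A : Matrix (Fin 1) (Fin 1) R) : A.charpoly = X - C (A 0 0) := by
  rw [Matrix.charpoly, det_fin_one]
  simp

/-- the blocks for the nonsingular case -/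
def e331f : Fin 3 ⊕ (Fin 3 ⊕ Fin 1) → Fin 7 := Sum.elim ![0, 4, 5] (Sum.elim ![1, 2, 6] ![3])

noncomputable def e331 : Fin 3 ⊕ (Fin 3 ⊕ Fin 1) ≃ Fin 7 := Equiv.ofBijective e331f (by decide)

lemma charpoly_case1 {R : Type*} [CommRing R] (M : Matrix (Fin 7) (Fin 7) R)
    (z : ∀ i j : Fin 7, M i j = if (![0, 1, 1, 2, 0, 0, 1] : Fin 7 → ℕ) i = (![0, 1, 1, 2, 0, 0, 1] : Fin 7 → ℕ) j then M i j else 0) :
    M.charpoly = (!![M 0 0, M 0 4, M 0 5; M 4 0, M 4 4, M 4 5; M 5 0, M 5 4, M 5 5]).charpoly *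
      ((!![M 1 1, M 1 2, M 1 6; M 2 1, M 2 2, M 2 6; M 6 1, M 6 2, M 6 6]).charpoly * (X - C (M 3 3))) := by
  have h1 : (reindex e331.symm e331.symm M).charpoly = M.charpoly := charpoly_reindex _ _
  have h2 : reindex e331.symm e331.symm M = fromBlocks (!![M 0 0, M 0 4, M 0 5; M 4 0, M 4 4, M 4 5; M 5 0, M 5 4, M 5 5]) 0 0
      (fromBlocks (!![M 1 1, M 1 2, M 1 6; M 2 1, M 2 2, M 2 6; M 6 1, M 6 2, M 6 6]) 0 0 (!![M 3 3])) := by
    ext i j
    simp only [reindex_apply, Equiv.symm_symm, submatrix_apply]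
    have e1 : ∀ i, e331 i = e331f i := fun _ => rfl
    rw [e1, e1]
    rcases i with i | i | i <;> rcases j with j | j | j <;> fin_cases i <;> fin_cases j <;>
      first
      | rfl
      | (simp only [e331f, Sum.elim_inl, Sum.elim_inr]; rw [z]; rfl)
  rw [← h1, h2, charpoly_fromBlocks_zero₁₂, charpoly_fromBlocks_zero₁₂, charpoly1]
  rfl

lemma charpoly_elim {R m n ι : Type*} [CommRing R] [Fintype m] [Fintype n] [DecidableEq m] [DecidableEq n]
    (M : Matrix ι ι R) (a : m → ι) (b : n → ι) (h : ∀ i j, M (b i) (a j) = 0) :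
    (M.submatrix (Sum.elim a b) (Sum.elim a b)).charpoly = (M.submatrix a a).charpoly * (M.submatrix b b).charpoly := by
  have h1 : M.submatrix (Sum.elim a b) (Sum.elim a b) = fromBlocks (M.submatrix a a) (M.submatrix a b) 0 (M.submatrix b b) := by
    ext i j
    rcases i with i | i <;> rcases j with j | j
    · rfl
    · rfl
    · exact h i j
    · rfl
  rw [h1]
  exact charpoly_fromBlocks_zero₂₁ _ _ _

/-- the blocks for the singular case -/
def e12121f : Fin 1 ⊕ (Fin 2 ⊕ (Fin 1 ⊕ (Fin 2 ⊕ Fin 1))) → Fin 7 :=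
  Sum.elim ![0] (Sum.elim ![1, 2] (Sum.elim ![3] (Sum.elim ![4, 5] ![6])))

noncomputable def e12121 : Fin 1 ⊕ (Fin 2 ⊕ (Fin 1 ⊕ (Fin 2 ⊕ Fin 1))) ≃ Fin 7 := Equiv.ofBijective e12121f (by decide)

lemma charpoly_case2 {R : Type*} [CommRing R] (M : Matrix (Fin 7) (Fin 7) R)
    (z : ∀ i j : Fin 7, (![0, 1, 1, 2, 3, 3, 4] : Fin 7 → ℕ) j < (![0, 1, 1, 2, 3, 3, 4] : Fin 7 → ℕ) i → M i j = 0) :
    M.charpoly = (X - C (M 0 0)) * ((!![M 1 1, M 1 2; M 2 1, M 2 2]).charpoly * ((X - C (M 3 3)) *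
      ((!![M 4 4, M 4 5; M 5 4, M 5 5]).charpoly * (X - C (M 6 6))))) := by
  have h1 : (reindex e12121.symm e12121.symm M).charpoly = M.charpoly := charpoly_reindex _ _
  have h2 : reindex e12121.symm e12121.symm M = M.submatrix e12121f e12121f := rfl
  rw [← h1, h2, e12121f, charpoly_elim, charpoly_elim, charpoly_elim, charpoly_elim, charpoly1, charpoly1, charpoly1]
  · have a1 : M.submatrix ![1, 2] ![1, 2] = !![M 1 1, M 1 2; M 2 1, M 2 2] := by
      ext i j; fin_cases i <;> fin_cases j <;> rfl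
    have a2 : M.submatrix ![4, 5] ![4, 5] = !![M 4 4, M 4 5; M 5 4, M 5 5] := by
      ext i j; fin_cases i <;> fin_cases j <;> rfl
    rw [a1, a2]
    rfl
  · intro i j
    apply z
    fin_cases i <;> fin_cases j <;> simp
  · intro i j
    apply z
    rcases i with i | i <;> fin_cases i <;> fin_cases j <;> simp
  · intro i j
    apply z
    rcases i with i | i | i <;> fin_cases i <;> fin_cases j <;> simp
  · intro i j
    apply z
    rcases i with i | i | i | i <;> fin_cases i <;> fin_cases j <;> simp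

/-- the equations coming from the cross product -/
lemma crs_col {g : GL (Fin 7) K} (hg : g ∈ Grp K) (i j : Fin 7) :
    crs (fun k => (g : Matrix (Fin 7) (Fin 7) K) k i) (fun k => (g : Matrix (Fin 7) (Fin 7) K) k j) =
      (g : Matrix (Fin 7) (Fin 7) K) *ᵥ crs (Pi.single i 1) (Pi.single j 1) := by
  rw [← crs_grp hg, mulVec_single_one, mulVec_single_one]
  rfl

lemma B_col {g : GL (Fin 7) K} (hg : g ∈ Grp K) (i j : Fin 7) :
    B (fun k => (g : Matrix (Fin 7) (Fin 7) K) k i) (fun k => (g : Matrix (Fin 7) (Fin 7) K) k j) =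
      B (Pi.single i 1) (Pi.single j 1 : Fin 7 → K) := by
  rw [← B_grp hg (Pi.single i 1), mulVec_single_one, mulVec_single_one]
  rfl

end Cfsg.Agent.G7
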