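import Cfsg.Agent.G7.Char1

set_option autoImplicit false
set_option maxHeartbeats 1000000

/-!
Characteristic polynomials of the stabilizers, the nonsingular case.
-/

namespace Cfsg.Agent.G7

open Matrix Polynomial

variable {K : Type*} [Field K]

lemma crs3 {R : Type*} [CommRing R] (w : Fin 7 → R) (i : Fin 7) :
    crs (Pi.single 3 1) w i = (![2, -2, -2, 0, 2, 2, -2] : Fin 7 → R) i * w i := by
  fin_cases i <;> simp [crs]

lemma crs33 {R : Type*} [CommRing R] (j : Fin 7) :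
    crs (Pi.single 3 1) (Pi.single j 1 : Fin 7 → R) = (![2, -2, -2, 0, 2, 2, -2] : Fin 7 → R) j • (Pi.single j 1 : Fin 7 → R) := by
  ext i
  rw [crs3, Pi.smul_apply, Pi.single_apply, smul_eq_mul]
  split_ifs with h
  · rw [h]
  · rw [mul_zero, mul_zero]

theorem case1_zero (h2 : (2 : K) ≠ 0) {M : Matrix (Fin 7) (Fin 7) K}
    (hc : ∀ i j, crs (fun k => M k i) (fun k => M k j) = M *ᵥ crs (Pi.single i 1) (Pi.single j 1))
    (c3 : ∀ i, M i 3 = (Pi.single 3 1 : Fin 7 → K) i) :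
    ∀ i j : Fin 7, M i j = if (![0, 1, 1, 2, 0, 0, 1] : Fin 7 → ℕ) i = (![0, 1, 1, 2, 0, 0, 1] : Fin 7 → ℕ) j then M i j else 0 := by
  have h4 : (4 : K) ≠ 0 := by
    have : (4 : K) = 2 * 2 := by norm_num
    rw [this]; exact mul_ne_zero h2 h2
  intro i j
  have e3 : (fun k => M k 3) = Pi.single 3 1 := funext c3
  have h := congrFun (hc 3 j) i
  rw [e3, crs3, crs33, mulVec_smul, mulVec_single_one, Pi.smul_apply, smul_eq_mul, Matrix.col_apply] at h
  have h' : ((![2, -2, -2, 0, 2, 2, -2] : Fin 7 → K) i - (![2, -2, -2, 0, 2, 2, -2] : Fin 7 → K) j) * M i j = 0 := by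
    rw [sub_mul, h, sub_self]
  rcases mul_eq_zero.1 h' with h | h
  · have : (![0, 1, 1, 2, 0, 0, 1] : Fin 7 → ℕ) i = (![0, 1, 1, 2, 0, 0, 1] : Fin 7 → ℕ) j := by
      have q4 : (2 : K) + 2 = 4 := by norm_num
      have q5 : -(2 : K) - 2 = -4 := by norm_num
      fin_cases i <;> fin_cases j <;> simp [h2, h4, q4, q5] at h ⊢
    rw [if_pos this]
  · rw [h, ite_self]

lemma cancel2 (h2 : (2 : K) ≠ 0) {a b : K} (h : 2 * a = 2 * b) : a = b := mul_left_cancel₀ h2 h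

theorem case1 (h2 : (2 : K) ≠ 0) {g : GL (Fin 7) K} (hg : g ∈ Grp K) (h3 : (g : Matrix (Fin 7) (Fin 7) K) *ᵥ Pi.single 3 1 = Pi.single 3 1) :
    ∃ α β : K, (g : Matrix (Fin 7) (Fin 7) K).charpoly =
      (X - 1) * (X ^ 3 - C α * X ^ 2 + C β * X - 1) * (X ^ 3 - C β * X ^ 2 + C α * X - 1) := by
  obtain ⟨M, hM⟩ : ∃ M, M = (g : Matrix (Fin 7) (Fin 7) K) := ⟨_, rfl⟩
  have hc : ∀ i j, crs (fun k => M k i) (fun k => M k j) = M *ᵥ crs (Pi.single i 1) (Pi.single j 1) := by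
    intro i j; rw [hM]; exact crs_col hg i j
  have hB : ∀ i j, B (fun k => M k i) (fun k => M k j) = B (Pi.single i 1) (Pi.single j 1 : Fin 7 → K) := by
    intro i j; rw [hM]; exact B_col hg i j
  rw [← hM] at h3 ⊢
  have c3 : ∀ i, M i 3 = (Pi.single 3 1 : Fin 7 → K) i := by
    intro i
    rw [← h3]; simp
  have z := case1_zero h2 hc c3
  have z' : ∀ i j : Fin 7, (![0, 1, 1, 2, 0, 0, 1] : Fin 7 → ℕ) i ≠ (![0, 1, 1, 2, 0, 0, 1] : Fin 7 → ℕ) j → M i j = 0 := by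
    intro i j h
    rw [z, if_neg h]
  have z10 := z' 1 0 (by simp)
  have z20 := z' 2 0 (by simp)
  have z30 := z' 3 0 (by simp)
  have z60 := z' 6 0 (by simp)
  have z14 := z' 1 4 (by simp)
  have z24 := z' 2 4 (by simp)
  have z34 := z' 3 4 (by simp)
  have z64 := z' 6 4 (by simp)
  have z15 := z' 1 5 (by simp)
  have z25 := z' 2 5 (by simp)
  have z35 := z' 3 5 (by simp)
  have z65 := z' 6 5 (by simp)
  have z06 := z' 0 6 (by simp)
  have z46 := z' 4 6 (by simp)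
  have z56 := z' 5 6 (by simp)
  have z36 := z' 3 6 (by simp)
  have v04 : crs (Pi.single 0 1) (Pi.single 4 1 : Fin 7 → K) = (-2 : K) • (Pi.single 1 1 : Fin 7 → K) := by
    ext i; fin_cases i <;> simp [crs]
  have v05 : crs (Pi.single 0 1) (Pi.single 5 1 : Fin 7 → K) = (2 : K) • (Pi.single 2 1 : Fin 7 → K) := by
    ext i; fin_cases i <;> simp [crs]
  have v45 : crs (Pi.single 4 1) (Pi.single 5 1 : Fin 7 → K) = (-2 : K) • (Pi.single 6 1 : Fin 7 → K) := by
    ext i; fin_cases i <;> simp [crs]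
  have w04 : ∀ k, crs (fun k => M k 0) (fun k => M k 4) k = -2 * M k 1 := by
    intro k; rw [hc, v04, mulVec_smul, mulVec_single_one]; rfl
  have w05 : ∀ k, crs (fun k => M k 0) (fun k => M k 5) k = 2 * M k 2 := by
    intro k; rw [hc, v05, mulVec_smul, mulVec_single_one]; rfl
  have w45 : ∀ k, crs (fun k => M k 4) (fun k => M k 5) k = -2 * M k 6 := by
    intro k; rw [hc, v45, mulVec_smul, mulVec_single_one]; rfl
  have m11 : M 1 1 = M 0 0 * M 4 4 - M 4 0 * M 0 4 := by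
    have := w04 1
    simp [crs, z10, z30] at this
    exact cancel2 h2 (by linear_combination this)
  have m21 : M 2 1 = -(M 0 0 * M 5 4 - M 5 0 * M 0 4) := by
    have := w04 2
    simp [crs, z20, z30] at this
    exact cancel2 h2 (by linear_combination this)
  have m61 : M 6 1 = M 4 0 * M 5 4 - M 5 0 * M 4 4 := by
    have := w04 6
    simp [crs, z60, z30] at this
    exact cancel2 h2 (by linear_combination this)
  have m12 : M 1 2 = -(M 0 0 * M 4 5) + M 4 0 * M 0 5 := by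
    have := w05 1
    simp [crs, z10, z30] at this
    exact (this.resolve_right h2).symm
  have m22 : M 2 2 = M 0 0 * M 5 5 - M 5 0 * M 0 5 := by
    have := w05 2
    simp [crs, z20, z30] at this
    exact (this.resolve_right h2).symm
  have m62 : M 6 2 = -(M 4 0 * M 5 5) + M 5 0 * M 4 5 := by
    have := w05 6
    simp [crs, z60, z30] at this
    exact (this.resolve_right h2).symm
  have m16 : M 1 6 = M 0 4 * M 4 5 - M 4 4 * M 0 5 := by
    have := w45 1
    simp [crs, z14, z34] at this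
    exact cancel2 h2 (by linear_combination this)
  have m26 : M 2 6 = -(M 0 4 * M 5 5 - M 5 4 * M 0 5) := by
    have := w45 2
    simp [crs, z24, z34] at this
    exact cancel2 h2 (by linear_combination this)
  have m66 : M 6 6 = M 4 4 * M 5 5 - M 5 4 * M 4 5 := by
    have := w45 6
    simp [crs, z64, z34] at this
    exact cancel2 h2 (by linear_combination this)
  have hd : M 0 0 * M 6 6 + M 4 0 * M 2 6 + M 5 0 * M 1 6 = 1 := by
    have h := hB 0 6
    simp [B, z10, z20, z30, z60, z06, z46, z56, z36] at h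
    linear_combination h
  have m33 : M 3 3 = 1 := by rw [c3]; simp
  rw [m66, m26, m16] at hd
  refine ⟨M 0 0 + M 4 4 + M 5 5, M 1 1 + M 2 2 + M 6 6, ?_⟩
  rw [charpoly_case1 M z, charpoly3, charpoly3, m33, det_fin_three, det_fin_three]
  have e1 : M 0 0 * M 4 4 - M 0 4 * M 4 0 + (M 0 0 * M 5 5 - M 0 5 * M 5 0) + (M 4 4 * M 5 5 - M 4 5 * M 5 4) = M 1 1 + M 2 2 + M 6 6 := by
    rw [m11, m22, m66]; ring
  have e2 : M 0 0 * M 4 4 * M 5 5 - M 0 0 * M 4 5 * M 5 4 - M 0 4 * M 4 0 * M 5 5 + M 0 4 * M 4 5 * M 5 0 + M 0 5 * M 4 0 * M 5 4 - M 0 5 * M 4 4 * M 5 0 = 1 := by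
    linear_combination hd
  have e3 : M 1 1 * M 2 2 - M 1 2 * M 2 1 + (M 1 1 * M 6 6 - M 1 6 * M 6 1) + (M 2 2 * M 6 6 - M 2 6 * M 6 2) = M 0 0 + M 4 4 + M 5 5 := by
    rw [m11, m12, m16, m21, m22, m26, m61, m62, m66]
    linear_combination (M 0 0 + M 4 4 + M 5 5) * hd
  have e4 : M 1 1 * M 2 2 * M 6 6 - M 1 1 * M 2 6 * M 6 2 - M 1 2 * M 2 1 * M 6 6 + M 1 2 * M 2 6 * M 6 1 + M 1 6 * M 2 1 * M 6 2 - M 1 6 * M 2 2 * M 6 1 = 1 := by
    rw [m11, m12, m16, m21, m22, m26, m61, m62, m66]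
    linear_combination (M 0 0 * M 4 4 * M 5 5 - M 0 0 * M 4 5 * M 5 4 - M 0 4 * M 4 0 * M 5 5 + M 0 4 * M 4 5 * M 5 0 + M 0 5 * M 4 0 * M 5 4 - M 0 5 * M 4 4 * M 5 0 + 1) * hd
  have r1 : (!![M 0 0, M 0 4, M 0 5; M 4 0, M 4 4, M 4 5; M 5 0, M 5 4, M 5 5] : Matrix (Fin 3) (Fin 3) K) = !![M 0 0, M 0 4, M 0 5; M 4 0, M 4 4, M 4 5; M 5 0, M 5 4, M 5 5] := rfl
  simp only [Matrix.of_apply, Matrix.cons_val', Matrix.cons_val_zero, Matrix.cons_val_one, Matrix.cons_val, Matrix.cons_val_fin_one]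
  rw [e1, e2, e3, e4, map_one]
  ring

end Cfsg.Agent.G7
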