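import Cfsg.Agent.G7.Char1

set_option autoImplicit false
set_option maxHeartbeats 1000000

/-!
Characteristic polynomials of the stabilizers, the singular case.
-/

namespace Cfsg.Agent.G7

open Matrix Polynomial

variable {K : Type*} [Field K]

lemma crs0 {R : Type*} [CommRing R] (w : Fin 7 → R) :
    crs (Pi.single 0 1) w = ![-(2 * w 3), -(2 * w 4), 2 * w 5, w 6, 0, 0, 0] := by
  ext i
  fin_cases i <;> simp [crs]

theorem case2 (h2 : (2 : K) ≠ 0) {g : GL (Fin 7) K} (hg : g ∈ Grp K) (h3 : (g : Matrix (Fin 7) (Fin 7) K) *ᵥ Pi.single 0 1 = Pi.single 0 1) :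
    ∃ α β : K, (g : Matrix (Fin 7) (Fin 7) K).charpoly =
      (X - 1) * (X ^ 3 - C α * X ^ 2 + C β * X - 1) * (X ^ 3 - C β * X ^ 2 + C α * X - 1) := by
  obtain ⟨M, hM⟩ : ∃ M, M = (g : Matrix (Fin 7) (Fin 7) K) := ⟨_, rfl⟩
  have hc : ∀ i j, crs (fun k => M k i) (fun k => M k j) = M *ᵥ crs (Pi.single i 1) (Pi.single j 1) := by
    intro i j; rw [hM]; exact crs_col hg i j
  have hB : ∀ i j, B (fun k => M k i) (fun k => M k j) = B (Pi.single i 1) (Pi.single j 1 : Fin 7 → K) := by
    intro i j; rw [hM]; exact B_col hg i j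
  rw [← hM] at h3 ⊢
  have c0 : ∀ i, M i 0 = (Pi.single 0 1 : Fin 7 → K) i := by
    intro i
    rw [← h3]; simp
  have m00 : M 0 0 = 1 := by rw [c0]; simp
  have e0 : (fun k => M k 0) = Pi.single 0 1 := funext c0
  have h : ∀ i j, (![-(2 * M 3 j), -(2 * M 4 j), 2 * M 5 j, M 6 j, 0, 0, 0] : Fin 7 → K) i =
      (M *ᵥ ![-(2 * (Pi.single j 1 : Fin 7 → K) 3), -(2 * (Pi.single j 1 : Fin 7 → K) 4), 2 * (Pi.single j 1 : Fin 7 → K) 5, (Pi.single j 1 : Fin 7 → K) 6, 0, 0, 0]) i := by
    intro i j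
    rw [← crs0, ← hc 0 j, e0, crs0]
  have w : ∀ i j : Fin 7, (![-(2 * M 3 j), -(2 * M 4 j), 2 * M 5 j, M 6 j, 0, 0, 0] : Fin 7 → K) i =
      -(2 * M i 0) * (Pi.single j 1 : Fin 7 → K) 3 - 2 * M i 1 * (Pi.single j 1 : Fin 7 → K) 4 + 2 * M i 2 * (Pi.single j 1 : Fin 7 → K) 5 + M i 3 * (Pi.single j 1 : Fin 7 → K) 6 := by
    intro i j
    rw [h, mv7]
    simp only [Matrix.cons_val_zero, Matrix.cons_val_one, Matrix.cons_val]
    ring
  -- columns one and two
  have z31 : M 3 1 = 0 := by have := w 0 1; simpa [h2] using this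
  have z41 : M 4 1 = 0 := by have := w 1 1; simpa [h2] using this
  have z51 : M 5 1 = 0 := by have := w 2 1; simpa [h2] using this
  have z61 : M 6 1 = 0 := by have := w 3 1; simpa [h2] using this
  have z32 : M 3 2 = 0 := by have := w 0 2; simpa [h2] using this
  have z42 : M 4 2 = 0 := by have := w 1 2; simpa [h2] using this
  have z52 : M 5 2 = 0 := by have := w 2 2; simpa [h2] using this
  have z62 : M 6 2 = 0 := by have := w 3 2; simpa [h2] using this
  have z30 : M 3 0 = 0 := by rw [c0]; simp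
  have z10 : M 1 0 = 0 := by rw [c0]; simp
  have z20 : M 2 0 = 0 := by rw [c0]; simp
  have z40 : M 4 0 = 0 := by rw [c0]; simp
  have z50 : M 5 0 = 0 := by rw [c0]; simp
  have z60 : M 6 0 = 0 := by rw [c0]; simp
  have m33 : M 3 3 = 1 := by
    have := w 0 3; simp [m00] at this
    exact mul_left_cancel₀ h2 (by linear_combination this)
  have z43 : M 4 3 = 0 := by have := w 1 3; simp [z10, h2] at this; exact this
  have z53 : M 5 3 = 0 := by have := w 2 3; simp [z20, h2] at this; exact this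
  have z63 : M 6 3 = 0 := by have := w 3 3; simp [z30] at this; exact this
  have m44 : M 4 4 = M 1 1 := by
    have := w 1 4; simp at this
    first | exact this | exact this.resolve_right h2
  have m54 : M 5 4 = -M 2 1 := by
    have := w 2 4; simp at this
    exact mul_left_cancel₀ h2 (by linear_combination this)
  have z64 : M 6 4 = 0 := by have := w 3 4; simp [z31] at this; exact this
  have m45 : M 4 5 = -M 1 2 := by
    have := w 1 5; simp at this
    exact mul_left_cancel₀ h2 (by linear_combination -this)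
  have m55 : M 5 5 = M 2 2 := by
    have := w 2 5; simp at this
    first | exact this | exact this.resolve_right h2
  have z65 : M 6 5 = 0 := by have := w 3 5; simp [z32] at this; exact this
  have m66 : M 6 6 = 1 := by have := w 3 6; simp [m33] at this; exact this
  have hd : M 1 1 * M 2 2 - M 1 2 * M 2 1 = 1 := by
    have h := hB 1 5
    simp [B, z31, z41, z51, z61, z65, m55, m45] at h
    linear_combination h
  have z : ∀ i j : Fin 7, (![0, 1, 1, 2, 3, 3, 4] : Fin 7 → ℕ) j < (![0, 1, 1, 2, 3, 3, 4] : Fin 7 → ℕ) i → M i j = 0 := by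
    intro i j
    fin_cases i <;> fin_cases j <;> simp <;> assumption
  refine ⟨M 1 1 + M 2 2 + 1, M 1 1 + M 2 2 + 1, ?_⟩
  rw [charpoly_case2 M z, charpoly2, charpoly2, m33, m66, m00]
  simp only [Matrix.of_apply, Matrix.cons_val', Matrix.cons_val_zero, Matrix.cons_val_one, Matrix.cons_val, Matrix.cons_val_fin_one]
  have e1 : M 4 4 * M 5 5 - M 4 5 * M 5 4 = 1 := by
    rw [m44, m55, m45, m54]; linear_combination hd
  rw [e1, hd, m44, m55]
  simp only [map_one, map_add]
  ring

end Cfsg.Agent.G7
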