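import Cfsg.Agent.G7.Grp

set_option autoImplicit false
set_option maxHeartbeats 1000000

/-!
Transitivity of the group of type G2 on vectors of the 7-dimensional module, characteristic not two.
-/

namespace Cfsg.Agent.G7

open Matrix

variable {K : Type*} [Field K]

/-- the orbit relation -/
def Orb (v w : Fin 7 → K) : Prop := ∃ h ∈ Grp K, (h : Matrix (Fin 7) (Fin 7) K) *ᵥ v = w

lemma Orb.trans {u v w : Fin 7 → K} (h1 : Orb u v) (h2 : Orb v w) : Orb u w := by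
  obtain ⟨a, ha, rfl⟩ := h1
  obtain ⟨b, hb, rfl⟩ := h2
  exact ⟨b * a, mul_mem hb ha, by rw [Units.val_mul, ← mulVec_mulVec]⟩

lemma Orb.refl (v : Fin 7 → K) : Orb v v := ⟨1, one_mem _, by rw [Units.val_one, one_mulVec]⟩

lemma Orb.Q_eq {v w : Fin 7 → K} (h : Orb v w) : Q w = Q v := by
  obtain ⟨a, ha, rfl⟩ := h
  exact Q_grp ha v

lemma Orb.root {r : ℕ} (hr : r < 12) (t : K) (v : Fin 7 → K) : Orb v (xv r t v) :=
  ⟨xu r t, xu_mem hr t, by rw [coe_xu, xr_mulVec hr]⟩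

lemma Orb.root' {r : ℕ} (hr : r < 12) (t : K) {v w : Fin 7 → K} (h : xv r t v = w) : Orb v w := by
  rw [← h]; exact Orb.root hr t v

lemma Orb.ne_zero {v w : Fin 7 → K} (h : Orb v w) (hv : v ≠ 0) : w ≠ 0 := by
  obtain ⟨a, ha, rfl⟩ := h
  intro h
  apply hv
  have : v = ((a⁻¹ : GL (Fin 7) K) : Matrix (Fin 7) (Fin 7) K) *ᵥ ((a : Matrix (Fin 7) (Fin 7) K) *ᵥ v) := by
    rw [mulVec_mulVec, ← Units.val_mul, inv_mul_cancel, Units.val_one, one_mulVec]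
  rw [this, h, mulVec_zero]

/-- first coordinate nonzero -/
lemma orb1 (h2 : (2 : K) ≠ 0) {v : Fin 7 → K} (hv : v ≠ 0) : ∃ w, Orb v w ∧ w 0 ≠ 0 := by
  by_cases h0 : v 0 = 0
  swap
  · exact ⟨v, Orb.refl v, h0⟩
  by_cases h1 : v 1 = 0
  swap
  · refine ⟨_, Orb.root (r := 7) (by norm_num) 1 v, ?_⟩
    simp [xv, h0, h1]
  by_cases h2' : v 2 = 0
  swap
  · refine ⟨_, Orb.root (r := 8) (by norm_num) 1 v, ?_⟩
    simp [xv, h0, h2']
  by_cases h4 : v 4 = 0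
  swap
  · refine ⟨_, Orb.root (r := 10) (by norm_num) 1 v, ?_⟩
    simp [xv, h0, h4]
  by_cases h5 : v 5 = 0
  swap
  · refine ⟨_, Orb.root (r := 11) (by norm_num) 1 v, ?_⟩
    simp [xv, h0, h5]
  by_cases h6 : 2 * v 3 - v 6 = 0
  swap
  · refine ⟨_, Orb.root (r := 9) (by norm_num) 1 v, ?_⟩
    simp [xv, h0]
    exact h6
  by_cases h7 : -(2 * v 3) - v 6 = 0
  swap
  · refine ⟨_, Orb.root (r := 9) (by norm_num) (-1) v, ?_⟩
    simp [xv, h0]
    exact h7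
  exfalso
  apply hv
  have e6 : v 6 = 0 := by
    have : 2 * v 6 = 0 := by linear_combination -h6 - h7
    exact (mul_eq_zero.1 this).resolve_left h2
  have e3 : v 3 = 0 := by
    have : 2 * v 3 = 0 := by linear_combination h6 + e6
    exact (mul_eq_zero.1 this).resolve_left h2
  ext i
  fin_cases i <;> simp [h0, h1, h2', h4, h5, e6, e3]

/-- normal form -/
lemma orb2 {v : Fin 7 → K} (h0 : v 0 ≠ 0) : ∃ c, Orb v ![v 0, 0, 0, 0, 0, 0, c] := by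
  have s1 : Orb v (xv 4 (-(v 1 / v 0)) v) := Orb.root (by norm_num) _ _
  obtain ⟨a, ha⟩ : ∃ a, a = xv 4 (-(v 1 / v 0)) v := ⟨_, rfl⟩
  rw [← ha] at s1
  have a0 : a 0 = v 0 := by rw [ha]; simp [xv]
  have a1 : a 1 = 0 := by rw [ha]; simp [xv]; field_simp; ring
  have s2 : Orb a (xv 3 (a 2 / v 0) a) := Orb.root (by norm_num) _ _
  obtain ⟨b, hb⟩ : ∃ b, b = xv 3 (a 2 / v 0) a := ⟨_, rfl⟩
  rw [← hb] at s2
  have b0 : b 0 = v 0 := by rw [hb]; simp [xv, a0]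
  have b1 : b 1 = 0 := by rw [hb]; simp [xv, a1]
  have b2 : b 2 = 0 := by rw [hb]; simp [xv, a0]; field_simp; ring
  have s3 : Orb b (xv 2 (-(b 3 / v 0)) b) := Orb.root (by norm_num) _ _
  obtain ⟨c, hc⟩ : ∃ c, c = xv 2 (-(b 3 / v 0)) b := ⟨_, rfl⟩
  rw [← hc] at s3
  have c0 : c 0 = v 0 := by rw [hc]; simp [xv, b0]
  have c1 : c 1 = 0 := by rw [hc]; simp [xv, b1]
  have c2 : c 2 = 0 := by rw [hc]; simp [xv, b2]
  have c3 : c 3 = 0 := by rw [hc]; simp [xv, b0]; field_simp; ring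
  have s4 : Orb c (xv 1 (c 4 / v 0) c) := Orb.root (by norm_num) _ _
  obtain ⟨d, hd⟩ : ∃ d, d = xv 1 (c 4 / v 0) c := ⟨_, rfl⟩
  rw [← hd] at s4
  have d0 : d 0 = v 0 := by rw [hd]; simp [xv, c0]
  have d1 : d 1 = 0 := by rw [hd]; simp [xv, c1]
  have d2 : d 2 = 0 := by rw [hd]; simp [xv, c2]
  have d3 : d 3 = 0 := by rw [hd]; simp [xv, c3]
  have d4 : d 4 = 0 := by rw [hd]; simp [xv, c0]; field_simp; ring
  have s5 : Orb d (xv 0 (d 5 / v 0) d) := Orb.root (by norm_num) _ _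
  refine ⟨(xv 0 (d 5 / v 0) d) 6, s1.trans (s2.trans (s3.trans (s4.trans ?_)))⟩
  convert s5 using 1
  ext i
  fin_cases i
  · simp [xv, d0]
  · simp [xv, d1]
  · simp [xv, d2]
  · simp [xv, d3]
  · simp [xv, d4]
  · simp [xv, d0]; field_simp; ring
  · simp [xv]

/-- singular vectors -/
theorem orb_singular (h2 : (2 : K) ≠ 0) {v : Fin 7 → K} (hv : v ≠ 0) (hQ : Q v = 0) : ∃ c : K, c ≠ 0 ∧ Orb v ![c, 0, 0, 0, 0, 0, 0] := by
  obtain ⟨w, hw, hw0⟩ := orb1 h2 hv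
  obtain ⟨c, hc⟩ := orb2 hw0
  have h3 := (hw.trans hc).Q_eq
  rw [hQ] at h3
  simp [Q, hw0] at h3
  rw [h3] at hc
  exact ⟨w 0, hw0, hw.trans hc⟩

/-- nonsingular vectors -/
theorem orb_nonsingular (h2 : (2 : K) ≠ 0) {v : Fin 7 → K} {c : K} (hc0 : c ≠ 0) (hQ : Q v = c ^ 2) : Orb v ![0, 0, 0, c, 0, 0, 0] := by
  have hv : v ≠ 0 := by
    rintro rfl
    apply hc0
    have h : c ^ 2 = 0 := by rw [← hQ]; simp [Q]
    exact pow_eq_zero_iff (two_ne_zero) |>.1 h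
  obtain ⟨w, hw, hw0⟩ := orb1 h2 hv
  obtain ⟨d, hd⟩ := orb2 hw0
  have h3 := (hw.trans hd).Q_eq
  rw [hQ] at h3
  simp [Q] at h3
  refine (hw.trans hd).trans ((Orb.root' (r := 2) (by norm_num) (c / w 0) (w := ![w 0, 0, 0, c, 0, 0, 0]) ?_).trans
    (Orb.root' (r := 9) (by norm_num) (-(w 0 / (2 * c))) ?_))
  · ext i
    fin_cases i
    · simp [xv]
    · simp [xv]
    · simp [xv]
    · simp [xv]; field_simp
    · simp [xv]
    · simp [xv]
    · simp [xv]; field_simp; linear_combination h3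
  · ext i
    fin_cases i
    · simp [xv]; field_simp; ring
    · simp [xv]
    · simp [xv]
    · simp [xv]
    · simp [xv]
    · simp [xv]
    · simp [xv]

end Cfsg.Agent.G7
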