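import Cfsg.Agent.G7.Char2
import Cfsg.Agent.G7.Char3
import Cfsg.Agent.G7.Trans

set_option autoImplicit false
set_option maxHeartbeats 1000000

/-!
The shape of the characteristic polynomial over an algebraically closed field of characteristic not two.
-/

namespace Cfsg.Agent.G7

open Matrix Polynomial

lemma det_xr {R : Type*} [CommRing R] {r : ℕ} (hr : r < 12) (t : R) : (xr r t).det = 1 := by
  have key : (xr r t).BlockTriangular id ∨ (xr r t).BlockTriangular OrderDual.toDual := by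
    rcases lt_or_ge r 6 with h | h
    · right
      intro i j hij
      have hij' : i < j := hij
      interval_cases r <;> fin_cases i <;> fin_cases j <;> first | rfl | exact absurd hij' (by decide)
    · left
      intro i j hij
      have hij' : j < i := hij
      interval_cases r <;> fin_cases i <;> fin_cases j <;> first | rfl | exact absurd hij' (by decide)
  have h1 : ∀ i, xr r t i i = 1 := by
    intro i
    interval_cases r <;> fin_cases i <;> rfl
  rcases key with h | h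
  · rw [det_of_isUpperTriangular h]; simp [h1]
  · rw [det_of_isLowerTriangular _ h]; simp [h1]

lemma det_grp {R : Type*} [CommRing R] {g : GL (Fin 7) R} (hg : g ∈ Grp R) : (g : Matrix (Fin 7) (Fin 7) R).det = 1 := by
  induction hg using Subgroup.closure_induction with
  | mem x hx =>
    obtain ⟨r, hr, t, rfl⟩ := hx
    rw [coe_xu, det_xr hr]
  | one => rw [Units.val_one, det_one]
  | mul a b _ _ ha hb => rw [Units.val_mul, det_mul, ha, hb, one_mul]
  | inv a _ ha =>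
    have h1 : ((a⁻¹ : GL (Fin 7) R) : Matrix (Fin 7) (Fin 7) R).det * (a : Matrix (Fin 7) (Fin 7) R).det = 1 := by
      rw [← det_mul, ← Units.val_mul, inv_mul_cancel, Units.val_one, det_one]
    rwa [ha, mul_one] at h1

variable {K : Type*} [Field K]

/-- the Gram matrix -/
def J7 : Matrix (Fin 7) (Fin 7) K := !![0, 0, 0, 0, 0, 0, 1; 0, 0, 0, 0, 0, 1, 0; 0, 0, 0, 0, 1, 0, 0; 0, 0, 0, 2, 0, 0, 0; 0, 0, 1, 0, 0, 0, 0; 0, 1, 0, 0, 0, 0, 0; 1, 0, 0, 0, 0, 0, 0]

lemma B_J7 (v w : Fin 7 → K) : B v w = v ⬝ᵥ (J7 *ᵥ w) := by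
  rw [dotProduct, Fin.sum_univ_seven]
  simp only [mv7]
  simp [J7, B]
  ring

lemma J7_grp {g : GL (Fin 7) K} (hg : g ∈ Grp K) : (g : Matrix (Fin 7) (Fin 7) K)ᵀ * J7 * (g : Matrix (Fin 7) (Fin 7) K) = J7 := by
  apply mat_ext
  intro w
  apply dotProduct_eq
  intro v
  have h := B_grp hg v w
  rw [B_J7, B_J7] at h
  rw [dotProduct_comm, dotProduct_comm _ v, ← h, ← mulVec_mulVec, ← mulVec_mulVec, dotProduct_mulVec, vecMul_transpose]

lemma det_J7 (h2 : (2 : K) ≠ 0) : (J7 : Matrix (Fin 7) (Fin 7) K).det ≠ 0 := by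
  have : (J7 : Matrix (Fin 7) (Fin 7) K) * !![0, 0, 0, 0, 0, 0, 1; 0, 0, 0, 0, 0, 1, 0; 0, 0, 0, 0, 1, 0, 0; 0, 0, 0, 2⁻¹, 0, 0, 0; 0, 0, 1, 0, 0, 0, 0; 0, 1, 0, 0, 0, 0, 0; 1, 0, 0, 0, 0, 0, 0] = 1 := by
    apply mat_ext
    intro v
    rw [← mulVec_mulVec, one_mulVec]
    ext i
    simp only [mv7]
    fin_cases i <;> simp [J7, h2]
  intro h
  have h1 := congrArg Matrix.det this
  rw [det_mul, h, zero_mul, det_one] at h1
  exact zero_ne_one h1

lemma exists_fixed (h2 : (2 : K) ≠ 0) {g : GL (Fin 7) K} (hg : g ∈ Grp K) : ∃ v : Fin 7 → K, v ≠ 0 ∧ (g : Matrix (Fin 7) (Fin 7) K) *ᵥ v = v := by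
  obtain ⟨M, hM⟩ : ∃ M, M = (g : Matrix (Fin 7) (Fin 7) K) := ⟨_, rfl⟩
  have hd := det_grp hg
  have hJ := J7_grp hg
  rw [← hM] at hd hJ ⊢
  have h1 : Mᵀ * J7 * (M - 1) = -((M - 1)ᵀ * J7) := by
    rw [mul_sub, hJ, transpose_sub, transpose_one]
    noncomm_ring
  have h3 := congrArg Matrix.det h1
  rw [det_neg, det_mul, det_mul, det_mul, det_transpose, det_transpose, hd] at h3
  simp only [Fintype.card_fin] at h3
  have h4 : 2 * ((J7 : Matrix (Fin 7) (Fin 7) K).det * (M - 1).det) = 0 := by linear_combination h3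
  have h5 : (M - 1).det = 0 := by
    rcases mul_eq_zero.1 h4 with h | h
    · exact absurd h h2
    · exact (mul_eq_zero.1 h).resolve_left (det_J7 h2)
  obtain ⟨v, hv, hv'⟩ := exists_mulVec_eq_zero_iff.2 h5
  refine ⟨v, hv, ?_⟩
  rwa [sub_mulVec, one_mulVec, sub_eq_zero] at hv'

theorem charpoly_alg [IsAlgClosed K] (h2 : (2 : K) ≠ 0) {g : GL (Fin 7) K} (hg : g ∈ Grp K) :
    ∃ α β : K, (g : Matrix (Fin 7) (Fin 7) K).charpoly =
      (X - 1) * (X ^ 3 - C α * X ^ 2 + C β * X - 1) * (X ^ 3 - C β * X ^ 2 + C α * X - 1) := by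
  obtain ⟨v, hv, hv'⟩ := exists_fixed h2 hg
  have conj : ∀ h ∈ Grp K, ∀ w : Fin 7 → K, (h : Matrix (Fin 7) (Fin 7) K) *ᵥ v = w →
      ((h * g * h⁻¹ : GL (Fin 7) K) : Matrix (Fin 7) (Fin 7) K) *ᵥ w = w := by
    intro h _ w hw
    rw [← hw, mulVec_mulVec, ← Units.val_mul, inv_mul_cancel_right, Units.val_mul, ← mulVec_mulVec, hv']
  have cp : ∀ h : GL (Fin 7) K, ((h * g * h⁻¹ : GL (Fin 7) K) : Matrix (Fin 7) (Fin 7) K).charpoly = (g : Matrix (Fin 7) (Fin 7) K).charpoly := by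
    intro h
    rw [Units.val_mul, Matrix.charpoly_mul_comm, ← Units.val_mul, inv_mul_cancel_left]
  have scal : ∀ (g' : GL (Fin 7) K) (c : K) (i : Fin 7), c ≠ 0 → (g' : Matrix (Fin 7) (Fin 7) K) *ᵥ Pi.single i c = Pi.single i c →
      (g' : Matrix (Fin 7) (Fin 7) K) *ᵥ Pi.single i 1 = Pi.single i 1 := by
    intro g' c i hc h
    have e : (Pi.single i c : Fin 7 → K) = c • Pi.single i 1 := by
      ext k; simp [Pi.single_apply]
    rw [e, mulVec_smul] at h
    exact smul_right_injective _ hc h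
  by_cases hQ : Q v = 0
  · obtain ⟨c, hc, h, hh, hw⟩ := orb_singular h2 hv hQ
    have e : (![c, 0, 0, 0, 0, 0, 0] : Fin 7 → K) = Pi.single 0 c := by
      ext k; fin_cases k <;> simp
    rw [e] at hw
    have h4 := scal _ c 0 hc (conj h hh _ hw)
    obtain ⟨α, β, hab⟩ := case2 h2 (mul_mem (mul_mem hh hg) (inv_mem hh)) h4
    exact ⟨α, β, by rw [← cp h, hab]⟩
  · obtain ⟨c, hc'⟩ := IsAlgClosed.exists_pow_nat_eq (Q v) (n := 2) (by norm_num)
    have hc : c ≠ 0 := by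
      rintro rfl
      apply hQ
      rw [← hc']; simp
    obtain ⟨h, hh, hw⟩ := orb_nonsingular h2 hc hc'.symm
    have e : (![0, 0, 0, c, 0, 0, 0] : Fin 7 → K) = Pi.single 3 c := by
      ext k; fin_cases k <;> simp
    rw [e] at hw
    have h4 := scal _ c 3 hc (conj h hh _ hw)
    obtain ⟨α, β, hab⟩ := case1 h2 (mul_mem (mul_mem hh hg) (inv_mem hh)) h4
    exact ⟨α, β, by rw [← cp h, hab]⟩

end Cfsg.Agent.G7
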