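import Mathlib

set_option autoImplicit false
set_option maxHeartbeats 1000000

/-!
The action of the Frobenius map on the eigenvalues.
-/

namespace Cfsg.Agent.G7

variable {k : Type*} [Field k]

/-- same class -/
def Cl (x y : k) : Prop := x = y ∨ x = y⁻¹

lemma Cl.symm {x y : k} (h : Cl x y) : Cl y x := by
  rcases h with h | h
  · exact Or.inl h.symm
  · exact Or.inr (by rw [h, inv_inv])

lemma Cl.trans {x y z : k} (h : Cl x y) (h' : Cl y z) : Cl x z := by
  rcases h with rfl | rfl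
  · exact h'
  · rcases h' with rfl | rfl
    · exact Or.inr rfl
    · exact Or.inl (inv_inv _)

lemma Cl.map (φ : k →+* k) {x y : k} (h : Cl x y) : Cl (φ x) (φ y) := by
  rcases h with rfl | rfl
  · exact Or.inl rfl
  · exact Or.inr (map_inv₀ _ _)

lemma Cl.of_map (φ : k →+* k) {x y : k} (h : Cl (φ x) (φ y)) : Cl x y := by
  rcases h with h | h
  · exact Or.inl (φ.injective h)
  · exact Or.inr (φ.injective (by rw [h, map_inv₀]))

/-- the situation of seven different eigenvalues -/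
structure Gen (φ : k →+* k) (a b c : k) : Prop where
  abc : a * b * c = 1
  a2 : a ^ 2 ≠ 1
  b2 : b ^ 2 ≠ 1
  c2 : c ^ 2 ≠ 1
  ab : ¬ Cl a b
  ac : ¬ Cl a c
  bc : ¬ Cl b c
  fa : Cl (φ a) a ∨ Cl (φ a) b ∨ Cl (φ a) c
  fb : Cl (φ b) a ∨ Cl (φ b) b ∨ Cl (φ b) c
  fc : Cl (φ c) a ∨ Cl (φ c) b ∨ Cl (φ c) c

lemma Gen.swap12 {φ : k →+* k} {a b c : k} (h : Gen φ a b c) : Gen φ b a c where
  abc := by rw [← h.abc]; ring
  a2 := h.b2
  b2 := h.a2
  c2 := h.c2
  ab := fun h' => h.ab h'.symm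
  ac := h.bc
  bc := h.ac
  fa := by rcases h.fb with h | h | h <;> simp [h]
  fb := by rcases h.fa with h | h | h <;> simp [h]
  fc := by rcases h.fc with h | h | h <;> simp [h]

lemma Gen.swap23 {φ : k →+* k} {a b c : k} (h : Gen φ a b c) : Gen φ a c b where
  abc := by rw [← h.abc]; ring
  a2 := h.a2
  b2 := h.c2
  c2 := h.b2
  ab := h.ac
  ac := h.ab
  bc := fun h' => h.bc h'.symm
  fa := by rcases h.fa with h | h | h <;> simp [h]
  fb := by rcases h.fc with h | h | h <;> simp [h]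
  fc := by rcases h.fb with h | h | h <;> simp [h]

lemma Gen.ne0 {φ : k →+* k} {a b c : k} (h : Gen φ a b c) : a ≠ 0 ∧ b ≠ 0 ∧ c ≠ 0 := by
  have := h.abc
  refine ⟨?_, ?_, ?_⟩ <;> (rintro rfl; simp at this)

/-- a fixed class -/
lemma Gen.fixed {φ : k →+* k} {a b c : k} (h : Gen φ a b c) (ha : Cl (φ a) a) : φ (φ a) = a ∧ φ (φ b) = b ∧ φ (φ c) = c := by
  obtain ⟨a0, b0, c0⟩ := h.ne0
  have h1 : φ (φ a) = a := by
    rcases ha with ha | ha
    · rw [ha, ha]
    · rw [ha, map_inv₀, ha, inv_inv]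
  have e1 : c = (a * b)⁻¹ := eq_inv_of_mul_eq_one_left (by rw [← h.abc]; ring)
  have key : φ (φ b) = b → φ (φ a) = a ∧ φ (φ b) = b ∧ φ (φ c) = c := by
    intro h2
    refine ⟨h1, h2, ?_⟩
    rw [e1, map_inv₀, map_inv₀, map_mul, map_mul, h1, h2]
  rcases h.fb with hb | hb | hb
  · exact absurd (Cl.of_map φ (ha.trans hb.symm)) h.ab
  · apply key
    rcases hb with hb | hb
    · rw [hb, hb]
    · rw [hb, map_inv₀, hb, inv_inv]
  · rcases h.fc with hc | hc | hc
    · exact absurd (Cl.of_map φ (ha.trans hc.symm)) h.ac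
    · have h3 : Cl (φ (φ b)) b := (hb.map φ).trans hc
      rcases h3 with h3 | h3
      · exact key h3
      · exfalso
        have h4 : Cl (φ (φ c)) c := (hc.map φ).trans hb
        have h5 : φ (φ c) = a⁻¹ * b := by
          rw [e1, map_inv₀, map_inv₀, map_mul, map_mul, h1, h3, mul_inv, inv_inv]
        rcases h4 with h4 | h4
        · apply h.b2
          rw [h5, e1, mul_inv] at h4
          have h6 : b = b⁻¹ := mul_left_cancel₀ (inv_ne_zero a0) h4
          rw [pow_two]
          nth_rewrite 1 [h6]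
          exact inv_mul_cancel₀ b0
        · apply h.a2
          rw [h5, e1, inv_inv] at h4
          have h6 : a⁻¹ = a := mul_right_cancel₀ b0 h4
          rw [pow_two]
          nth_rewrite 1 [← h6]
          exact inv_mul_cancel₀ a0
    · exact absurd (Cl.of_map φ (hb.trans hc.symm)) h.bc

/-- the first kind of conclusion -/
def K1 (φ : k →+* k) (a b c : k) : Prop := φ (φ a) = a ∧ φ (φ b) = b ∧ φ (φ c) = c
/-- the second kind of conclusion -/
def K2 (φ : k →+* k) (a b c : k) : Prop := φ (φ a) * φ a * a = 1 ∧ φ (φ b) * φ b * b = 1 ∧ φ (φ c) * φ c * c = 1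
/-- the third kind of conclusion -/
def K3 (φ : k →+* k) (a b c : k) : Prop := φ (φ a) * a = φ a ∧ φ (φ b) * b = φ b ∧ φ (φ c) * c = φ c

/-- a cycle of classes -/
lemma Gen.cyc {φ : k →+* k} {a b c : k} (h : Gen φ a b c) (ha : Cl (φ a) b) (hb : Cl (φ b) c) (hc : Cl (φ c) a) :
    K2 φ a b c ∨ K3 φ a b c := by
  obtain ⟨a0, b0, c0⟩ := h.ne0
  have h1 : φ a * φ b * φ c = 1 := by rw [← map_mul, ← map_mul, h.abc, map_one]
  have h0 := h.abc
  have sq : ∀ x : k, x ≠ 0 → x * x = 1 → x ^ 2 = 1 := fun x _ hx => by rw [pow_two, hx]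
  rcases ha with ha | ha <;> rcases hb with hb | hb <;> rcases hc with hc | hc
  · left
    refine ⟨?_, ?_, ?_⟩
    · rw [ha, hb]; linear_combination h0
    · rw [hb, hc]; linear_combination h0
    · rw [hc, ha]; linear_combination h0
  · exfalso
    rw [ha, hb, hc] at h1
    apply h.a2
    field_simp at h1
    linear_combination h0 - a * h1
  · exfalso
    rw [ha, hb, hc] at h1
    apply h.c2
    field_simp at h1
    linear_combination h0 - c * h1
  · exfalso
    rw [ha, hb, hc] at h1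
    apply h.b2
    field_simp at h1
    linear_combination b * h1 + h0
  · exfalso
    rw [ha, hb, hc] at h1
    apply h.b2
    field_simp at h1
    linear_combination h0 - b * h1
  · exfalso
    rw [ha, hb, hc] at h1
    apply h.c2
    field_simp at h1
    linear_combination c * h1 + h0
  · exfalso
    rw [ha, hb, hc] at h1
    apply h.a2
    field_simp at h1
    linear_combination a * h1 + h0
  · right
    refine ⟨?_, ?_, ?_⟩
    · rw [ha, map_inv₀, hb, inv_inv]; exact eq_inv_of_mul_eq_one_left (by linear_combination h0)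
    · rw [hb, map_inv₀, hc, inv_inv]; exact eq_inv_of_mul_eq_one_left (by linear_combination h0)
    · rw [hc, map_inv₀, ha, inv_inv]; exact eq_inv_of_mul_eq_one_left (by linear_combination h0)

theorem Gen.main {φ : k →+* k} {a b c : k} (h : Gen φ a b c) : K1 φ a b c ∨ K2 φ a b c ∨ K3 φ a b c := by
  have half : ∀ {a b c : k}, Gen φ a b c → Cl (φ a) b → K1 φ a b c ∨ K2 φ a b c ∨ K3 φ a b c := by
    intro a b c h ha
    rcases h.fb with hb | hb | hb
    · rcases h.fc with hc | hc | hc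
      · exact absurd (Cl.of_map φ (hb.trans hc.symm)) h.bc
      · exact absurd (Cl.of_map φ (ha.trans hc.symm)) h.ac
      · obtain ⟨h1, h2, h3⟩ := h.swap23.swap12.fixed hc
        exact Or.inl ⟨h2, h3, h1⟩
    · exact absurd (Cl.of_map φ (ha.trans hb.symm)) h.ab
    · rcases h.fc with hc | hc | hc
      · exact Or.inr (h.cyc ha hb hc)
      · exact absurd (Cl.of_map φ (ha.trans hc.symm)) h.ac
      · exact absurd (Cl.of_map φ (hb.trans hc.symm)) h.bc
  rcases h.fa with ha | ha | ha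
  · exact Or.inl (h.fixed ha)
  · exact half h ha
  · rcases half h.swap23 ha with ⟨h1, h2, h3⟩ | ⟨h1, h2, h3⟩ | ⟨h1, h2, h3⟩
    · exact Or.inl ⟨h1, h3, h2⟩
    · exact Or.inr (Or.inl ⟨h1, h3, h2⟩)
    · exact Or.inr (Or.inr ⟨h1, h3, h2⟩)

end Cfsg.Agent.G7
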