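import Cfsg.Agent.G7.Char4

set_option autoImplicit false
set_option maxHeartbeats 1000000

/-!
Elements close to the identity, characteristic not two.
-/

namespace Cfsg.Agent.G7

open Matrix Polynomial

variable {K : Type*} [Field K]

lemma vecMulVec_mulVec' (x y v : Fin 7 → K) : vecMulVec x y *ᵥ v = (y ⬝ᵥ v) • x := by
  ext i
  simp only [mulVec, vecMulVec_apply, dotProduct, Pi.smul_apply, smul_eq_mul, Finset.sum_mul]
  apply Finset.sum_congr rfl
  intros
  ring

lemma B_add_left (u v w : Fin 7 → K) : B (u + v) w = B u w + B v w := by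
  simp only [B, Pi.add_apply]; ring

lemma B_add_right (u v w : Fin 7 → K) : B u (v + w) = B u v + B u w := by
  simp only [B, Pi.add_apply]; ring

lemma B_smul_left (c : K) (v w : Fin 7 → K) : B (c • v) w = c * B v w := by
  simp only [B, Pi.smul_apply, smul_eq_mul]; ring

lemma B_smul_right (c : K) (v w : Fin 7 → K) : B v (c • w) = c * B v w := by
  simp only [B, Pi.smul_apply, smul_eq_mul]; ring

lemma B_comm (v w : Fin 7 → K) : B v w = B w v := by
  simp only [B]; ring

lemma B_nondeg (h2 : (2 : K) ≠ 0) {x : Fin 7 → K} (h : ∀ v, B v x = 0) : x = 0 := by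
  have e0 := h (Pi.single 0 1)
  have e1 := h (Pi.single 1 1)
  have e2 := h (Pi.single 2 1)
  have e3 := h (Pi.single 3 1)
  have e4 := h (Pi.single 4 1)
  have e5 := h (Pi.single 5 1)
  have e6 := h (Pi.single 6 1)
  simp [B] at e0 e1 e2 e3 e4 e5 e6
  ext i
  fin_cases i <;> simp [e0, e1, e2, e4, e5, e6]
  exact e3.resolve_left h2

/-- an element of the group which differs from the identity by a matrix of rank at most one -/
theorem lemT (h2 : (2 : K) ≠ 0) {g : GL (Fin 7) K} (hg : g ∈ Grp K) {x y : Fin 7 → K}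
    (h : (g : Matrix (Fin 7) (Fin 7) K) = 1 + vecMulVec x y) : g = 1 := by
  have hd := det_grp hg
  rw [h] at hd
  have hd' : y ⬝ᵥ x = 0 := by
    rw [vecMulVec_eq Unit, det_one_add_replicateCol_mul_replicateRow] at hd
    linear_combination hd
  have hv : ∀ v, (g : Matrix (Fin 7) (Fin 7) K) *ᵥ v = v + (y ⬝ᵥ v) • x := by
    intro v
    rw [h, add_mulVec, one_mulVec, vecMulVec_mulVec']
  have hB : ∀ u v, (y ⬝ᵥ v) * B u x + (y ⬝ᵥ u) * B x v + (y ⬝ᵥ u) * (y ⬝ᵥ v) * B x x = 0 := by
    intro u v
    have := B_grp hg u v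
    rw [hv, hv, B_add_left, B_add_right, B_add_right, B_smul_left, B_smul_left, B_smul_right, B_smul_right] at this
    linear_combination this
  have goal : vecMulVec x y = 0 → g = 1 := by
    intro h0
    apply Units.ext
    rw [h, h0, add_zero, Units.val_one]
  by_cases hy : y = 0
  · apply goal; rw [hy]; ext i j; simp [vecMulVec_apply]
  apply goal
  obtain ⟨v, hv0⟩ : ∃ v, y ⬝ᵥ v ≠ 0 := by
    by_contra hcon
    push Not at hcon
    exact hy (dotProduct_eq_zero y hcon)
  have hxx : B x x = 0 := by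
    have := hB v x
    rw [hd'] at this
    simp only [zero_mul, mul_zero, add_zero, zero_add] at this
    exact (mul_eq_zero.1 this).resolve_left hv0
  have hvx : B v x = 0 := by
    have := hB v v
    rw [hxx, B_comm x v] at this
    have h3 : 2 * ((y ⬝ᵥ v) * B v x) = 0 := by linear_combination this
    rcases mul_eq_zero.1 h3 with h | h
    · exact absurd h h2
    · exact (mul_eq_zero.1 h).resolve_left hv0
  have hx : x = 0 := by
    apply B_nondeg h2
    intro u
    have := hB u v
    rw [hxx, B_comm x v, hvx] at this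
    simp only [mul_zero, add_zero] at this
    exact (mul_eq_zero.1 this).resolve_left hv0
  rw [hx]; ext i j; simp [vecMulVec_apply]

/-- matrices of rank at most one -/
lemma exists_vecMulVec {M : Matrix (Fin 7) (Fin 7) K} (h : Module.finrank K (LinearMap.range (toLin' M)) ≤ 1) :
    ∃ x y, M = vecMulVec x y := by
  obtain ⟨⟨x, hx⟩, hx'⟩ := finrank_le_one_iff.1 h
  have h1 : ∀ j : Fin 7, ∃ c : K, c • x = M *ᵥ Pi.single j 1 := by
    intro j
    obtain ⟨c, hc⟩ := hx' ⟨toLin' M (Pi.single j 1), LinearMap.mem_range_self _ _⟩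
    exact ⟨c, congrArg Subtype.val hc⟩
  choose y hy using h1
  refine ⟨x, y, ?_⟩
  ext i j
  have := congrFun (hy j) i
  rw [mulVec_single_one, Pi.smul_apply, smul_eq_mul, Matrix.col_apply] at this
  rw [vecMulVec_apply, ← this, mul_comm]

theorem eq_one_of_rank (h2 : (2 : K) ≠ 0) {g : GL (Fin 7) K} (hg : g ∈ Grp K)
    (h : Module.finrank K (LinearMap.range (toLin' ((g : Matrix (Fin 7) (Fin 7) K) - 1))) ≤ 1) : g = 1 := by
  obtain ⟨x, y, hxy⟩ := exists_vecMulVec h
  exact lemT h2 hg (x := x) (y := y) (by rw [← hxy]; abel)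

theorem eq_one_of_ker (h2 : (2 : K) ≠ 0) {g : GL (Fin 7) K} (hg : g ∈ Grp K)
    (h : 6 ≤ Module.finrank K (LinearMap.ker (toLin' ((g : Matrix (Fin 7) (Fin 7) K) - 1)))) : g = 1 := by
  apply eq_one_of_rank h2 hg
  have := LinearMap.finrank_range_add_finrank_ker (toLin' ((g : Matrix (Fin 7) (Fin 7) K) - 1))
  rw [Module.finrank_fin_fun] at this
  omega

/-- step for the nilpotent argument -/
lemma rank_step {V : Type*} [AddCommGroup V] [Module K V] [Module.Finite K V] (N : V →ₗ[K] V) (W U : Submodule K V) (hU : U ≤ W)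
    (hN : ∀ x ∈ U, N x = 0) : Module.finrank K (W.map N) + Module.finrank K U ≤ Module.finrank K W := by
  have h1 := LinearMap.finrank_range_add_finrank_ker (N.domRestrict W)
  rw [LinearMap.range_domRestrict] at h1
  have h2 : Module.finrank K U ≤ Module.finrank K (LinearMap.ker (N.domRestrict W)) := by
    rw [← (Submodule.comapSubtypeEquivOfLe hU).finrank_eq]
    apply Submodule.finrank_mono
    intro x hx
    rw [LinearMap.mem_ker, LinearMap.domRestrict_apply]
    exact hN _ hx
  omega

/-- a nilpotent operator on a space of dimension seven whose fourth power is zero -/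
lemma rank_cube {V : Type*} [AddCommGroup V] [Module K V] [Module.Finite K V] (hV : Module.finrank K V = 7) (N : V →ₗ[K] V) (hN : N ^ 4 = 0) :
    Module.finrank K (LinearMap.range (N ^ 3)) ≤ 1 := by
  have hN' : ∀ x ∈ LinearMap.range (N ^ 3), N x = 0 := by
    rintro _ ⟨y, rfl⟩
    have : (N ^ 4) y = 0 := by rw [hN]; rfl
    rwa [pow_succ' N 3] at this
  have step : ∀ i, (LinearMap.range (N ^ i)).map N = LinearMap.range (N ^ (i + 1)) := by
    intro i
    rw [pow_succ', Module.End.mul_eq_comp, LinearMap.range_comp]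
  have hle : ∀ i ≤ 3, LinearMap.range (N ^ 3) ≤ LinearMap.range (N ^ i) := by
    intro i hi
    rintro _ ⟨y, rfl⟩
    refine ⟨(N ^ (3 - i)) y, ?_⟩
    rw [← Module.End.mul_apply, ← pow_add, Nat.add_sub_cancel' hi]
  have h0 := rank_step N _ _ (hle 0 (by norm_num)) hN'
  have h1 := rank_step N _ _ (hle 1 (by norm_num)) hN'
  have h2 := rank_step N _ _ (hle 2 (by norm_num)) hN'
  have h3 := rank_step N _ _ (hle 3 (by norm_num)) hN'
  rw [step] at h0 h1 h2 h3
  have h4 : Module.finrank K (LinearMap.range (N ^ 0)) ≤ 7 := by rw [← hV]; exact Submodule.finrank_le _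
  simp only [zero_add, Nat.reduceAdd] at h0 h1 h2 h3
  omega

end Cfsg.Agent.G7
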