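import Cfsg.Agent.G7.Eig
import Cfsg.Agent.G7.Comb
import Cfsg.Agent.G7.LemT

set_option autoImplicit false
set_option maxHeartbeats 1000000

/-!
The possible spectra, common part.
-/

namespace Cfsg.Agent.G7

open Matrix Polynomial

variable {k : Type*} [Field k]

lemma pl_spc (a b c : k) : pl (spc a b c) = (X - C 1) * ((X - C a) * ((X - C b) * ((X - C c) * ((X - C a⁻¹) * ((X - C b⁻¹) * (X - C c⁻¹)))))) := by
  rw [pl, spc]
  simp only [Multiset.insert_eq_cons, Multiset.map_cons, Multiset.map_singleton, Multiset.prod_cons, Multiset.prod_singleton]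

lemma pl_inj {s t : Multiset k} (h : pl s = pl t) : s = t := by rw [← pl_roots s, h, pl_roots]

lemma spc_swap12 (a b c : k) : spc a b c = spc b a c := pl_inj (by rw [pl_spc, pl_spc]; ring)

lemma spc_swap23 (a b c : k) : spc a b c = spc a c b := pl_inj (by rw [pl_spc, pl_spc]; ring)

lemma mem_spc {a b c x : k} : x ∈ spc a b c ↔ x = 1 ∨ x = a ∨ x = b ∨ x = c ∨ x = a⁻¹ ∨ x = b⁻¹ ∨ x = c⁻¹ := by
  simp [spc]

/-- the eigenvalues with the Frobenius action -/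
structure Ctx (φ : k →+* k) (a b c : k) : Prop where
  abc : a * b * c = 1
  fr : (spc a b c).map φ = spc a b c

variable {φ : k →+* k} {a b c : k}

lemma Ctx.swap12 (h : Ctx φ a b c) : Ctx φ b a c := ⟨by rw [← h.abc]; ring, by rw [spc_swap12, h.fr]⟩

lemma Ctx.swap23 (h : Ctx φ a b c) : Ctx φ a c b := ⟨by rw [← h.abc]; ring, by rw [spc_swap23, h.fr]⟩

lemma Ctx.ne0 (h : Ctx φ a b c) : a ≠ 0 ∧ b ≠ 0 ∧ c ≠ 0 := by
  have := h.abc
  refine ⟨?_, ?_, ?_⟩ <;> (rintro rfl; simp at this)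

lemma Ctx.mem (h : Ctx φ a b c) {x : k} (hx : x ∈ spc a b c) : φ x ∈ spc a b c := by
  rw [← h.fr]
  exact Multiset.mem_map_of_mem _ hx

lemma Ctx.count [DecidableEq k] (h : Ctx φ a b c) (x : k) : (spc a b c).count (φ x) = (spc a b c).count x := by
  conv_lhs => rw [← h.fr]
  exact Multiset.count_map_eq_count' _ _ φ.injective _

lemma Ctx.gen (h : Ctx φ a b c) (a2 : a ^ 2 ≠ 1) (b2 : b ^ 2 ≠ 1) (c2 : c ^ 2 ≠ 1) (ab : ¬ Cl a b) (ac : ¬ Cl a c) (bc : ¬ Cl b c) : Gen φ a b c := by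
  have key : ∀ x ∈ spc a b c, x ^ 2 ≠ 1 → Cl (φ x) a ∨ Cl (φ x) b ∨ Cl (φ x) c := by
    intro x hx x2
    rcases mem_spc.1 (h.mem hx) with e | e | e | e | e | e | e
    · exfalso; apply x2
      have : x = 1 := φ.injective (by rw [e, map_one])
      rw [this, one_pow]
    · exact Or.inl (Or.inl e)
    · exact Or.inr (Or.inl (Or.inl e))
    · exact Or.inr (Or.inr (Or.inl e))
    · exact Or.inl (Or.inr e)
    · exact Or.inr (Or.inl (Or.inr e))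
    · exact Or.inr (Or.inr (Or.inr e))
  exact { abc := h.abc, a2 := a2, b2 := b2, c2 := c2, ab := ab, ac := ac, bc := bc,
          fa := key a (mem_spc.2 (by simp)) a2, fb := key b (mem_spc.2 (by simp)) b2, fc := key c (mem_spc.2 (by simp)) c2 }

lemma sq_ne_one {x : k} (hx : x ≠ 0) (h : x ^ 2 ≠ 1) : x ≠ 1 ∧ x⁻¹ ≠ 1 ∧ x ≠ x⁻¹ := by
  have h1 : x ≠ 1 := by rintro rfl; exact h (one_pow 2)
  refine ⟨h1, fun h2 => h1 (inv_eq_one.1 h2), ?_⟩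
  intro h2
  apply h
  rw [pow_two]
  nth_rewrite 1 [h2]
  exact inv_mul_cancel₀ hx

lemma ncl {x y : k} (h : ¬ Cl x y) : x ≠ y ∧ x ≠ y⁻¹ ∧ x⁻¹ ≠ y ∧ x⁻¹ ≠ y⁻¹ := by
  rw [Cl, not_or] at h
  refine ⟨h.1, h.2, ?_, ?_⟩
  · rintro rfl; exact h.2 (inv_inv _).symm
  · intro h'; exact h.1 (inv_injective h')

lemma Gen.nodup (h : Gen φ a b c) : (spc a b c).Nodup := by
  obtain ⟨a0, b0, c0⟩ := h.ne0
  obtain ⟨a1, a2, a3⟩ := sq_ne_one a0 h.a2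
  obtain ⟨b1, b2, b3⟩ := sq_ne_one b0 h.b2
  obtain ⟨c1, c2, c3⟩ := sq_ne_one c0 h.c2
  obtain ⟨d1, d2, d3, d4⟩ := ncl h.ab
  obtain ⟨e1, e2, e3, e4⟩ := ncl h.ac
  obtain ⟨f1, f2, f3, f4⟩ := ncl h.bc
  simp only [spc, Multiset.insert_eq_cons, Multiset.nodup_cons, Multiset.mem_cons, Multiset.mem_singleton, Multiset.nodup_singleton, and_true, not_or]
  exact ⟨⟨a1.symm, b1.symm, c1.symm, a2.symm, b2.symm, c2.symm⟩, ⟨d1, e1, a3, d2, e2⟩, ⟨f1, d3.symm, b3, f2⟩, ⟨e3.symm, f3.symm, c3⟩,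
    ⟨d4, e4⟩, f4⟩

lemma spc_pow {m : ℕ} (ha : a ^ m = 1) (hb : b ^ m = 1) (hc : c ^ m = 1) : ∀ x ∈ spc a b c, x ^ m = 1 := by
  intro x hx
  rcases mem_spc.1 hx with e | e | e | e | e | e | e <;> rw [e] <;> simp [ha, hb, hc]

/-- the exponents in the generic case -/
lemma Gen.pow {q : ℕ} (hq : 2 ≤ q) (hφ : ∀ x, φ x = x ^ q) (h : Gen φ a b c) : (∀ x ∈ spc a b c, x ^ (q ^ 2 - 1) = 1) ∨
    (∀ x ∈ spc a b c, x ^ (q ^ 2 + q + 1) = 1) ∨ (∀ x ∈ spc a b c, x ^ (q ^ 2 - q + 1) = 1) := by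
  obtain ⟨a0, b0, c0⟩ := h.ne0
  have hq2 : q ≤ q ^ 2 := by nlinarith
  have e : ∀ x, φ (φ x) = x ^ (q ^ 2) := by intro x; rw [hφ, hφ, ← pow_mul, pow_two]
  have k1 : ∀ x : k, x ≠ 0 → φ (φ x) = x → x ^ (q ^ 2 - 1) = 1 := by
    intro x hx h
    rw [e] at h
    apply mul_right_cancel₀ hx
    rw [← pow_succ, Nat.sub_add_cancel (by omega), h, one_mul]
  have k2 : ∀ x : k, x ≠ 0 → φ (φ x) * φ x * x = 1 → x ^ (q ^ 2 + q + 1) = 1 := by
    intro x hx h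
    rw [e, hφ] at h
    rw [pow_succ, pow_add, h]
  have k3 : ∀ x : k, x ≠ 0 → φ (φ x) * x = φ x → x ^ (q ^ 2 - q + 1) = 1 := by
    intro x hx h
    rw [e, hφ] at h
    apply mul_right_cancel₀ (pow_ne_zero q hx)
    rw [← pow_add, one_mul, ← h, ← pow_succ]
    congr 1
    omega
  rcases h.main with ⟨h1, h2, h3⟩ | ⟨h1, h2, h3⟩ | ⟨h1, h2, h3⟩
  · exact Or.inl (spc_pow (k1 a a0 h1) (k1 b b0 h2) (k1 c c0 h3))
  · exact Or.inr (Or.inl (spc_pow (k2 a a0 h1) (k2 b b0 h2) (k2 c c0 h3)))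
  · exact Or.inr (Or.inr (spc_pow (k3 a a0 h1) (k3 b b0 h2) (k3 c c0 h3)))

/-- fixed or inverted by the Frobenius map -/
lemma pow_of_cl {q : ℕ} (hq : 2 ≤ q) (hφ : ∀ x, φ x = x ^ q) {x : k} (hx : x ≠ 0) (h : Cl (φ x) x) : ∃ δ, (δ = q - 1 ∨ δ = q + 1) ∧ x ^ δ = 1 := by
  rcases h with h | h
  · refine ⟨q - 1, Or.inl rfl, ?_⟩
    rw [hφ] at h
    apply mul_right_cancel₀ hx
    rw [← pow_succ, Nat.sub_add_cancel (by omega), h, one_mul]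
  · refine ⟨q + 1, Or.inr rfl, ?_⟩
    rw [hφ] at h
    rw [pow_succ, h]
    exact inv_mul_cancel₀ hx

end Cfsg.Agent.G7
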