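import Cfsg.Agent.G7.Univ
import Mathlib.FieldTheory.Finite.Basic

set_option autoImplicit false
set_option maxHeartbeats 1000000

/-!
Eigenvalues of the elements of the groups of type G2.
-/

namespace Cfsg.Agent.G7

open Matrix Polynomial

section
variable {K : Type*} [Field K]

/-- the multiset of eigenvalues -/
def spc (a b c : K) : Multiset K := {1, a, b, c, a⁻¹, b⁻¹, c⁻¹}

/-- the product of linear factors -/
noncomputable def pl (s : Multiset K) : K[X] := (s.map fun x => X - C x).prod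

lemma pl_add (s t : Multiset K) : pl (s + t) = pl s * pl t := by
  rw [pl, Multiset.map_add, Multiset.prod_add]; rfl

lemma pl_roots (s : Multiset K) : (pl s).roots = s := roots_multiset_prod_X_sub_C s

lemma pl_map {L : Type*} [Field L] (f : K →+* L) (s : Multiset K) : (pl s).map f = pl (s.map f) := by
  rw [pl, pl, Polynomial.map_multiset_prod, Multiset.map_map, Multiset.map_map]
  congr 1
  apply Multiset.map_congr rfl
  intro x _
  simp

lemma cubic_split [IsAlgClosed K] (α β : K) : ∃ a b c : K, a * b * c = 1 ∧ a + b + c = α ∧ a * b + a * c + b * c = β := by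
  obtain ⟨a, ha⟩ : ∃ a : K, a ^ 3 - α * a ^ 2 + β * a - 1 = 0 := by
    have hdeg : (X ^ 3 - C α * X ^ 2 + C β * X - 1 : K[X]).degree ≠ 0 := by
      have : (X ^ 3 - C α * X ^ 2 + C β * X - 1 : K[X]).degree = 3 := by compute_degree!
      rw [this]; exact three_ne_zero
    obtain ⟨a, ha⟩ := IsAlgClosed.exists_root _ hdeg
    exact ⟨a, by simpa [IsRoot] using ha⟩
  obtain ⟨b, hb⟩ : ∃ b : K, b ^ 2 + (a - α) * b + (a ^ 2 - α * a + β) = 0 := by
    have hdeg : (X ^ 2 + C (a - α) * X + C (a ^ 2 - α * a + β) : K[X]).degree ≠ 0 := by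
      have : (X ^ 2 + C (a - α) * X + C (a ^ 2 - α * a + β) : K[X]).degree = 2 := by compute_degree!
      rw [this]; exact two_ne_zero
    obtain ⟨b, hb⟩ := IsAlgClosed.exists_root _ hdeg
    exact ⟨b, by simpa [IsRoot] using hb⟩
  refine ⟨a, b, α - a - b, ?_, by ring, ?_⟩
  · linear_combination ha - a * hb
  · linear_combination -hb

lemma inv_eqs {a b c : K} (h : a * b * c = 1) : a⁻¹ = b * c ∧ b⁻¹ = a * c ∧ c⁻¹ = a * b := by
  refine ⟨inv_eq_of_mul_eq_one_right (by linear_combination h), inv_eq_of_mul_eq_one_right (by linear_combination h),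
    inv_eq_of_mul_eq_one_right (by linear_combination h)⟩

theorem eig [IsAlgClosed K] {g : GL (Fin 7) K} (hg : g ∈ Grp K) :
    ∃ a b c : K, a * b * c = 1 ∧ (g : Matrix (Fin 7) (Fin 7) K).charpoly = pl (spc a b c) := by
  obtain ⟨α, β, h⟩ := charpoly_shape hg
  obtain ⟨a, b, c, h1, h2, h3⟩ := cubic_split α β
  refine ⟨a, b, c, h1, ?_⟩
  obtain ⟨i1, i2, i3⟩ := inv_eqs h1
  rw [h, pl, spc]
  simp only [Multiset.insert_eq_cons, Multiset.map_cons, Multiset.map_singleton, Multiset.prod_cons, Multiset.prod_singleton]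
  rw [i1, i2, i3, ← h2, ← h3]
  have e1 : (X ^ 3 - C (a + b + c) * X ^ 2 + C (a * b + a * c + b * c) * X - 1 : K[X]) = (X - C a) * ((X - C b) * (X - C c)) := by
    have : (1 : K[X]) = C (a * b * c) := by rw [h1, map_one]
    rw [this]
    simp only [map_add, map_mul]
    ring
  have e2 : (X ^ 3 - C (a * b + a * c + b * c) * X ^ 2 + C (a + b + c) * X - 1 : K[X]) = (X - C (b * c)) * ((X - C (a * c)) * (X - C (a * b))) := by
    have h5 : (C (a * b * c) : K[X]) = 1 := by rw [h1, map_one]
    simp only [map_add, map_mul] at h5 ⊢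
    linear_combination (C a * C b * C c + 1 - (C a + C b + C c) * X) * h5
  rw [e1, e2, map_one]
  ring

/-- order bound from eigenvalues -/
theorem pow_eq_one_of_list {n : ℕ} {M : Matrix (Fin n) (Fin n) K} (p : ℕ) [Fact p.Prime] [CharP K p] {m j : ℕ} (hm : m ≠ 0)
    (l : List (Multiset K)) (hl : ∀ t ∈ l, t.Nodup ∧ ∀ x ∈ t, x ^ m = 1) (hM : M.charpoly = pl l.sum) (hj : l.length ≤ p ^ j) :
    M ^ (m * p ^ j) = 1 := by
  have hne : (X ^ m - 1 : K[X]) ≠ 0 := by
    have := X_pow_sub_C_ne_zero (Nat.pos_of_ne_zero hm) (1 : K)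
    simpa using this
  have h1 : ∀ l : List (Multiset K), (∀ t ∈ l, t.Nodup ∧ ∀ x ∈ t, x ^ m = 1) → pl l.sum ∣ (X ^ m - 1) ^ l.length := by
    intro l
    induction l with
    | nil => intro _; simp [pl]
    | cons t l ih =>
      intro h
      rw [List.sum_cons, pl_add, List.length_cons, pow_succ']
      apply mul_dvd_mul _ (ih (fun t ht => h t (List.mem_cons_of_mem _ ht)))
      obtain ⟨h1, h2⟩ := h t List.mem_cons_self
      rw [pl, Multiset.prod_X_sub_C_dvd_iff_le_roots hne, Multiset.le_iff_subset h1]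
      intro x hx
      rw [mem_roots hne]
      simp [h2 x hx]
  have h2 : M.charpoly ∣ (X ^ m - 1) ^ p ^ j := by
    rw [hM]
    exact (h1 l hl).trans (pow_dvd_pow _ hj)
  have h3 : ((X ^ m - 1) ^ p ^ j : K[X]) = X ^ (m * p ^ j) - 1 := by
    rw [sub_pow_char_pow, one_pow, ← pow_mul]
  obtain ⟨r, hr⟩ := h2
  have h4 := congrArg (aeval M) hr
  rw [h3, map_mul, Matrix.aeval_self_charpoly, zero_mul, map_sub, map_pow, aeval_X, map_one, sub_eq_zero] at h4
  exact h4

/-- semisimple case -/
theorem pow_eq_one_of_nodup {n : ℕ} {M : Matrix (Fin n) (Fin n) K} {m : ℕ} (hm : m ≠ 0)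
    (s : Multiset K) (hs : s.Nodup) (hs' : ∀ x ∈ s, x ^ m = 1) (hM : M.charpoly = pl s) :
    M ^ m = 1 := by
  have hne : (X ^ m - 1 : K[X]) ≠ 0 := by
    have := X_pow_sub_C_ne_zero (Nat.pos_of_ne_zero hm) (1 : K)
    simpa using this
  have h2 : M.charpoly ∣ (X ^ m - 1) := by
    rw [hM, pl, Multiset.prod_X_sub_C_dvd_iff_le_roots hne, Multiset.le_iff_subset hs]
    intro x hx
    rw [mem_roots hne]
    simp [hs' x hx]
  obtain ⟨r, hr⟩ := h2
  have h4 := congrArg (aeval M) hr
  rw [map_mul, Matrix.aeval_self_charpoly, zero_mul, map_sub, map_pow, aeval_X, map_one, sub_eq_zero] at h4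
  exact h4

end

section
variable {F : Type*} [Field F] [Fintype F] {k : Type*} [Field k] [Algebra F k]

/-- the Frobenius map permutes the eigenvalues -/
theorem spec_frob {n : ℕ} {M : Matrix (Fin n) (Fin n) F} {s : Multiset k} (h : (M.map (algebraMap F k)).charpoly = pl s) :
    s.map (fun x => x ^ Fintype.card F) = s := by
  have h1 : (pl s).map (FiniteField.frobeniusAlgHom F k : k →+* k) = pl s := by
    rw [← h, charpoly_map, Polynomial.map_map]
    congr 1
    exact AlgHom.comp_algebraMap _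
  have h2 := congrArg Polynomial.roots h1
  rw [pl_map, pl_roots, pl_roots] at h2
  exact h2

end

end Cfsg.Agent.G7
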