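import Cfsg.Agent.G7.Omega
import Mathlib.RingTheory.RootsOfUnity.AlgebraicallyClosed

set_option autoImplicit false
set_option maxHeartbeats 4000000

/-!
The Steinberg cross section.
-/

namespace Cfsg.Agent.G7

open Matrix Polynomial

section
variable {R : Type*} [CommRing R]

/-- the elements of the cross section, as matrices -/
def Cm (s t : R) : Matrix (Fin 7) (Fin 7) R := !![-t, 1, 0, 0, 0, 0, 0; s, 0, t ^ 2, 2 * t, -1, 0, 0; 1, 0, 0, 0, 0, 0, 0; 0, 0, -t, -1, 0, 0, 0; 0, 0, s, 0, 0, t, 1; 0, 0, -1, 0, 0, 0, 0; 0, 0, 0, 0, 0, 1, 0]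

/-- the elements of the cross section -/
def cs (s t : R) : GL (Fin 7) R := xu 6 s * (xu 6 1 * (xu 5 (-1) * xu 6 1)) * (xu 7 t * (xu 7 1 * (xu 4 (-1) * xu 7 1)))

lemma cs_mem (s t : R) : cs s t ∈ Grp R := by
  have m : ∀ {r : ℕ} (_ : r < 12) (t : R), xu r t ∈ Grp R := fun hr t => xu_mem hr t
  exact mul_mem (mul_mem (m (by norm_num) _) (mul_mem (m (by norm_num) _) (mul_mem (m (by norm_num) _) (m (by norm_num) _))))
    (mul_mem (m (by norm_num) _) (mul_mem (m (by norm_num) _) (mul_mem (m (by norm_num) _) (m (by norm_num) _))))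

lemma coe_cs (s t : R) : (cs s t : Matrix (Fin 7) (Fin 7) R) = Cm s t := by
  apply mat_ext
  intro v
  rw [cs]
  simp only [Units.val_mul, coe_xu, ← mulVec_mulVec]
  rw [xr_mulVec (by norm_num), xr_mulVec (by norm_num), xr_mulVec (by norm_num), xr_mulVec (by norm_num),
    xr_mulVec (by norm_num), xr_mulVec (by norm_num), xr_mulVec (by norm_num), xr_mulVec (by norm_num)]
  ext i
  rw [mv7]
  fin_cases i <;> simp [Cm, xv] <;> ring

lemma cm_det (x s t : R) : (!![x + t, -1, 0, 0, 0, 0, 0; -s, x, -t ^ 2, -(2 * t), 1, 0, 0; -1, 0, x, 0, 0, 0, 0; 0, 0, t, x + 1, 0, 0, 0; 0, 0, -s, 0, x, -t, -1; 0, 0, 1, 0, 0, x, 0; 0, 0, 0, 0, 0, -1, x] : Matrix (Fin 7) (Fin 7) R).det =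
   x ^ 7 + (t + 1) * x ^ 6 + (t - s) * x ^ 5 - (t ^ 2 + s) * x ^ 4 + (t ^ 2 + s) * x ^ 3 + (s - t) * x ^ 2 - (t + 1) * x - 1 := by
  simp [Matrix.det_succ_row_zero, Fin.sum_univ_succ, Fin.succAbove]
  ring

lemma charpoly_Cm (s t : R) : (Cm s t).charpoly = X ^ 7 + (C t + 1) * X ^ 6 + (C t - C s) * X ^ 5 - (C t ^ 2 + C s) * X ^ 4 + (C t ^ 2 + C s) * X ^ 3
    + (C s - C t) * X ^ 2 - (C t + 1) * X - 1 := by
  have hC : (C (2 : R) : R[X]) = 2 := map_ofNat C 2
  rw [← cm_det, Matrix.charpoly]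
  congr 1
  ext1 i j
  rw [charmatrix_apply]
  fin_cases i <;> fin_cases j <;> simp [Cm, hC]

lemma Cm_map {S : Type*} [CommRing S] (f : R →+* S) (s t : R) : (Cm s t).map f = Cm (f s) (f t) := by
  have h2 : f 2 = 2 := map_ofNat f 2
  ext i j
  fin_cases i <;> fin_cases j <;> simp [Cm, h2]

lemma gm_cs {S : Type*} [CommRing S] (f : R →+* S) (s t : R) : gm f (cs s t) = cs (f s) (f t) := by
  apply Units.ext
  rw [coe_gm, coe_cs, coe_cs, Cm_map]

/-- iterates of the first vector -/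
lemma Cm1 (s t : R) : Cm s t *ᵥ ![1, 0, 0, 0, 0, 0, 0] = ![-t, s, 1, 0, 0, 0, 0] := by
  ext i; rw [mv7]; fin_cases i <;> simp [Cm]

lemma Cm2 (s t : R) : Cm s t *ᵥ ![-t, s, 1, 0, 0, 0, 0] = ![t ^ 2 + s, t ^ 2 - s * t, -t, -t, s, -1, 0] := by
  ext i; rw [mv7]; fin_cases i <;> simp [Cm] <;> ring

lemma Cm3 (s t : R) : Cm s t *ᵥ ![t ^ 2 + s, t ^ 2 - s * t, -t, -t, s, -1, 0] =
    ![-t ^ 3 - 2 * s * t + t ^ 2, s * t ^ 2 + s ^ 2 - t ^ 3 - 2 * t ^ 2 - s, t ^ 2 + s, t ^ 2 + t, -s * t - t, t, -1] := by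
  ext i; rw [mv7]; fin_cases i <;> simp [Cm] <;> ring

end

variable {K : Type*} [Field K]

lemma pl_spc_form {a b c : K} (h1 : a * b * c = 1) : pl (spc a b c) =
    (X - 1) * (X ^ 3 - C (a + b + c) * X ^ 2 + C (a * b + a * c + b * c) * X - 1) * (X ^ 3 - C (a * b + a * c + b * c) * X ^ 2 + C (a + b + c) * X - 1) := by
  obtain ⟨i1, i2, i3⟩ := inv_eqs h1
  rw [pl_spc, i1, i2, i3]
  have e1 : (X ^ 3 - C (a + b + c) * X ^ 2 + C (a * b + a * c + b * c) * X - 1 : K[X]) = (X - C a) * ((X - C b) * (X - C c)) := by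
    have : (1 : K[X]) = C (a * b * c) := by rw [h1, map_one]
    rw [this]
    simp only [map_add, map_mul]
    ring
  have e2 : (X ^ 3 - C (a * b + a * c + b * c) * X ^ 2 + C (a + b + c) * X - 1 : K[X]) = (X - C (b * c)) * ((X - C (a * c)) * (X - C (a * b))) := by
    have h5 : (C (a * b * c) : K[X]) = 1 := by rw [h1, map_one]
    simp only [map_add, map_mul] at h5 ⊢
    linear_combination (C a * C b * C c + 1 - (C a + C b + C c) * X) * h5
  rw [e1, e2, map_one]
  ring

lemma charpoly_of_abc {a b c s t : K} (h1 : a * b * c = 1) (ht : t = -((a + b + c) + (a * b + a * c + b * c) + 2))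
    (hs : s = -(3 * ((a + b + c) + (a * b + a * c + b * c)) + 2 + (a + b + c) * (a * b + a * c + b * c))) :
    (Cm s t).charpoly = pl (spc a b c) := by
  rw [pl_spc_form h1, charpoly_Cm, expand_poly, hs, ht]
  generalize a + b + c = α
  generalize a * b + a * c + b * c = β
  simp only [map_add, map_neg, map_mul, map_pow, map_one, map_ofNat]
  ring

section finite
variable {F : Type*} [Field F] [Fintype F] {k : Type*} [Field k] [Algebra F k]

/-- the fixed points of the Frobenius map -/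
theorem descend {x : k} (hx : x ^ Fintype.card F = x) : ∃ y : F, algebraMap F k y = x := by
  classical
  have h1 : ((Finset.univ.val.map fun y : F => X - C y).prod : F[X]) = X ^ Fintype.card F - X := by
    rw [← FiniteField.roots_X_pow_card_sub_X F]
    apply prod_multiset_X_sub_C_of_monic_of_roots_card_eq
    · apply monic_X_pow_sub
      rw [degree_X]
      exact_mod_cast Fintype.one_lt_card
    · rw [FiniteField.roots_X_pow_card_sub_X, FiniteField.X_pow_card_sub_X_natDegree_eq F Fintype.one_lt_card]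
      rfl
  have h2 := congrArg (fun P : F[X] => aeval x P) h1
  simp only [map_sub, map_pow, aeval_X, hx, sub_self] at h2
  rw [map_multiset_prod, Multiset.prod_eq_zero_iff, Multiset.map_map, Multiset.mem_map] at h2
  obtain ⟨y, -, hy⟩ := h2
  refine ⟨y, ?_⟩
  simp only [Function.comp_apply, map_sub, aeval_X, aeval_C] at hy
  exact (sub_eq_zero.1 hy).symm

/-- eigenvalues give lower bounds for the order -/
lemma eig_pow {n : ℕ} {M : Matrix (Fin n) (Fin n) k} {x : k} (hx : M.charpoly.IsRoot x) {m : ℕ} (hm : M ^ m = 1) : x ^ m = 1 := by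
  have h1 : Module.End.HasEigenvalue (toLin' M) x := by
    rw [Module.End.hasEigenvalue_iff_isRoot_charpoly, Matrix.charpoly_toLin']
    exact hx
  obtain ⟨v, hv⟩ := h1.exists_hasEigenvector
  have h2 := hv.pow_apply m
  rw [← toLin'_pow, hm, toLin'_one, LinearMap.id_apply] at h2
  have h3 : (x ^ m - 1) • v = 0 := by rw [sub_smul, one_smul, ← h2, sub_self]
  rcases smul_eq_zero.1 h3 with h | h
  · exact sub_eq_zero.1 h
  · exact absurd h hv.2

end finite

end Cfsg.Agent.G7
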