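import Cfsg.Agent.G7.Ex1

set_option autoImplicit false
set_option maxHeartbeats 1000000

/-!
Existence of elements of given orders.
-/

namespace Cfsg.Agent.G7

open Matrix Polynomial

section
variable {F : Type*} [Field F] [Fintype F]

lemma exists_of_abc {a b c : AlgebraicClosure F} (h1 : a * b * c = 1)
    (hσ : ((a + b + c) + (a * b + a * c + b * c)) ^ Fintype.card F = (a + b + c) + (a * b + a * c + b * c))
    (hπ : ((a + b + c) * (a * b + a * c + b * c)) ^ Fintype.card F = (a + b + c) * (a * b + a * c + b * c)) :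
    ∃ g ∈ Grp F, (∃ s t : F, g = cs s t) ∧ (gm (algebraMap F (AlgebraicClosure F)) g : Matrix (Fin 7) (Fin 7) (AlgebraicClosure F)).charpoly = pl (spc a b c) := by
  obtain ⟨σ, hσ'⟩ := descend hσ
  obtain ⟨π, hπ'⟩ := descend hπ
  refine ⟨cs (-(3 * σ + 2 + π)) (-(σ + 2)), cs_mem _ _, ⟨_, _, rfl⟩, ?_⟩
  rw [gm_cs, coe_cs]
  apply charpoly_of_abc h1
  · rw [← hσ']; simp only [map_neg, map_add, map_mul, map_ofNat]
  · rw [← hσ', ← hπ']; simp only [map_neg, map_add, map_mul, map_ofNat]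

lemma dvd_of_pow {g : GL (Fin 7) F} {a b c x : AlgebraicClosure F}
    (hM : (gm (algebraMap F (AlgebraicClosure F)) g : Matrix (Fin 7) (Fin 7) (AlgebraicClosure F)).charpoly = pl (spc a b c))
    (hx : x ∈ spc a b c) {m : ℕ} (hm : g ^ m = 1) : x ^ m = 1 := by
  apply eig_pow (M := (gm (algebraMap F (AlgebraicClosure F)) g : Matrix (Fin 7) (Fin 7) (AlgebraicClosure F)))
  · rw [hM, ← mem_roots (by rw [← hM]; exact (charpoly_monic _).ne_zero), pl_roots]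
    exact hx
  · rw [← Units.val_pow_eq_pow_val, ← map_pow, hm, map_one, Units.val_one]

/-- tori of the first kind -/
theorem exists_t1 {n : ℕ} {ζ : AlgebraicClosure F} (hζ : IsPrimitiveRoot ζ n) (hn : n = Fintype.card F ^ 2 - 1) :
    ∃ g ∈ Grp F, ∀ m, g ^ m = 1 → n ∣ m := by
  obtain ⟨φ, hφ⟩ : ∃ φ : AlgebraicClosure F →+* AlgebraicClosure F, ∀ x, φ x = x ^ Fintype.card F :=
    ⟨(FiniteField.frobeniusAlgHom F (AlgebraicClosure F) : AlgebraicClosure F →+* AlgebraicClosure F), fun x => rfl⟩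
  have hq : 2 ≤ Fintype.card F := Fintype.one_lt_card
  have hq2 : Fintype.card F ≤ Fintype.card F ^ 2 := Nat.le_self_pow two_ne_zero _
  have hn0 : n ≠ 0 := by
    have : 2 * 2 ≤ Fintype.card F ^ 2 := by rw [pow_two]; exact Nat.mul_le_mul hq hq
    omega
  have z0 : ζ ≠ 0 := hζ.ne_zero hn0
  have h1 : φ (φ ζ) = ζ := by
    rw [hφ, hφ, ← pow_mul, ← pow_two, show Fintype.card F ^ 2 = n + 1 by omega, pow_succ, hζ.pow_eq_one, one_mul]
  have hb0 : φ ζ ≠ 0 := by rw [hφ]; exact pow_ne_zero _ z0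
  have habc : ζ * φ ζ * (ζ * φ ζ)⁻¹ = 1 := mul_inv_cancel₀ (mul_ne_zero z0 hb0)
  have hc : φ ((ζ * φ ζ)⁻¹) = (ζ * φ ζ)⁻¹ := by rw [map_inv₀, map_mul, h1, mul_comm]
  obtain ⟨g, hg, -, hM⟩ := exists_of_abc (F := F) habc (by rw [← hφ]; simp only [map_add, map_mul, h1, hc]; ring)
    (by rw [← hφ]; simp only [map_add, map_mul, h1, hc]; ring)
  refine ⟨g, hg, fun m hm => hζ.dvd_of_pow_eq_one m (dvd_of_pow hM (x := ζ) (mem_spc.2 (by simp)) hm)⟩

theorem exists_t2 {n : ℕ} {ζ : AlgebraicClosure F} (hζ : IsPrimitiveRoot ζ n) (hn : n = Fintype.card F ^ 2 + Fintype.card F + 1) :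
    ∃ g ∈ Grp F, ∀ m, g ^ m = 1 → n ∣ m := by
  obtain ⟨φ, hφ⟩ : ∃ φ : AlgebraicClosure F →+* AlgebraicClosure F, ∀ x, φ x = x ^ Fintype.card F :=
    ⟨(FiniteField.frobeniusAlgHom F (AlgebraicClosure F) : AlgebraicClosure F →+* AlgebraicClosure F), fun x => rfl⟩
  have hn0 : n ≠ 0 := by omega
  have z0 : ζ ≠ 0 := hζ.ne_zero hn0
  have h1 : ζ * φ ζ * φ (φ ζ) = 1 := by
    rw [hφ, hφ, ← pow_mul, ← pow_two, ← hζ.pow_eq_one, hn]
    ring
  have h2 : φ (φ (φ ζ)) = ζ := by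
    have h3 := congrArg φ h1
    rw [map_mul, map_mul, map_one] at h3
    have h4 : φ ζ * φ (φ ζ) ≠ 0 := by
      rw [hφ, hφ]; exact mul_ne_zero (pow_ne_zero _ z0) (pow_ne_zero _ (pow_ne_zero _ z0))
    apply mul_left_cancel₀ h4
    rw [h3, ← h1]; ring
  obtain ⟨g, hg, -, hM⟩ := exists_of_abc (F := F) h1 (by rw [← hφ]; simp only [map_add, map_mul, h2]; ring)
    (by rw [← hφ]; simp only [map_add, map_mul, h2]; ring)
  refine ⟨g, hg, fun m hm => hζ.dvd_of_pow_eq_one m (dvd_of_pow hM (x := ζ) (mem_spc.2 (by simp)) hm)⟩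

theorem exists_t3 {n : ℕ} {ζ : AlgebraicClosure F} (hζ : IsPrimitiveRoot ζ n) (hn : n = Fintype.card F ^ 2 - Fintype.card F + 1) :
    ∃ g ∈ Grp F, ∀ m, g ^ m = 1 → n ∣ m := by
  obtain ⟨φ, hφ⟩ : ∃ φ : AlgebraicClosure F →+* AlgebraicClosure F, ∀ x, φ x = x ^ Fintype.card F :=
    ⟨(FiniteField.frobeniusAlgHom F (AlgebraicClosure F) : AlgebraicClosure F →+* AlgebraicClosure F), fun x => rfl⟩
  have hn0 : n ≠ 0 := by omega
  have hq2 : Fintype.card F ≤ Fintype.card F ^ 2 := Nat.le_self_pow two_ne_zero _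
  have z0 : ζ ≠ 0 := hζ.ne_zero hn0
  have p0 : φ ζ ≠ 0 := by rw [hφ]; exact pow_ne_zero _ z0
  have h1 : ζ * φ (φ ζ) = φ ζ := by
    rw [hφ, hφ, ← pow_mul, ← pow_two, ← pow_succ', show Fintype.card F ^ 2 + 1 = n + Fintype.card F by omega, pow_add, hζ.pow_eq_one, one_mul]
  have habc : ζ * (φ ζ)⁻¹ * φ (φ ζ) = 1 := by
    rw [mul_right_comm, h1, mul_inv_cancel₀ p0]
  have h2 : φ (φ (φ ζ)) = ζ⁻¹ := by
    have h3 := congrArg φ h1
    rw [map_mul] at h3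
    apply mul_left_cancel₀ p0
    rw [h3]
    apply mul_left_cancel₀ z0
    rw [h1, ← mul_assoc, mul_comm, ← mul_assoc, inv_mul_cancel₀ z0, one_mul]
  obtain ⟨i1, i2, i3⟩ := inv_eqs habc
  rw [inv_inv] at i2
  have s1 : ζ + (φ ζ)⁻¹ + φ (φ ζ) + (ζ * (φ ζ)⁻¹ + ζ * φ (φ ζ) + (φ ζ)⁻¹ * φ (φ ζ)) =
      ζ + (φ ζ)⁻¹ + φ (φ ζ) + ((φ (φ ζ))⁻¹ + φ ζ + ζ⁻¹) := by rw [i1, i3, h1]
  have s2 : (ζ + (φ ζ)⁻¹ + φ (φ ζ)) * (ζ * (φ ζ)⁻¹ + ζ * φ (φ ζ) + (φ ζ)⁻¹ * φ (φ ζ)) =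
      (ζ + (φ ζ)⁻¹ + φ (φ ζ)) * ((φ (φ ζ))⁻¹ + φ ζ + ζ⁻¹) := by rw [i1, i3, h1]
  obtain ⟨g, hg, -, hM⟩ := exists_of_abc (F := F) habc (by rw [s1, ← hφ]; simp only [map_add, map_mul, map_inv₀, h2, inv_inv]; ring)
    (by rw [s2, ← hφ]; simp only [map_add, map_mul, map_inv₀, h2, inv_inv]; ring)
  refine ⟨g, hg, fun m hm => hζ.dvd_of_pow_eq_one m (dvd_of_pow hM (x := ζ) (mem_spc.2 (by simp)) hm)⟩

end

/-- diagonalizable matrices -/
lemma kill {K : Type*} [Field K] {n : ℕ} {M : Matrix (Fin n) (Fin n) K} {s t : Multiset K} (hM : M.charpoly = pl s) (hst : ∀ x ∈ s, x ∈ t)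
    {m : ℕ} (hm : M ^ m = 1) (hm0 : (m : K) ≠ 0) : aeval M (pl t) = 0 := by
  have h1 : minpoly K M ∣ X ^ m - 1 := minpoly.dvd _ _ (by simp [hm])
  have h2 : (minpoly K M).Separable := by
    have : (X ^ m - 1 : K[X]).Separable := X_pow_sub_one_separable_iff.2 hm0
    exact this.of_dvd h1
  have h3 : minpoly K M ∣ pl s := by rw [← hM]; exact Matrix.minpoly_dvd_charpoly M
  have h3' : (pl s).Splits := by
    rw [pl]
    apply Polynomial.Splits.multisetProd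
    intro f hf
    obtain ⟨x, -, rfl⟩ := Multiset.mem_map.1 hf
    exact Polynomial.Splits.X_sub_C x
  have h0 : pl s ≠ 0 := by rw [← hM]; exact (charpoly_monic M).ne_zero
  have h4 : (minpoly K M).Splits := Polynomial.Splits.of_dvd h3' h0 h3
  have h5 : minpoly K M = pl (minpoly K M).roots := by
    rw [pl]
    exact h4.eq_prod_roots_of_monic (minpoly.monic (Matrix.isIntegral M))
  have h6 : pl (minpoly K M).roots ∣ pl t := by
    rw [pl, pl]
    apply Multiset.prod_dvd_prod_of_le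
    apply Multiset.map_le_map
    rw [Multiset.le_iff_subset (nodup_roots h2)]
    intro x hx
    apply hst
    rw [← pl_roots s]
    exact Multiset.mem_of_le (roots.le_of_dvd h0 h3) hx
  rw [← h5] at h6
  obtain ⟨r, hr⟩ := h6
  rw [hr, map_mul, minpoly.aeval, zero_mul]

end Cfsg.Agent.G7
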