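import Cfsg.Agent.G7.Ex2

set_option autoImplicit false
set_option maxHeartbeats 1000000

/-!
Existence of elements of given orders, the orders divisible by the characteristic.
-/

namespace Cfsg.Agent.G7

open Matrix Polynomial

section
variable {R : Type*} [CommRing R]

lemma Cm_i6 (s t : R) (v : Fin 7 → R) : (Cm s t *ᵥ v) 6 = v 5 := by rw [mv7]; simp [Cm]

lemma Cm_i5 (s t : R) (v : Fin 7 → R) : (Cm s t *ᵥ v) 5 = -v 2 := by rw [mv7]; simp [Cm]

lemma Cm_i2 (s t : R) (v : Fin 7 → R) : (Cm s t *ᵥ v) 2 = v 0 := by rw [mv7]; simp [Cm]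

lemma Cm_i0 (s t : R) (v : Fin 7 → R) : (Cm s t *ᵥ v) 0 = -t * v 0 + v 1 := by rw [mv7]; simp [Cm]

/-- the iterates -/
lemma Cm_p3 (s t : R) : (Cm s t ^ 3) *ᵥ ![1, 0, 0, 0, 0, 0, 0] =
    ![-t ^ 3 - 2 * s * t + t ^ 2, s * t ^ 2 + s ^ 2 - t ^ 3 - 2 * t ^ 2 - s, t ^ 2 + s, t ^ 2 + t, -s * t - t, t, -1] := by
  rw [pow_succ, pow_two, ← mulVec_mulVec, ← mulVec_mulVec, Cm1, Cm2, Cm3]

lemma Cm_p2 (s t : R) : (Cm s t ^ 2) *ᵥ ![1, 0, 0, 0, 0, 0, 0] = ![t ^ 2 + s, t ^ 2 - s * t, -t, -t, s, -1, 0] := by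
  rw [pow_two, ← mulVec_mulVec, Cm1, Cm2]

lemma ne_of_apply {M : Matrix (Fin 7) (Fin 7) R} {i : Fin 7} (hi : i ≠ 0) (h : (M *ᵥ ![1, 0, 0, 0, 0, 0, 0]) i ≠ 0) : M ≠ 1 := by
  rintro rfl
  apply h
  rw [one_mulVec]
  fin_cases i
  · exact absurd rfl hi
  all_goals rfl

end

section
variable {k : Type*} [Field k]

/-- the elements of the cross section with three different eigenvalues are not semisimple -/
lemma not_ss {s t l : k} {m : ℕ} (hM : (Cm s t).charpoly = pl (spc 1 l l⁻¹)) (hm0 : (m : k) ≠ 0) : (Cm s t) ^ m ≠ 1 := by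
  intro hm
  have h := kill hM (t := {1, l, l⁻¹}) (by
    intro x hx
    rcases mem_spc.1 hx with h | h | h | h | h | h | h <;> rw [h] <;> simp) hm hm0
  have h2 : pl ({1, l, l⁻¹} : Multiset k) = X ^ 3 - C (1 + l + l⁻¹) * X ^ 2 + C (l + l⁻¹ + l * l⁻¹) * X - C (l * l⁻¹) := by
    simp only [Multiset.insert_eq_cons, pl_cons, pl_singleton, map_add, map_mul, map_one]
    ring
  rw [h2] at h
  generalize 1 + l + l⁻¹ = u at h
  generalize l + l⁻¹ + l * l⁻¹ = v at h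
  generalize l * l⁻¹ = w at h
  rw [map_sub, map_add, map_sub, map_mul, map_mul, map_pow, aeval_X, aeval_C, aeval_C, aeval_C, Algebra.algebraMap_eq_smul_one,
    Algebra.algebraMap_eq_smul_one, Algebra.algebraMap_eq_smul_one, smul_mul_assoc, smul_mul_assoc, one_mul, one_mul, map_pow, aeval_X] at h
  have h3 := congrFun (congrArg (fun N => N *ᵥ (![1, 0, 0, 0, 0, 0, 0] : Fin 7 → k)) h) 6
  simp only [add_mulVec, sub_mulVec, smul_mulVec, one_mulVec, zero_mulVec, Cm_p3, Cm_p2, Cm1, Pi.add_apply, Pi.sub_apply, Pi.smul_apply,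
    Pi.zero_apply] at h3
  simp at h3

end

end Cfsg.Agent.G7
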