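import Cfsg.Agent.G7.Ex3

set_option autoImplicit false
set_option maxHeartbeats 1000000

/-!
Existence of elements of given orders.
-/

namespace Cfsg.Agent.G7

open Matrix Polynomial

section
variable {F : Type*} [Field F] [Fintype F]
set_option linter.unusedSectionVars false

lemma gm_pow_eq {g : GL (Fin 7) F} {n : ℕ}
    (h : (gm (algebraMap F (AlgebraicClosure F)) g : Matrix (Fin 7) (Fin 7) (AlgebraicClosure F)) ^ n = 1) : g ^ n = 1 := by
  apply gm_inj (algebraMap F (AlgebraicClosure F)) (algebraMap F (AlgebraicClosure F)).injective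
  apply Units.ext
  rw [map_pow, map_one, Units.val_pow_eq_pow_val, Units.val_one, h]

lemma prim {p a n : ℕ} (hp : p.Prime) (hF : Fintype.card F = p ^ a) (hn : Nat.Coprime p n) : ∃ ζ : AlgebraicClosure F, IsPrimitiveRoot ζ n := by
  have : Fact p.Prime := ⟨hp⟩
  have hc : CharP F p := charP_of_card_eq_prime_pow hF
  have hck : CharP (AlgebraicClosure F) p := charP_of_injective_algebraMap (algebraMap F (AlgebraicClosure F)).injective p
  have hne : NeZero (n : AlgebraicClosure F) := by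
    constructor
    rw [Ne, CharP.cast_eq_zero_iff (AlgebraicClosure F) p]
    intro h
    have := Nat.Coprime.eq_one_of_dvd hn h
    exact hp.one_lt.ne' this
  exact HasEnoughRootsOfUnity.exists_primitiveRoot (AlgebraicClosure F) n

theorem exists_pd {p a δ : ℕ} (hp : p.Prime) (ha : 1 ≤ a) (hF : Fintype.card F = p ^ a) (hδ : δ = p ^ a - 1 ∨ δ = p ^ a + 1) (hδ3 : 3 ≤ δ) :
    ∃ g ∈ Grp F, (∀ m, g ^ m = 1 → δ * p ∣ m) ∧ ∃ l : AlgebraicClosure F, l ≠ 0 ∧ l ^ δ = 1 ∧ l ^ 2 ≠ 1 ∧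
      (gm (algebraMap F (AlgebraicClosure F)) g : Matrix (Fin 7) (Fin 7) (AlgebraicClosure F)).charpoly = pl (spc 1 l l⁻¹) := by
  have : Fact p.Prime := ⟨hp⟩
  have hc : CharP F p := charP_of_card_eq_prime_pow hF
  have hck : CharP (AlgebraicClosure F) p := charP_of_injective_algebraMap (algebraMap F (AlgebraicClosure F)).injective p
  have hpa : p ∣ p ^ a := dvd_pow_self p (by omega)
  have hpos : 0 < p ^ a := pow_pos hp.pos a
  have hcop : Nat.Coprime p δ := by
    rw [Nat.Prime.coprime_iff_not_dvd hp]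
    intro h
    rcases hδ with rfl | rfl
    · have h1 : p ∣ 1 := by
        have := (Nat.dvd_sub hpa h)
        rwa [show p ^ a - (p ^ a - 1) = 1 by omega] at this
      exact hp.one_lt.ne' (Nat.dvd_one.1 h1)
    · have h1 : p ∣ 1 := (Nat.dvd_add_right hpa).1 h
      exact hp.one_lt.ne' (Nat.dvd_one.1 h1)
  obtain ⟨l, hl⟩ := prim (F := F) hp hF hcop
  have hδ0 : δ ≠ 0 := by omega
  have l0 : l ≠ 0 := hl.ne_zero hδ0
  obtain ⟨φ, hφ⟩ : ∃ φ : AlgebraicClosure F →+* AlgebraicClosure F, ∀ x, φ x = x ^ Fintype.card F :=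
    ⟨(FiniteField.frobeniusAlgHom F (AlgebraicClosure F) : AlgebraicClosure F →+* AlgebraicClosure F), fun x => rfl⟩
  have hφl : φ l = l ∨ φ l = l⁻¹ := by
    rw [hφ, hF]
    rcases hδ with h | h
    · left
      rw [show p ^ a = δ + 1 by omega, pow_succ, hl.pow_eq_one, one_mul]
    · right
      apply eq_inv_of_mul_eq_one_left
      rw [← pow_succ, ← h, hl.pow_eq_one]
  have hsum : φ (l + l⁻¹) = l + l⁻¹ := by
    rw [map_add, map_inv₀]
    rcases hφl with h | h
    · rw [h]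
    · rw [h, inv_inv, add_comm]
  have habc : 1 * l * l⁻¹ = 1 := by rw [one_mul, mul_inv_cancel₀ l0]
  have e1 : (1 + l + l⁻¹) + (1 * l + 1 * l⁻¹ + l * l⁻¹) = 2 * (l + l⁻¹) + 2 := by rw [mul_inv_cancel₀ l0]; ring
  have e2 : (1 + l + l⁻¹) * (1 * l + 1 * l⁻¹ + l * l⁻¹) = ((l + l⁻¹) + 1) ^ 2 := by rw [mul_inv_cancel₀ l0]; ring
  obtain ⟨g, hg, ⟨s, t, hst⟩, hM⟩ := exists_of_abc (F := F) habc (by rw [e1, ← hφ, map_add, map_mul, hsum, map_ofNat])
    (by rw [e2, ← hφ, map_pow, map_add, hsum, map_one])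
  refine ⟨g, hg, ?_, l, l0, hl.pow_eq_one, ?_, hM⟩
  · intro m hm
    have h1 : δ ∣ m := hl.dvd_of_pow_eq_one m (dvd_of_pow hM (x := l) (mem_spc.2 (by simp)) hm)
    have h2 : p ∣ m := by
      by_contra h2
      have hm0 : (m : AlgebraicClosure F) ≠ 0 := by
        rw [Ne, CharP.cast_eq_zero_iff (AlgebraicClosure F) p]
        exact h2
      have hM' := hM
      rw [hst, gm_cs, coe_cs] at hM'
      apply not_ss hM' hm0
      rw [← coe_cs, ← gm_cs, ← hst, ← Units.val_pow_eq_pow_val, ← map_pow, hm, map_one, Units.val_one]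
    exact Nat.Coprime.mul_dvd_of_dvd_of_dvd hcop.symm h1 h2
  · intro h
    have := hl.dvd_of_pow_eq_one 2 h
    have := Nat.le_of_dvd (by norm_num) this
    omega

/-- odd characteristic -/
theorem exists_pd_odd {p a δ : ℕ} (hp : p.Prime) (hp2 : p ≠ 2) (ha : 1 ≤ a) (hF : Fintype.card F = p ^ a) (hδ : δ = p ^ a - 1 ∨ δ = p ^ a + 1) (hδ3 : 3 ≤ δ) :
    ∃ g ∈ Grp F, orderOf g = p * δ := by
  have : Fact p.Prime := ⟨hp⟩
  have hc : CharP F p := charP_of_card_eq_prime_pow hF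
  have hck : CharP (AlgebraicClosure F) p := charP_of_injective_algebraMap (algebraMap F (AlgebraicClosure F)).injective p
  obtain ⟨g, hg, hlow, l, l0, hlδ, hl2, hM⟩ := exists_pd hp ha hF hδ hδ3
  refine ⟨g, hg, ?_⟩
  have hlδ' : l⁻¹ ^ δ = 1 := by rw [inv_pow, hlδ, inv_one]
  obtain ⟨e1, e2, e3⟩ := sq_ne_one l0 hl2
  have hp3 : 3 ≤ p ^ 1 := by have := hp.two_le; rw [pow_one]; omega
  have hup : g ^ (δ * p) = 1 := by
    apply gm_pow_eq
    have := pow_eq_one_of_list (M := (gm (algebraMap F (AlgebraicClosure F)) g : Matrix (Fin 7) (Fin 7) (AlgebraicClosure F))) p (m := δ) (j := 1) (by omega)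
      [{1, l, l⁻¹}, {1, l, l⁻¹}, {1}] (by simp [hlδ, e2, e3, e1.symm, e2.symm]) ?_ hp3
    · rwa [pow_one] at this
    · rw [hM, pl_spc]
      simp only [List.sum_cons, List.sum_nil, pl_add, pl_singleton, pl_zero, inv_one, inv_inv, Multiset.insert_eq_cons, pl_cons]
      ring
  rw [mul_comm p δ]
  exact Nat.dvd_antisymm (orderOf_dvd_of_pow_eq_one hup) (hlow _ (pow_orderOf_eq_one g))

lemma qd_up {g : GL (Fin 7) F} (hg : g ∈ Grp F) [CharP F 2] {n : ℕ}
    (h : (qd (gm (algebraMap F (AlgebraicClosure F)) g : Matrix (Fin 7) (Fin 7) (AlgebraicClosure F))) ^ n = 1) : g ^ n = 1 := by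
  have hck : CharP (AlgebraicClosure F) 2 := charP_of_injective_algebraMap (algebraMap F (AlgebraicClosure F)).injective 2
  have h2 : (2 : AlgebraicClosure F) = 0 := CharTwo.two_eq_zero
  apply gm_pow_eq
  have hm := gm_mem (algebraMap F (AlgebraicClosure F)) hg
  rw [← Units.val_pow_eq_pow_val, qd_faithful h2 (pow_mem hm n) (by rw [qd_pow h2 hm, h]), Units.val_one]

lemma qd_cp {k : Type*} [Field k] (h2 : (2 : k) = 0) {g : GL (Fin 7) k} (hg : g ∈ Grp k) {a b c : k}
    (hM : (g : Matrix (Fin 7) (Fin 7) k).charpoly = pl (spc a b c)) :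
    (qd (g : Matrix (Fin 7) (Fin 7) k)).charpoly = pl (spd a b c) := by
  rw [qd_charpoly h2 hg, spc_eq, pl_cons, map_one] at hM
  exact mul_left_cancel₀ (by simpa using X_sub_C_ne_zero (1 : k)) hM

/-- even characteristic -/
theorem exists_pd_even {a δ : ℕ} (ha : 1 ≤ a) (hF : Fintype.card F = 2 ^ a) (hδ : δ = 2 ^ a - 1 ∨ δ = 2 ^ a + 1) (hδ3 : 3 ≤ δ) :
    ∃ g ∈ Grp F, orderOf g = 2 * δ := by
  have : Fact (Nat.Prime 2) := ⟨Nat.prime_two⟩
  have hc : CharP F 2 := charP_of_card_eq_prime_pow hF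
  have hck : CharP (AlgebraicClosure F) 2 := charP_of_injective_algebraMap (algebraMap F (AlgebraicClosure F)).injective 2
  have h2 : (2 : AlgebraicClosure F) = 0 := CharTwo.two_eq_zero
  obtain ⟨g, hg, hlow, l, l0, hlδ, hl2, hM⟩ := exists_pd Nat.prime_two ha hF hδ hδ3
  refine ⟨g, hg, ?_⟩
  have hlδ' : l⁻¹ ^ δ = 1 := by rw [inv_pow, hlδ, inv_one]
  obtain ⟨e1, e2, e3⟩ := sq_ne_one l0 hl2
  have hcp := qd_cp h2 (gm_mem (algebraMap F (AlgebraicClosure F)) hg) hM
  have hup : g ^ (δ * 2) = 1 := by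
    apply qd_up hg
    have := pow_eq_one_of_list (M := qd (gm (algebraMap F (AlgebraicClosure F)) g : Matrix (Fin 7) (Fin 7) (AlgebraicClosure F))) 2 (m := δ) (j := 1) (by omega)
      [{1, l, l⁻¹}, {1, l, l⁻¹}] (by simp [hlδ, e2, e3, e1.symm, e2.symm]) ?_ (by norm_num)
    · rwa [pow_one] at this
    · rw [hcp, pl_spd]
      simp only [List.sum_cons, List.sum_nil, pl_add, pl_singleton, pl_zero, inv_one, inv_inv, Multiset.insert_eq_cons, pl_cons]
      ring
  rw [mul_comm 2 δ]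
  exact Nat.dvd_antisymm (orderOf_dvd_of_pow_eq_one hup) (hlow _ (pow_orderOf_eq_one g))

lemma cs_pow_ne {R : Type*} [CommRing R] {s t : R} {n : ℕ} (h : Cm s t ^ n ≠ 1) : cs s t ^ n ≠ 1 := by
  intro h'
  apply h
  rw [← coe_cs, ← Units.val_pow_eq_pow_val, h', Units.val_one]

lemma cs_pow_eq {R : Type*} [CommRing R] {s t : R} {n : ℕ} (h : Cm s t ^ n = 1) : cs s t ^ n = 1 := by
  apply Units.ext
  rw [Units.val_pow_eq_pow_val, coe_cs, h, Units.val_one]

lemma cp_unip {K : Type*} [Field K] : (Cm (-29 : K) (-8)).charpoly = pl (spc 1 1 1) :=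
  charpoly_of_abc (by norm_num) (by norm_num) (by norm_num)

lemma unip_pow {K : Type*} [Field K] (p : ℕ) [Fact p.Prime] [CharP K p] {j : ℕ} (hj : 7 ≤ p ^ j) : (Cm (-29 : K) (-8)) ^ p ^ j = 1 := by
  have := pow_eq_one_of_list (M := Cm (-29 : K) (-8)) p (m := 1) (j := j) one_ne_zero [{1}, {1}, {1}, {1}, {1}, {1}, {1}] (by simp) ?_ hj
  · rwa [one_mul] at this
  · rw [cp_unip, pl_spc]
    simp only [List.sum_cons, List.sum_nil, pl_add, pl_singleton, pl_zero, inv_one]
    ring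

theorem exists_9 [CharP F 3] : ∃ g ∈ Grp F, orderOf g = 3 ^ 2 := by
  have : Fact (Nat.Prime 3) := ⟨Nat.prime_three⟩
  refine ⟨cs (-29) (-8), cs_mem _ _, ?_⟩
  apply orderOf_eq_prime_pow
  · apply cs_pow_ne
    rw [pow_one]
    apply ne_of_apply (i := 6) (by decide)
    rw [Cm_p3]
    simp
  · exact cs_pow_eq (unip_pow 3 (by norm_num))

theorem exists_25 [CharP F 5] : ∃ g ∈ Grp F, orderOf g = 5 ^ 2 := by
  have : Fact (Nat.Prime 5) := ⟨Nat.prime_five⟩
  refine ⟨cs (-29) (-8), cs_mem _ _, ?_⟩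
  apply orderOf_eq_prime_pow
  · apply cs_pow_ne
    rw [pow_one]
    apply ne_of_apply (i := 5) (by decide)
    rw [pow_succ', ← mulVec_mulVec, Cm_i5, pow_succ', ← mulVec_mulVec, Cm_i2, Cm_p3]
    simp only [Matrix.cons_val_zero]
    intro h
    have h2 : ((112 : ℕ) : F) = 0 := by push_cast; linear_combination -h
    rw [CharP.cast_eq_zero_iff F 5] at h2
    omega
  · exact cs_pow_eq (unip_pow 5 (by norm_num))

theorem exists_8 [CharP F 2] : ∃ g ∈ Grp F, orderOf g = 2 ^ 3 := by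
  have : Fact (Nat.Prime 2) := ⟨Nat.prime_two⟩
  have h2 : (2 : F) = 0 := CharTwo.two_eq_zero
  have hs : (-29 : F) = 1 := by linear_combination -15 * h2
  have ht : (-8 : F) = 0 := by linear_combination -4 * h2
  refine ⟨cs 1 0, cs_mem _ _, ?_⟩
  apply orderOf_eq_prime_pow
  · apply cs_pow_ne
    apply ne_of_apply (i := 5) (by decide)
    rw [show (2 : ℕ) ^ 2 = 3 + 1 from rfl, pow_succ', ← mulVec_mulVec, Cm_i5, Cm_p3]
    simp
  · have := unip_pow (K := F) 2 (j := 3) (by norm_num)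
    rw [hs, ht] at this
    exact cs_pow_eq this

theorem exists_12 [CharP F 2] {a : ℕ} (hF : Fintype.card F = 2 ^ a) : ∃ g ∈ Grp F, orderOf g = 12 := by
  have : Fact (Nat.Prime 2) := ⟨Nat.prime_two⟩
  have hck : CharP (AlgebraicClosure F) 2 := charP_of_injective_algebraMap (algebraMap F (AlgebraicClosure F)).injective 2
  have h2 : (2 : AlgebraicClosure F) = 0 := CharTwo.two_eq_zero
  have h2F : (2 : F) = 0 := CharTwo.two_eq_zero
  obtain ⟨w, hw⟩ := prim (F := F) Nat.prime_two hF (n := 3) (by norm_num)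
  have w3 := hw.pow_eq_one
  have w0 : w ≠ 0 := hw.ne_zero (by norm_num)
  have w1 : w ≠ 1 := hw.ne_one (by norm_num)
  have hsum : w ^ 2 + w + 1 = 0 := by
    have h : (w - 1) * (w ^ 2 + w + 1) = 0 := by linear_combination w3
    exact (mul_eq_zero.1 h).resolve_left (sub_ne_zero.2 w1)
  have hM : (gm (algebraMap F (AlgebraicClosure F)) (cs 0 1) : Matrix (Fin 7) (Fin 7) (AlgebraicClosure F)).charpoly = pl (spc w w w) := by
    rw [gm_cs, coe_cs, map_zero, map_one]
    apply charpoly_of_abc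
    · rw [← w3]; ring
    · linear_combination 3 * hsum
    · linear_combination h2 + 9 * w3 + 9 * hsum
  have hcp := qd_cp h2 (gm_mem (algebraMap F (AlgebraicClosure F)) (cs_mem 0 1)) hM
  obtain ⟨e1, e2, e3⟩ := sq_ne_one w0 (sq2 w1)
  refine ⟨cs 0 1, cs_mem _ _, ?_⟩
  apply orderOf_eq_of_pow_and_pow_div_prime (by norm_num)
  · apply qd_up (cs_mem 0 1)
    have := pow_eq_one_of_list (M := qd (gm (algebraMap F (AlgebraicClosure F)) (cs 0 1) : Matrix (Fin 7) (Fin 7) (AlgebraicClosure F))) 2 (m := 3) (j := 2)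
      three_ne_zero [{w, w⁻¹}, {w, w⁻¹}, {w, w⁻¹}] (by simp [e3, w3]) ?_ (by norm_num)
    · simpa using this
    · rw [hcp, pl_spd]
      simp only [List.sum_cons, List.sum_nil, pl_add, pl_singleton, pl_zero, Multiset.insert_eq_cons, pl_cons]
      ring
  · intro r hr hr'
    have hr3 : r = 2 ∨ r = 3 := by
      have h12 : r ∣ 2 ^ 2 * 3 := by simpa using hr'
      rcases (Nat.Prime.dvd_mul hr).1 h12 with h | h
      · exact Or.inl ((Nat.prime_dvd_prime_iff_eq hr Nat.prime_two).1 (hr.dvd_of_dvd_pow h))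
      · exact Or.inr ((Nat.prime_dvd_prime_iff_eq hr Nat.prime_three).1 h)
    apply cs_pow_ne
    rcases hr3 with rfl | rfl
    · apply ne_of_apply (i := 5) (by decide)
      rw [show (12 : ℕ) / 2 = 5 + 1 from rfl, pow_succ', ← mulVec_mulVec, Cm_i5, pow_succ', ← mulVec_mulVec, Cm_i2,
        pow_succ', ← mulVec_mulVec, Cm_i0, Cm_p3]
      simp only [Matrix.cons_val_zero, Matrix.cons_val_one]
      intro h
      have h3 : (1 : F) = 0 := by linear_combination h - h2F
      exact one_ne_zero h3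
    · apply ne_of_apply (i := 6) (by decide)
      rw [show (12 : ℕ) / 3 = 3 + 1 from rfl, pow_succ', ← mulVec_mulVec, Cm_i6, Cm_p3]
      simp

end

end Cfsg.Agent.G7
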