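import Cfsg.Agent.G7.Ex4
import Cfsg.Agent.G7.Iso

set_option autoImplicit false
set_option maxHeartbeats 1000000

/-!
The maximal element orders, odd characteristic.
-/

namespace Cfsg.Agent.G7

open Matrix Polynomial

/-- the set of maximal orders -/
def Lo (p q : ℕ) : Set ℕ := ({p * (q + 1), p * (q - 1), q ^ 2 - 1, q ^ 2 + q + 1, q ^ 2 - q + 1} : Set ℕ) ∪ (if p = 3 ∨ p = 5 then ({p ^ 2} : Set ℕ) else ∅)

lemma mem_Lo {p q n : ℕ} : n ∈ Lo p q ↔ n = p * (q + 1) ∨ n = p * (q - 1) ∨ n = q ^ 2 - 1 ∨ n = q ^ 2 + q + 1 ∨ n = q ^ 2 - q + 1 ∨ ((p = 3 ∨ p = 5) ∧ n = p ^ 2) := by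
  rw [Lo]
  split_ifs with h
  · simp [h]
    tauto
  · simp [h]

/-- no member divides another one -/
theorem Lo_antichain {p a q : ℕ} (hp : p.Prime) (hp2 : p ≠ 2) (ha : 1 ≤ a) (hq : q = p ^ a) (hq5 : 5 ≤ q) {m n : ℕ} (hm : m ∈ Lo p q) (hn : n ∈ Lo p q)
    (h : m ∣ n) : m = n := by
  have hp3 : 3 ≤ p := by have := hp.two_le; omega
  have hpq : p ∣ q := by rw [hq]; exact dvd_pow_self p (by omega)
  have hpq2 : p ∣ q ^ 2 := hpq.trans (dvd_pow_self q two_ne_zero)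
  have hple : p ≤ q := Nat.le_of_dvd (by omega) hpq
  have h5 : 5 * q ≤ q ^ 2 := by rw [pow_two]; exact Nat.mul_le_mul_right q hq5
  have hone : ¬ p ∣ 1 := fun h => hp.one_lt.ne' (Nat.dvd_one.1 h)
  have n1 : ¬ p ∣ q + 1 := fun h => hone ((Nat.dvd_add_right hpq).1 h)
  have n2 : ¬ p ∣ q - 1 := fun h => hone (by have := Nat.dvd_sub hpq h; rwa [show q - (q - 1) = 1 by omega] at this)
  have n3 : ¬ p ∣ q ^ 2 - 1 := fun h => hone (by have := Nat.dvd_sub hpq2 h; rwa [show q ^ 2 - (q ^ 2 - 1) = 1 by omega] at this)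
  have n4 : ¬ p ∣ q ^ 2 + q + 1 := fun h => hone ((Nat.dvd_add_right (dvd_add hpq2 hpq)).1 h)
  have n5 : ¬ p ∣ q ^ 2 - q + 1 := fun h => hone ((Nat.dvd_add_right (Nat.dvd_sub hpq2 hpq)).1 h)
  -- the members prime to p
  have big : ∀ m, (m = q ^ 2 - 1 ∨ m = q ^ 2 + q + 1 ∨ m = q ^ 2 - q + 1) → ∀ n, n ∈ Lo p q → m ∣ n → m = n := by
    intro m hm n hn h
    have hcop : Nat.Coprime m p := by
      rw [Nat.coprime_comm, Nat.Prime.coprime_iff_not_dvd hp]
      rcases hm with rfl | rfl | rfl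
      · exact n3
      · exact n4
      · exact n5
    have hmb : q + 1 < m := by omega
    rcases mem_Lo.1 hn with rfl | rfl | h' | h' | h' | ⟨-, rfl⟩
    · exact absurd (Nat.le_of_dvd (by omega) (hcop.dvd_of_dvd_mul_left h)) (by omega)
    · exact absurd (Nat.le_of_dvd (by omega) (hcop.dvd_of_dvd_mul_left h)) (by omega)
    all_goals first
      | (obtain ⟨c, hc⟩ := h
         have hc0 : c ≠ 0 := by rintro rfl; omega
         have hc2 : c < 2 := by
           by_contra hcon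
           have : m * 2 ≤ n := by rw [hc]; exact Nat.mul_le_mul_left m (by omega)
           omega
         have : c = 1 := by omega
         rw [hc, this, mul_one])
      | skip
    rw [pow_two] at h
    exact absurd (Nat.le_of_dvd hp.pos (hcop.dvd_of_dvd_mul_left h)) (by omega)
  rcases mem_Lo.1 hm with hm' | hm' | hm' | hm' | hm' | ⟨h35, hm'⟩
  · -- p (q + 1)
    have hpn : p ∣ n := (dvd_mul_right p (q + 1)).trans (by rw [← hm']; exact h)
    rcases mem_Lo.1 hn with rfl | rfl | h' | h' | h' | ⟨-, rfl⟩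
    · exact hm'
    · rw [hm'] at h
      have := Nat.le_of_dvd (by omega) (Nat.dvd_of_mul_dvd_mul_left hp.pos h)
      omega
    · rw [h'] at hpn; exact absurd hpn n3
    · rw [h'] at hpn; exact absurd hpn n4
    · rw [h'] at hpn; exact absurd hpn n5
    · rw [hm', pow_two] at h
      have := Nat.le_of_dvd hp.pos (Nat.dvd_of_mul_dvd_mul_left hp.pos h)
      omega
  · -- p (q - 1)
    have hpn : p ∣ n := (dvd_mul_right p (q - 1)).trans (by rw [← hm']; exact h)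
    rcases mem_Lo.1 hn with rfl | rfl | h' | h' | h' | ⟨-, rfl⟩
    · rw [hm'] at h
      have h2 := Nat.dvd_of_mul_dvd_mul_left hp.pos h
      have h3 : q - 1 ∣ 2 := by
        have := Nat.dvd_sub h2 (dvd_refl (q - 1))
        rwa [show q + 1 - (q - 1) = 2 by omega] at this
      have := Nat.le_of_dvd (by norm_num) h3
      omega
    · exact hm'
    · rw [h'] at hpn; exact absurd hpn n3
    · rw [h'] at hpn; exact absurd hpn n4
    · rw [h'] at hpn; exact absurd hpn n5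
    · rw [hm', pow_two] at h
      have h2 := Nat.dvd_of_mul_dvd_mul_left hp.pos h
      rcases (Nat.dvd_prime hp).1 h2 with h3 | h3
      · omega
      · exfalso
        have h4 : p ∣ q - 1 := by rw [h3]
        exact n2 h4
  · exact big m (Or.inl hm') n hn h
  · exact big m (Or.inr (Or.inl hm')) n hn h
  · exact big m (Or.inr (Or.inr hm')) n hn h
  · have hpn : p ∣ n := (dvd_pow_self p two_ne_zero).trans (by rw [← hm']; exact h)
    rcases mem_Lo.1 hn with rfl | rfl | h' | h' | h' | ⟨-, h'⟩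
    · rw [hm', pow_two] at h
      exact absurd (Nat.dvd_of_mul_dvd_mul_left hp.pos h) n1
    · rw [hm', pow_two] at h
      exact absurd (Nat.dvd_of_mul_dvd_mul_left hp.pos h) n2
    · rw [h'] at hpn; exact absurd hpn n3
    · rw [h'] at hpn; exact absurd hpn n4
    · rw [h'] at hpn; exact absurd hpn n5
    · rw [hm', h']

/-- the maximal element orders in odd characteristic -/
theorem main_odd {F : Type*} [Field F] [Fintype F] (p a : ℕ) (hp : p.Prime) (hp2 : p ≠ 2) (ha : 1 ≤ a) (hF : Fintype.card F = p ^ a) (hq5 : 5 ≤ Fintype.card F) :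
    {n : ℕ | n ∈ Set.range (orderOf : ↥(Cfsg.Lie.chevG2.group F) → ℕ) ∧ ∀ m ∈ Set.range (orderOf : ↥(Cfsg.Lie.chevG2.group F) → ℕ), n ∣ m → m = n} =
      ({p * (p ^ a + 1), p * (p ^ a - 1), p ^ (2 * a) - 1, p ^ (2 * a) + p ^ a + 1, p ^ (2 * a) - p ^ a + 1} : Set ℕ) ∪
        (if p = 3 ∨ p = 5 then ({p ^ 2} : Set ℕ) else ∅) := by
  rw [range_orderOf]
  have : Fact p.Prime := ⟨hp⟩
  have hc : CharP F p := charP_of_card_eq_prime_pow hF
  have h2a : p ^ (2 * a) = (p ^ a) ^ 2 := by rw [← pow_mul, mul_comm]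
  rw [h2a]
  have hOm : ∀ g ∈ Grp F, OmO p (p ^ a) g := fun g hg => omega_odd hp hp2 ha hF hg
  obtain ⟨q, hq⟩ : ∃ q, q = p ^ a := ⟨_, rfl⟩
  have hFa := hF
  rw [← hq] at hF hOm ⊢
  rw [hF] at hq5
  change _ = Lo p q
  have hp3 : 3 ≤ p := by have := hp.two_le; omega
  have h5 : 5 * q ≤ q ^ 2 := by rw [pow_two]; exact Nat.mul_le_mul_right q hq5
  have hOm' : ∀ g ∈ Grp F, ∃ n' ∈ Lo p q, g ^ n' = 1 := by
    intro g hg
    rcases hOm g hg with h | h | h | h | h | ⟨h', h⟩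
    · exact ⟨_, mem_Lo.2 (Or.inl rfl), h⟩
    · exact ⟨_, mem_Lo.2 (Or.inr (Or.inl rfl)), h⟩
    · exact ⟨_, mem_Lo.2 (Or.inr (Or.inr (Or.inl rfl))), h⟩
    · exact ⟨_, mem_Lo.2 (Or.inr (Or.inr (Or.inr (Or.inl rfl)))), h⟩
    · exact ⟨_, mem_Lo.2 (Or.inr (Or.inr (Or.inr (Or.inr (Or.inl rfl))))), h⟩
    · exact ⟨_, mem_Lo.2 (Or.inr (Or.inr (Or.inr (Or.inr (Or.inr ⟨h', rfl⟩))))), h⟩
  have hpq : p ∣ q := by rw [hq]; exact dvd_pow_self p (by omega)
  have hpq2 : p ∣ q ^ 2 := hpq.trans (dvd_pow_self q two_ne_zero)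
  have hone : ¬ p ∣ 1 := fun h => hp.one_lt.ne' (Nat.dvd_one.1 h)
  have n3 : ¬ p ∣ q ^ 2 - 1 := fun h => hone (by have := Nat.dvd_sub hpq2 h; rwa [show q ^ 2 - (q ^ 2 - 1) = 1 by omega] at this)
  have n4 : ¬ p ∣ q ^ 2 + q + 1 := fun h => hone ((Nat.dvd_add_right (dvd_add hpq2 hpq)).1 h)
  have n5 : ¬ p ∣ q ^ 2 - q + 1 := fun h => hone ((Nat.dvd_add_right (Nat.dvd_sub hpq2 hpq)).1 h)
  have big : ∀ n ∈ Lo p q, ∀ g ∈ Grp F, (∀ m, g ^ m = 1 → n ∣ m) → orderOf g = n := by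
    intro n hn g hg hlow
    obtain ⟨n', hn', h⟩ := hOm' g hg
    have := Lo_antichain hp hp2 ha hq hq5 hn hn' (hlow _ h)
    rw [← this] at h
    exact Nat.dvd_antisymm (orderOf_dvd_of_pow_eq_one h) (hlow _ (pow_orderOf_eq_one g))
  have L : ∀ n ∈ Lo p q, ∃ g ∈ Grp F, orderOf g = n := by
    intro n hn
    rcases mem_Lo.1 hn with h | h | h | h | h | ⟨h35, h⟩
    · rw [h]
      exact exists_pd_odd hp hp2 ha hFa (Or.inr (by rw [hq])) (by omega)
    · rw [h]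
      exact exists_pd_odd hp hp2 ha hFa (Or.inl (by rw [hq])) (by omega)
    · obtain ⟨ζ, hζ⟩ := prim (F := F) hp hFa ((Nat.Prime.coprime_iff_not_dvd hp).2 n3)
      obtain ⟨g, hg, hg'⟩ := exists_t1 hζ (by rw [hF])
      exact ⟨g, hg, big _ hn g hg (by rw [h]; exact hg')⟩
    · obtain ⟨ζ, hζ⟩ := prim (F := F) hp hFa ((Nat.Prime.coprime_iff_not_dvd hp).2 n4)
      obtain ⟨g, hg, hg'⟩ := exists_t2 hζ (by rw [hF])
      exact ⟨g, hg, big _ hn g hg (by rw [h]; exact hg')⟩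
    · obtain ⟨ζ, hζ⟩ := prim (F := F) hp hFa ((Nat.Prime.coprime_iff_not_dvd hp).2 n5)
      obtain ⟨g, hg, hg'⟩ := exists_t3 hζ (by rw [hF])
      exact ⟨g, hg, big _ hn g hg (by rw [h]; exact hg')⟩
    · rcases h35 with rfl | rfl
      · rw [h]; exact exists_9
      · rw [h]; exact exists_25
  ext n
  constructor
  · rintro ⟨⟨g, hg, hgn⟩, hmax⟩
    obtain ⟨n', hn', h⟩ := hOm' g hg
    have := hmax n' (L n' hn') (by rw [← hgn]; exact orderOf_dvd_of_pow_eq_one h)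
    rwa [this] at hn'
  · intro hn
    refine ⟨L n hn, ?_⟩
    rintro m ⟨g, hg, hgm⟩ hnm
    obtain ⟨n', hn', h⟩ := hOm' g hg
    have hmn' : m ∣ n' := by rw [← hgm]; exact orderOf_dvd_of_pow_eq_one h
    have := Lo_antichain hp hp2 ha hq hq5 hn hn' (hnm.trans hmn')
    rw [← this] at hmn'
    exact Nat.dvd_antisymm hmn' hnm

end Cfsg.Agent.G7
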