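import Cfsg.Agent.G7.Ex4
import Cfsg.Agent.G7.Iso

set_option autoImplicit false
set_option maxHeartbeats 1000000

/-!
The maximal element orders, characteristic two.
-/

namespace Cfsg.Agent.G7

open Matrix Polynomial

/-- the maximal element orders in characteristic two -/
theorem main_even {F : Type*} [Field F] [Fintype F] (a : ℕ) (ha : 2 ≤ a) (hF : Fintype.card F = 2 ^ a) :
    {n : ℕ | n ∈ Set.range (orderOf : ↥(Cfsg.Lie.chevG2.group F) → ℕ) ∧ ∀ m ∈ Set.range (orderOf : ↥(Cfsg.Lie.chevG2.group F) → ℕ), n ∣ m → m = n} ⊆ ({8, 12, 2 * (2 ^ a + 1), 2 * (2 ^ a - 1), 2 ^ (2 * a) - 1, 2 ^ (2 * a) + 2 ^ a + 1, 2 ^ (2 * a) - 2 ^ a + 1} : Set ℕ) ∧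
    ({8, 12, 2 * (2 ^ a + 1), 2 * (2 ^ a - 1), 2 ^ (2 * a) - 1, 2 ^ (2 * a) + 2 ^ a + 1, 2 ^ (2 * a) - 2 ^ a + 1} : Set ℕ) ⊆ Set.range (orderOf : ↥(Cfsg.Lie.chevG2.group F) → ℕ) := by
  rw [range_orderOf]
  have : Fact (Nat.Prime 2) := ⟨Nat.prime_two⟩
  have hc : CharP F 2 := charP_of_card_eq_prime_pow hF
  have h2a : 2 ^ (2 * a) = (2 ^ a) ^ 2 := by rw [← pow_mul, mul_comm]
  rw [h2a]
  have hOm : ∀ g ∈ Grp F, OmE (2 ^ a) g := fun g hg => omega_even (by omega) hF hg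
  obtain ⟨q, hq⟩ : ∃ q, q = 2 ^ a := ⟨_, rfl⟩
  have hq4 : 4 ≤ q := by
    rw [hq]
    calc 4 = 2 ^ 2 := rfl
      _ ≤ 2 ^ a := Nat.pow_le_pow_right (by norm_num) ha
  have hqe : Even q := by rw [hq]; exact (Nat.even_pow.2 ⟨even_two, by omega⟩)
  rw [← hq] at hF hOm ⊢
  have hq2 : 4 * q ≤ q ^ 2 := by rw [pow_two]; exact Nat.mul_le_mul_right q hq4
  have hq2e : Even (q ^ 2) := (Nat.even_pow.2 ⟨hqe, by omega⟩)
  -- the large orders
  have big : ∀ n, (n = q ^ 2 - 1 ∨ n = q ^ 2 + q + 1 ∨ n = q ^ 2 - q + 1) → ∀ g ∈ Grp F, (∀ m, g ^ m = 1 → n ∣ m) → orderOf g = n := by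
    intro n hn g hg hlow
    have hodd : Odd n := by
      rcases hn with rfl | rfl | rfl
      · exact Nat.Even.sub_odd (by omega) hq2e odd_one
      · exact (hq2e.add hqe).add_one
      · exact ((Nat.even_sub (by omega)).2 (by simp [hq2e, hqe])).add_one
    have hcop : Nat.Coprime n 2 := hodd.coprime_two_right
    have hbig : q + 1 < n := by omega
    have hb12 : 12 < n := by omega
    have h8 : ¬ n ∣ 8 := fun h => by have := Nat.le_of_dvd (by norm_num) h; omega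
    have h12 : ¬ n ∣ 12 := fun h => by have := Nat.le_of_dvd (by norm_num) h; omega
    have hp : ∀ d, 0 < d → d ≤ q + 1 → ¬ n ∣ 2 * d := fun d hd hd' h => by
      have := Nat.le_of_dvd hd (hcop.dvd_of_dvd_mul_left h); omega
    have huniq : ∀ n', (n' = q ^ 2 - 1 ∨ n' = q ^ 2 + q + 1 ∨ n' = q ^ 2 - q + 1) → n ∣ n' → n' = n := by
      intro n' hn' h
      obtain ⟨c, hc⟩ := h
      have hc0 : c ≠ 0 := by rintro rfl; omega
      have hc2 : c < 2 := by
        by_contra hcon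
        have : n * 2 ≤ n' := by rw [hc]; exact Nat.mul_le_mul_left n (by omega)
        omega
      have : c = 1 := by omega
      rw [hc, this, mul_one]
    have hfin : g ^ n = 1 := by
      rcases hOm g hg with h | h | h | h | h | h | h
      · exact absurd (hlow _ h) h8
      · exact absurd (hlow _ h) h12
      · exact absurd (hlow _ h) (hp _ (by omega) (by omega))
      · exact absurd (hlow _ h) (hp _ (by omega) (by omega))
      · rw [← huniq _ (Or.inl rfl) (hlow _ h), h]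
      · rw [← huniq _ (Or.inr (Or.inl rfl)) (hlow _ h), h]
      · rw [← huniq _ (Or.inr (Or.inr rfl)) (hlow _ h), h]
    exact Nat.dvd_antisymm (orderOf_dvd_of_pow_eq_one hfin) (hlow _ (pow_orderOf_eq_one g))
  have hcop : ∀ n, Odd n → Nat.Coprime 2 n := fun n hn => hn.coprime_two_left
  have L : ∀ n ∈ ({8, 12, 2 * (q + 1), 2 * (q - 1), q ^ 2 - 1, q ^ 2 + q + 1, q ^ 2 - q + 1} : Set ℕ), ∃ g ∈ Grp F, orderOf g = n := by
    intro n hn
    simp only [Set.mem_insert_iff, Set.mem_singleton_iff] at hn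
    rcases hn with rfl | rfl | rfl | rfl | rfl | rfl | rfl
    · exact exists_8
    · exact exists_12 (a := a) (by rw [hF, hq])
    · exact exists_pd_even (a := a) (by omega) (by rw [hF, hq]) (Or.inr (by rw [hq])) (by omega)
    · exact exists_pd_even (a := a) (by omega) (by rw [hF, hq]) (Or.inl (by rw [hq])) (by omega)
    · obtain ⟨ζ, hζ⟩ := prim (F := F) Nat.prime_two (a := a) (by rw [hF, hq]) (hcop (q ^ 2 - 1) (Nat.Even.sub_odd (by omega) hq2e odd_one))
      obtain ⟨g, hg, hg'⟩ := exists_t1 hζ (by rw [hF])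
      exact ⟨g, hg, big _ (Or.inl rfl) g hg hg'⟩
    · obtain ⟨ζ, hζ⟩ := prim (F := F) Nat.prime_two (a := a) (by rw [hF, hq]) (hcop (q ^ 2 + q + 1) (hq2e.add hqe).add_one)
      obtain ⟨g, hg, hg'⟩ := exists_t2 hζ (by rw [hF])
      exact ⟨g, hg, big _ (Or.inr (Or.inl rfl)) g hg hg'⟩
    · obtain ⟨ζ, hζ⟩ := prim (F := F) Nat.prime_two (a := a) (by rw [hF, hq])
        (hcop (q ^ 2 - q + 1) ((Nat.even_sub (by omega)).2 (by simp [hq2e, hqe])).add_one)
      obtain ⟨g, hg, hg'⟩ := exists_t3 hζ (by rw [hF])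
      exact ⟨g, hg, big _ (Or.inr (Or.inr rfl)) g hg hg'⟩
  refine ⟨?_, fun n hn => L n hn⟩
  rintro n ⟨⟨g, hg, hgn⟩, hmax⟩
  have key : ∀ n' ∈ ({8, 12, 2 * (q + 1), 2 * (q - 1), q ^ 2 - 1, q ^ 2 + q + 1, q ^ 2 - q + 1} : Set ℕ), g ^ n' = 1 →
      n ∈ ({8, 12, 2 * (q + 1), 2 * (q - 1), q ^ 2 - 1, q ^ 2 + q + 1, q ^ 2 - q + 1} : Set ℕ) := by
    intro n' hn' h
    have := hmax n' (L n' hn') (by rw [← hgn]; exact orderOf_dvd_of_pow_eq_one h)
    rwa [this] at hn'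
  rcases hOm g hg with h | h | h | h | h | h | h
  · exact key _ (by simp) h
  · exact key _ (by simp) h
  · exact key _ (by simp) h
  · exact key _ (by simp) h
  · exact key _ (by simp) h
  · exact key _ (by simp) h
  · exact key _ (by simp) h

end Cfsg.Agent.G7
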