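import Cfsg.Agent.G7.OmOdd

set_option autoImplicit false
set_option maxHeartbeats 1000000

/-!
The element orders in characteristic two.
-/

namespace Cfsg.Agent.G7

open Matrix Polynomial

/-- the bound on the orders -/
def OmE (q : ℕ) {G : Type*} [Monoid G] (g : G) : Prop :=
  g ^ 8 = 1 ∨ g ^ 12 = 1 ∨ g ^ (2 * (q + 1)) = 1 ∨ g ^ (2 * (q - 1)) = 1 ∨ g ^ (q ^ 2 - 1) = 1 ∨ g ^ (q ^ 2 + q + 1) = 1 ∨ g ^ (q ^ 2 - q + 1) = 1

lemma omE_of {q δ : ℕ} {G : Type*} [Monoid G] {g : G} (hδ : δ = q - 1 ∨ δ = q + 1) (h : g ^ (δ * 2 ^ 1) = 1) : OmE q g := by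
  rw [pow_one, mul_comm] at h
  rcases hδ with rfl | rfl
  · exact Or.inr (Or.inr (Or.inr (Or.inl h)))
  · exact Or.inr (Or.inr (Or.inl h))

section quotient
variable {k : Type*} [Field k]

/-- the indices of the quotient -/
def d6 : Fin 6 → Fin 7 := ![0, 1, 2, 4, 5, 6]

/-- the matrix on the quotient -/
def qd (M : Matrix (Fin 7) (Fin 7) k) : Matrix (Fin 6) (Fin 6) k := M.submatrix d6 d6

lemma fix3 (h2 : (2 : k) = 0) {g : GL (Fin 7) k} (hg : g ∈ Grp k) (i : Fin 7) : (g : Matrix (Fin 7) (Fin 7) k) i 3 = if i = 3 then 1 else 0 := by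
  have key : (g : Matrix (Fin 7) (Fin 7) k) *ᵥ Pi.single 3 1 = Pi.single 3 1 := by
    induction hg using Subgroup.closure_induction with
    | mem x hx =>
      obtain ⟨r, hr, t, rfl⟩ := hx
      rw [coe_xu, xr_mulVec hr]
      interval_cases r <;> (ext i; fin_cases i <;> simp [xv, h2])
    | one => rw [Units.val_one, one_mulVec]
    | mul a b _ _ ha hb => rw [Units.val_mul, ← mulVec_mulVec, hb, ha]
    | inv a _ ha =>
      conv_lhs => rw [← ha]
      rw [mulVec_mulVec, ← Units.val_mul, inv_mul_cancel, Units.val_one, one_mulVec]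
  have := congrFun key i
  rw [mulVec_single_one, Matrix.col_apply, Pi.single_apply] at this
  exact this

lemma qd_mul (h2 : (2 : k) = 0) {g : GL (Fin 7) k} (hg : g ∈ Grp k) (h : Matrix (Fin 7) (Fin 7) k) :
    qd ((g : Matrix (Fin 7) (Fin 7) k) * h) = qd (g : Matrix (Fin 7) (Fin 7) k) * qd h := by
  have f := fix3 h2 hg
  have f0 : (g : Matrix (Fin 7) (Fin 7) k) 0 3 = 0 := by rw [f]; rfl
  have f1 : (g : Matrix (Fin 7) (Fin 7) k) 1 3 = 0 := by rw [f]; rfl
  have f2 : (g : Matrix (Fin 7) (Fin 7) k) 2 3 = 0 := by rw [f]; rfl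
  have f4 : (g : Matrix (Fin 7) (Fin 7) k) 4 3 = 0 := by rw [f]; rfl
  have f5 : (g : Matrix (Fin 7) (Fin 7) k) 5 3 = 0 := by rw [f]; rfl
  have f6 : (g : Matrix (Fin 7) (Fin 7) k) 6 3 = 0 := by rw [f]; rfl
  ext i j
  simp only [qd, submatrix_apply, Matrix.mul_apply]
  rw [Fin.sum_univ_seven, Fin.sum_univ_six]
  fin_cases i <;> simp [d6, f0, f1, f2, f4, f5, f6]

lemma d6_inj : Function.Injective d6 := by decide

lemma qd_one : qd (1 : Matrix (Fin 7) (Fin 7) k) = 1 := submatrix_one d6 d6_inj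

lemma qd_pow (h2 : (2 : k) = 0) {g : GL (Fin 7) k} (hg : g ∈ Grp k) (n : ℕ) :
    qd ((g ^ n : GL (Fin 7) k) : Matrix (Fin 7) (Fin 7) k) = qd (g : Matrix (Fin 7) (Fin 7) k) ^ n := by
  induction n with
  | zero => rw [pow_zero, pow_zero, Units.val_one, qd_one]
  | succ n ih => rw [pow_succ', pow_succ', Units.val_mul, qd_mul h2 hg, ih]

lemma qd_faithful (h2 : (2 : k) = 0) {g : GL (Fin 7) k} (hg : g ∈ Grp k) (h : qd (g : Matrix (Fin 7) (Fin 7) k) = 1) : g = 1 := by
  obtain ⟨M, hM⟩ : ∃ M, M = (g : Matrix (Fin 7) (Fin 7) k) := ⟨_, rfl⟩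
  have f := fix3 h2 hg
  have hQ : ∀ j, Q (fun i => M i j) = Q (Pi.single j 1) := by
    intro j
    rw [hM, ← Q_grp hg (Pi.single j 1), mulVec_single_one]
    rfl
  rw [← hM] at f h
  have surj : ∀ i : Fin 7, i ≠ 3 → ∃ j, d6 j = i := by decide
  have e : ∀ i j : Fin 7, i ≠ 3 → j ≠ 3 → M i j = if i = j then 1 else 0 := by
    intro i j hi hj
    obtain ⟨i, rfl⟩ := surj i hi
    obtain ⟨j, rfl⟩ := surj j hj
    have := congrFun (congrFun h i) j
    rw [← qd_one] at this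
    rw [← Matrix.one_apply]
    exact this
  have r : ∀ j : Fin 7, j ≠ 3 → M 3 j = 0 := by
    intro j hj
    have h3 : M 3 j ^ 2 + M 0 j * M 6 j + M 1 j * M 5 j + M 2 j * M 4 j = Q (Pi.single j 1) := hQ j
    rw [e 0 j (by decide) hj, e 6 j (by decide) hj, e 1 j (by decide) hj, e 5 j (by decide) hj, e 2 j (by decide) hj, e 4 j (by decide) hj] at h3
    have h4 : M 3 j ^ 2 = 0 := by
      revert h3 hj
      fin_cases j <;> simp [Q]
    exact pow_eq_zero_iff two_ne_zero |>.1 h4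
  apply Units.ext
  rw [← hM, Units.val_one]
  ext i j
  rw [Matrix.one_apply]
  by_cases hj : j = 3
  · rw [hj, f]
  · by_cases hi : i = 3
    · rw [hi, r j hj, if_neg (Ne.symm hj)]
    · rw [e i j hi hj]

/-- the seven indices -/
noncomputable def e16 : Fin 1 ⊕ Fin 6 ≃ Fin 7 := Equiv.ofBijective (Sum.elim ![3] d6) (by decide)

lemma qd_charpoly (h2 : (2 : k) = 0) {g : GL (Fin 7) k} (hg : g ∈ Grp k) :
    (g : Matrix (Fin 7) (Fin 7) k).charpoly = (X - 1) * (qd (g : Matrix (Fin 7) (Fin 7) k)).charpoly := by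
  have h1 : (reindex e16.symm e16.symm (g : Matrix (Fin 7) (Fin 7) k)).charpoly = (g : Matrix (Fin 7) (Fin 7) k).charpoly := charpoly_reindex _ _
  have h3 : reindex e16.symm e16.symm (g : Matrix (Fin 7) (Fin 7) k) = (g : Matrix (Fin 7) (Fin 7) k).submatrix (Sum.elim ![3] d6) (Sum.elim ![3] d6) := rfl
  rw [qd, ← h1, h3, charpoly_elim, charpoly1]
  · have : ((g : Matrix (Fin 7) (Fin 7) k).submatrix ![3] ![3]) 0 0 = 1 := by
      rw [submatrix_apply]
      exact fix3 h2 hg 3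
    rw [this, map_one]
  · intro i j
    have : (![3] : Fin 1 → Fin 7) j = 3 := by fin_cases j; rfl
    rw [this, fix3 h2 hg, if_neg]
    fin_cases i <;> decide

end quotient

variable {k : Type*} [Field k] {φ : k →+* k} {a b c : k}

/-- the eigenvalues on the quotient -/
def spd (a b c : k) : Multiset k := {a, b, c, a⁻¹, b⁻¹, c⁻¹}

lemma spc_eq (a b c : k) : spc a b c = 1 ::ₘ spd a b c := rfl

lemma pl_spd (a b c : k) : pl (spd a b c) = (X - C a) * ((X - C b) * ((X - C c) * ((X - C a⁻¹) * ((X - C b⁻¹) * (X - C c⁻¹))))) := by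
  rw [spd]
  simp only [Multiset.insert_eq_cons, pl_cons, pl_singleton]

/-- the data -/
structure Dat2 (q : ℕ) (φ : k →+* k) (g : GL (Fin 7) k) : Prop where
  char : CharP k 2
  q2 : 2 ≤ q
  fr : ∀ x, φ x = x ^ q
  mem : g ∈ Grp k

lemma Dat2.two {q : ℕ} {g : GL (Fin 7) k} (D : Dat2 q φ g) : (2 : k) = 0 := by
  have := D.char
  exact CharTwo.two_eq_zero

lemma Dat2.cp {q : ℕ} {g : GL (Fin 7) k} (D : Dat2 q φ g) (hM : (g : Matrix (Fin 7) (Fin 7) k).charpoly = pl (spc a b c)) :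
    (qd (g : Matrix (Fin 7) (Fin 7) k)).charpoly = pl (spd a b c) := by
  rw [qd_charpoly D.two D.mem, spc_eq, pl_cons, map_one] at hM
  exact mul_left_cancel₀ (by simpa using X_sub_C_ne_zero (1 : k)) hM

lemma Dat2.omE {q : ℕ} {g : GL (Fin 7) k} (D : Dat2 q φ g) (h : OmE q (qd (g : Matrix (Fin 7) (Fin 7) k))) : OmE q g := by
  have key : ∀ n, (qd (g : Matrix (Fin 7) (Fin 7) k)) ^ n = 1 → g ^ n = 1 := by
    intro n hn
    apply qd_faithful D.two (pow_mem D.mem n)
    rw [qd_pow D.two D.mem, hn]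
  rcases h with h | h | h | h | h | h | h
  · exact Or.inl (key _ h)
  · exact Or.inr (Or.inl (key _ h))
  · exact Or.inr (Or.inr (Or.inl (key _ h)))
  · exact Or.inr (Or.inr (Or.inr (Or.inl (key _ h))))
  · exact Or.inr (Or.inr (Or.inr (Or.inr (Or.inl (key _ h)))))
  · exact Or.inr (Or.inr (Or.inr (Or.inr (Or.inr (Or.inl (key _ h))))))
  · exact Or.inr (Or.inr (Or.inr (Or.inr (Or.inr (Or.inr (key _ h))))))

lemma Ctx.one (h : Ctx φ 1 b c) : Cl (φ b) b ∧ c = b⁻¹ := by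
  have hc : c = b⁻¹ := eq_inv_of_mul_eq_one_left (by rw [← h.abc]; ring)
  refine ⟨?_, hc⟩
  have hb1 : φ b = 1 → Cl (φ b) b := fun e => by
    have : b = 1 := φ.injective (by rw [e, map_one])
    rw [this, map_one]; exact Or.inl rfl
  rcases mem_spc.1 (h.mem (x := b) (mem_spc.2 (by simp))) with e | e | e | e | e | e | e
  · exact hb1 e
  · exact hb1 e
  · exact Or.inl e
  · exact Or.inr (by rw [e, hc])
  · exact hb1 (by rw [e, inv_one])
  · exact Or.inr e
  · exact Or.inl (by rw [e, hc, inv_inv])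

lemma Ctx.double (h : Ctx φ a a c) (ha1 : a ≠ 1) (hc1 : c ≠ 1) : Cl (φ a) a ∧ c⁻¹ = a ^ 2 ∧ a ^ 2 ≠ 1 := by
  classical
  obtain ⟨a0, -, c0⟩ := h.ne0
  have hc : c⁻¹ = a ^ 2 := inv_eq_of_mul_eq_one_left (by rw [← h.abc]; ring)
  have ha2 : a ^ 2 ≠ 1 := by
    intro h; apply hc1
    rw [← inv_inv c, hc, h, inv_one]
  refine ⟨?_, hc, ha2⟩
  have hcount := h.count a
  have hge : 2 ≤ (spc a a c).count a := by
    simp only [spc, Multiset.insert_eq_cons, Multiset.count_cons, if_true, Multiset.count_singleton]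
    omega
  obtain ⟨e1, e2, e3⟩ := sq_ne_one a0 ha2
  rcases mem_spc.1 (h.mem (x := a) (mem_spc.2 (by simp))) with e | e | e | e | e | e | e
  · exact absurd (φ.injective (by rw [e, map_one])) ha1
  · exact Or.inl e
  · exact Or.inl e
  · by_contra hcon
    rw [e] at hcount hcon
    obtain ⟨f1, f2, f3, f4⟩ := ncl hcon
    have hcc : c = c⁻¹ := by
      by_contra hcc
      rw [← hcount] at hge
      simp only [spc, Multiset.insert_eq_cons, Multiset.count_cons, Multiset.count_singleton, if_neg f1, if_neg f2, if_neg hcc, if_neg hc1,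
        if_true] at hge
      omega
    apply ha2
    apply φ.injective
    rw [map_pow, e, map_one, pow_two]
    nth_rewrite 1 [hcc]
    exact inv_mul_cancel₀ c0
  · exact Or.inr e
  · exact Or.inr e
  · by_contra hcon
    rw [e] at hcount hcon
    obtain ⟨f1, f2, f3, f4⟩ := ncl hcon
    have hcc : c = c⁻¹ := by
      by_contra hcc
      rw [← hcount] at hge
      simp only [spc, Multiset.insert_eq_cons, Multiset.count_cons, Multiset.count_singleton, if_neg f1, if_neg f2, if_neg (Ne.symm hcc),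
        if_neg (show c⁻¹ ≠ 1 from fun h => hc1 (inv_eq_one.1 h)), if_true] at hge
      omega
    apply ha2
    apply φ.injective
    rw [map_pow, e, ← hcc, map_one, pow_two]
    nth_rewrite 1 [hcc]
    exact inv_mul_cancel₀ c0

lemma sq2 [CharP k 2] {x : k} (h : x ≠ 1) : x ^ 2 ≠ 1 := by
  intro h2
  apply h
  have h2' : (2 : k) = 0 := CharTwo.two_eq_zero
  have h3 : (x - 1) ^ 2 = 0 := by linear_combination h2 + (1 - x) * h2'
  exact sub_eq_zero.1 (pow_eq_zero_iff two_ne_zero |>.1 h3)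

theorem case2A {q : ℕ} {g : GL (Fin 7) k} (D : Dat2 q φ g) (h : Ctx φ 1 b c)
    (hM : (g : Matrix (Fin 7) (Fin 7) k).charpoly = pl (spc 1 b c)) : OmE q g := by
  have := D.char
  have hpf : Fact (Nat.Prime 2) := ⟨Nat.prime_two⟩
  obtain ⟨-, b0, c0⟩ := h.ne0
  obtain ⟨hcl, hc⟩ := h.one
  have hcp := D.cp hM
  rw [hc] at hcp
  obtain ⟨δ, hδ, hbδ⟩ := pow_of_cl D.q2 D.fr b0 hcl
  have hδ0 : δ ≠ 0 := by have := D.q2; omega
  apply D.omE
  by_cases hb1 : b = 1
  · left
    have := pow_eq_one_of_list (M := qd (g : Matrix (Fin 7) (Fin 7) k)) 2 (m := 1) (j := 3) one_ne_zero [{1}, {1}, {1}, {1}, {1}, {1}] (by simp) ?_ (by norm_num)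
    · simpa using this
    · rw [hcp, pl_spd, hb1]
      simp only [List.sum_cons, List.sum_nil, pl_add, pl_singleton, pl_zero, inv_one]
      ring
  · obtain ⟨e1, e2, e3⟩ := sq_ne_one b0 (sq2 hb1)
    apply omE_of hδ
    apply pow_eq_one_of_list 2 hδ0 [{1, b, b⁻¹}, {1, b, b⁻¹}] _ _ (by norm_num)
    · simp [hbδ, e3, e1.symm, e2.symm]
    · rw [hcp, pl_spd]
      simp only [List.sum_cons, List.sum_nil, pl_add, pl_singleton, pl_zero, inv_one, inv_inv, Multiset.insert_eq_cons, pl_cons]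
      ring

theorem case2C {q : ℕ} {g : GL (Fin 7) k} (D : Dat2 q φ g) (h : Ctx φ a a c) (ha1 : a ≠ 1) (hc1 : c ≠ 1)
    (hM : (g : Matrix (Fin 7) (Fin 7) k).charpoly = pl (spc a a c)) : OmE q g := by
  have := D.char
  have hpf : Fact (Nat.Prime 2) := ⟨Nat.prime_two⟩
  obtain ⟨a0, -, c0⟩ := h.ne0
  obtain ⟨hcl, hc, ha2⟩ := h.double ha1 hc1
  obtain ⟨e1, e2, e3⟩ := sq_ne_one a0 ha2
  obtain ⟨f1, f2, f3⟩ := sq_ne_one c0 (sq2 hc1)
  have hcp := D.cp hM
  obtain ⟨δ, hδ, haδ⟩ := pow_of_cl D.q2 D.fr a0 hcl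
  have hδ0 : δ ≠ 0 := by have := D.q2; omega
  have hcδ' : c⁻¹ ^ δ = 1 := by rw [hc, ← pow_mul, mul_comm, pow_mul, haδ, one_pow]
  have hcδ : c ^ δ = 1 := by rw [← inv_inv c, inv_pow, hcδ', inv_one]
  apply D.omE
  by_cases hac : Cl a c
  · have hac' : c = a := by
      rcases hac with h | h
      · exact h.symm
      · exfalso
        rw [hc] at h
        apply ha1
        have h4 : a * (a - 1) = 0 := by linear_combination -h
        rcases mul_eq_zero.1 h4 with h | h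
        · exact absurd h a0
        · exact sub_eq_zero.1 h
    have ha3 : a ^ 3 = 1 := by
      have := h.abc
      rw [hac'] at this
      rw [← this]; ring
    right; left
    have := pow_eq_one_of_list (M := qd (g : Matrix (Fin 7) (Fin 7) k)) 2 (m := 3) (j := 2) three_ne_zero [{a, a⁻¹}, {a, a⁻¹}, {a, a⁻¹}]
      (by simp [e3, ha3]) ?_ (by norm_num)
    · simpa using this
    · rw [hcp, pl_spd, hac']
      simp only [List.sum_cons, List.sum_nil, pl_add, pl_singleton, pl_zero, Multiset.insert_eq_cons, pl_cons]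
      ring
  · obtain ⟨g1, g2, g3, g4⟩ := ncl hac
    apply omE_of hδ
    apply pow_eq_one_of_list 2 hδ0 [{a, a⁻¹, c, c⁻¹}, {a, a⁻¹}] _ _ (by norm_num)
    · have g4' : a⁻¹ ≠ c⁻¹ := g4
      simp only [List.mem_cons, List.not_mem_nil, or_false, forall_eq_or_imp, forall_eq, Multiset.insert_eq_cons, Multiset.nodup_cons,
        Multiset.mem_cons, Multiset.mem_singleton, Multiset.nodup_singleton, and_true, not_or, inv_pow, haδ, hcδ, inv_one]
      exact ⟨⟨⟨e3, g1, g2⟩, ⟨g3, g4⟩, f3⟩, e3⟩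
    · rw [hcp, pl_spd]
      simp only [List.sum_cons, List.sum_nil, pl_add, pl_singleton, pl_zero, Multiset.insert_eq_cons, pl_cons]
      ring

theorem case2G {q : ℕ} {g : GL (Fin 7) k} (D : Dat2 q φ g) (h : Gen φ a b c)
    (hM : (g : Matrix (Fin 7) (Fin 7) k).charpoly = pl (spc a b c)) : OmE q g := by
  have hq := D.q2
  have hq2 : q * 2 ≤ q ^ 2 := by rw [pow_two]; exact Nat.mul_le_mul_left q hq
  have hcp := D.cp hM
  have hn : (spd a b c).Nodup := by
    have := h.nodup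
    rw [spc_eq, Multiset.nodup_cons] at this
    exact this.2
  have hsub : ∀ x ∈ spd a b c, x ∈ spc a b c := by
    intro x hx
    rw [spc_eq]
    exact Multiset.mem_cons_of_mem hx
  apply D.omE
  rcases h.pow D.q2 D.fr with h1 | h1 | h1
  · exact Or.inr (Or.inr (Or.inr (Or.inr (Or.inl (pow_eq_one_of_nodup (by omega) _ hn (fun x hx => h1 x (hsub x hx)) hcp)))))
  · exact Or.inr (Or.inr (Or.inr (Or.inr (Or.inr (Or.inl (pow_eq_one_of_nodup (by omega) _ hn (fun x hx => h1 x (hsub x hx)) hcp))))))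
  · exact Or.inr (Or.inr (Or.inr (Or.inr (Or.inr (Or.inr (pow_eq_one_of_nodup (by omega) _ hn (fun x hx => h1 x (hsub x hx)) hcp))))))

theorem all_cases2 {q : ℕ} {g : GL (Fin 7) k} (D : Dat2 q φ g) {a b c : k} (h : Ctx φ a b c)
    (hM : (g : Matrix (Fin 7) (Fin 7) k).charpoly = pl (spc a b c)) : OmE q g := by
  have := D.char
  by_cases a1 : a = 1
  · subst a1; exact case2A D h hM
  by_cases b1 : b = 1
  · subst b1; exact case2A D h.swap12 (by rw [hM, spc_swap12])
  by_cases c1 : c = 1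
  · subst c1; exact case2A D h.swap23.swap12 (by rw [hM, spc_swap23, spc_swap12])
  by_cases ab : a = b
  · subst ab; exact case2C D h a1 c1 hM
  by_cases ac : a = c
  · subst ac; exact case2C D h.swap23 a1 b1 (by rw [hM, spc_swap23])
  by_cases bc : b = c
  · subst bc; exact case2C D h.swap12.swap23 b1 a1 (by rw [hM, spc_swap12, spc_swap23])
  obtain ⟨a0, b0, c0⟩ := h.ne0
  have ninv : ∀ x y z : k, x ≠ 0 → y ≠ 0 → x * y * z = 1 → z ≠ 1 → x = y⁻¹ → False := by
    intro x y z hx hy hxyz hz hxy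
    apply hz
    rw [hxy, inv_mul_cancel₀ hy, one_mul] at hxyz
    exact hxyz
  have habc := h.abc
  apply case2G D (h.gen (sq2 a1) (sq2 b1) (sq2 c1) _ _ _) hM
  · rintro (e | e)
    · exact ab e
    · exact ninv a b c a0 b0 habc c1 e
  · rintro (e | e)
    · exact ac e
    · exact ninv a c b a0 c0 (by rw [← habc]; ring) b1 e
  · rintro (e | e)
    · exact bc e
    · exact ninv b c a b0 c0 (by rw [← habc]; ring) a1 e

end Cfsg.Agent.G7
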