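import Cfsg.Agent.G7.Ctx

set_option autoImplicit false
set_option maxHeartbeats 1000000

/-!
The element orders in odd characteristic.
-/

namespace Cfsg.Agent.G7

open Matrix Polynomial

/-- the bound on the orders -/
def OmO (p q : ℕ) {G : Type*} [Monoid G] (g : G) : Prop :=
  g ^ (p * (q + 1)) = 1 ∨ g ^ (p * (q - 1)) = 1 ∨ g ^ (q ^ 2 - 1) = 1 ∨ g ^ (q ^ 2 + q + 1) = 1 ∨ g ^ (q ^ 2 - q + 1) = 1 ∨
    ((p = 3 ∨ p = 5) ∧ g ^ (p ^ 2) = 1)

variable {k : Type*} [Field k] {φ : k →+* k} {a b c : k}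

lemma pl_cons (x : k) (s : Multiset k) : pl (x ::ₘ s) = (X - C x) * pl s := by
  rw [pl, Multiset.map_cons, Multiset.prod_cons]; rfl

lemma pl_singleton (x : k) : pl {x} = X - C x := by
  rw [pl, Multiset.map_singleton, Multiset.prod_singleton]

lemma pl_zero : pl (0 : Multiset k) = 1 := by
  rw [pl, Multiset.map_zero, Multiset.prod_zero]

lemma omO_of {p q δ : ℕ} {G : Type*} [Monoid G] {g : G} (hδ : δ = q - 1 ∨ δ = q + 1) (h : g ^ (δ * p ^ 1) = 1) : OmO p q g := by
  rw [pow_one, mul_comm] at h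
  rcases hδ with rfl | rfl
  · exact Or.inr (Or.inl h)
  · exact Or.inl h

lemma primes_ge (p : ℕ) (hp : p.Prime) (hp2 : p ≠ 2) : p = 3 ∨ p = 5 ∨ 7 ≤ p := by
  have h2 := hp.two_le
  by_contra hcon
  push Not at hcon
  have : p = 4 ∨ p = 6 := by omega
  rcases this with rfl | rfl
  · exact absurd hp (by norm_num)
  · exact absurd hp (by norm_num)

/-- six different eigenvalues -/
theorem ker_of_eigs {M : Matrix (Fin 7) (Fin 7) k} (μ : Fin 6 → k) (hμ : Function.Injective μ) (hr : ∀ i, M.charpoly.IsRoot (μ i)) {m : ℕ}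
    (hm : ∀ i, μ i ^ m = 1) : 6 ≤ Module.finrank k (LinearMap.ker (toLin' (M ^ m - 1))) := by
  have h1 : ∀ i, ∃ v, Module.End.HasEigenvector (toLin' M) (μ i) v := by
    intro i
    have : Module.End.HasEigenvalue (toLin' M) (μ i) := by
      rw [Module.End.hasEigenvalue_iff_isRoot_charpoly, Matrix.charpoly_toLin']
      exact hr i
    exact this.exists_hasEigenvector
  choose v hv using h1
  have h2 : LinearIndependent k v := Module.End.eigenvectors_linearIndependent' _ μ hμ v hv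
  have h3 : ∀ i, v i ∈ LinearMap.ker (toLin' (M ^ m - 1)) := by
    intro i
    rw [LinearMap.mem_ker, map_sub, toLin'_pow, LinearMap.sub_apply, (hv i).pow_apply, hm, one_smul, toLin'_one, LinearMap.id_apply, sub_self]
  have h4 : LinearIndependent k (fun i => (⟨v i, h3 i⟩ : LinearMap.ker (toLin' (M ^ m - 1)))) := by
    apply LinearIndependent.of_comp (LinearMap.ker (toLin' (M ^ m - 1))).subtype
    exact h2
  simpa using h4.fintype_card_le_finrank

/-- the case of characteristic three and an involution times a unipotent element -/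
theorem case_p3 [CharP k 3] {g : GL (Fin 7) k} (hg : g ∈ Grp k) (hM : (g : Matrix (Fin 7) (Fin 7) k).charpoly = pl (spc 1 (-1) (-1))) :
    g ^ 6 = 1 := by
  have : Fact (Nat.Prime 3) := ⟨by norm_num⟩
  have h2 : (2 : k) ≠ 0 := by
    intro h
    have h3 : ((2 : ℕ) : k) = 0 := by exact_mod_cast h
    rw [CharP.cast_eq_zero_iff k 3] at h3
    omega
  obtain ⟨M, hMd⟩ : ∃ M, M = (g : Matrix (Fin 7) (Fin 7) k) := ⟨_, rfl⟩
  rw [← hMd] at hM
  have h1 : (X ^ 2 - 1 : k[X]) ^ 4 = M.charpoly * (X - 1) := by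
    rw [hM, pl_spc]
    simp only [inv_one, inv_neg, map_one, map_neg]
    ring
  have h4 : (M ^ 2 - 1) ^ 4 = 0 := by
    have := congrArg (aeval M) h1
    simpa [Matrix.aeval_self_charpoly] using this
  have h6 : (M ^ 2 - 1) ^ 3 = M ^ 6 - 1 := by
    have h : ((X ^ 2 - 1) ^ 3 : k[X]) = X ^ 6 - 1 := by
      rw [sub_pow_char, one_pow, ← pow_mul]
    have := congrArg (aeval M) h
    simpa using this
  apply eq_one_of_rank h2 (pow_mem hg 6)
  rw [Units.val_pow_eq_pow_val, ← hMd, ← h6, toLin'_pow]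
  apply rank_cube (by simp)
  rw [← toLin'_pow, h4, map_zero]

/-- the data -/
structure Dat (p q : ℕ) (φ : k →+* k) (g : GL (Fin 7) k) : Prop where
  prime : p.Prime
  char : CharP k p
  odd : p ≠ 2
  q2 : 2 ≤ q
  qodd : Odd q
  fr : ∀ x, φ x = x ^ q
  mem : g ∈ Grp k

lemma Dat.two {p q : ℕ} {g : GL (Fin 7) k} (D : Dat p q φ g) : (2 : k) ≠ 0 := by
  have := D.char
  intro h
  have h3 : ((2 : ℕ) : k) = 0 := by exact_mod_cast h
  rw [CharP.cast_eq_zero_iff k p] at h3
  exact D.odd ((Nat.prime_dvd_prime_iff_eq D.prime Nat.prime_two).1 h3)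

lemma Dat.omO {p q : ℕ} {g : GL (Fin 7) k} (_ : Dat p q φ g) (h : OmO p q (g : Matrix (Fin 7) (Fin 7) k)) : OmO p q g := by
  have key : ∀ n, (g : Matrix (Fin 7) (Fin 7) k) ^ n = 1 → g ^ n = 1 := by
    intro n hn
    apply Units.ext
    rw [Units.val_pow_eq_pow_val, hn, Units.val_one]
  rcases h with h | h | h | h | h | ⟨h', h⟩
  · exact Or.inl (key _ h)
  · exact Or.inr (Or.inl (key _ h))
  · exact Or.inr (Or.inr (Or.inl (key _ h)))
  · exact Or.inr (Or.inr (Or.inr (Or.inl (key _ h))))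
  · exact Or.inr (Or.inr (Or.inr (Or.inr (Or.inl (key _ h)))))
  · exact Or.inr (Or.inr (Or.inr (Or.inr (Or.inr ⟨h', key _ h⟩))))

theorem caseA {p q : ℕ} {g : GL (Fin 7) k} (D : Dat p q φ g) {b c : k} (h : Ctx φ 1 b c)
    (hM : (g : Matrix (Fin 7) (Fin 7) k).charpoly = pl (spc 1 b c)) : OmO p q g := by
  have := D.char
  have hpf : Fact p.Prime := ⟨D.prime⟩
  have hp1 := D.prime.one_lt
  obtain ⟨-, b0, c0⟩ := h.ne0
  have hc : c = b⁻¹ := eq_inv_of_mul_eq_one_left (by rw [← h.abc]; ring)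
  have hcl : Cl (φ b) b := by
    have hb1 : φ b = 1 → Cl (φ b) b := fun e => by
      have : b = 1 := φ.injective (by rw [e, map_one])
      rw [this, map_one]; exact Or.inl rfl
    rcases mem_spc.1 (h.mem (x := b) (mem_spc.2 (by simp))) with e | e | e | e | e | e | e
    · exact hb1 e
    · exact hb1 e
    · exact Or.inl e
    · exact Or.inr (by rw [e, hc])
    · exact hb1 (by rw [e, inv_one])
    · exact Or.inr e
    · exact Or.inl (by rw [e, hc, inv_inv])
  obtain ⟨δ, hδ, hbδ⟩ := pow_of_cl D.q2 D.fr b0 hcl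
  have hδ0 : δ ≠ 0 := by have := D.q2; omega
  have hbδ' : b⁻¹ ^ δ = 1 := by rw [inv_pow, hbδ, inv_one]
  rw [hc] at hM
  -- the singletons
  have all : ∀ (m j : ℕ), m ≠ 0 → b ^ m = 1 → 7 ≤ p ^ j → (g : Matrix (Fin 7) (Fin 7) k) ^ (m * p ^ j) = 1 := by
    intro m j hm hbm hj
    have hbm' : b⁻¹ ^ m = 1 := by rw [inv_pow, hbm, inv_one]
    apply pow_eq_one_of_list p hm [{1}, {1}, {1}, {b}, {b}, {b⁻¹}, {b⁻¹}] _ _ hj
    · simp [hbm]
    · rw [hM, pl_spc]
      simp only [List.sum_cons, List.sum_nil, pl_add, pl_singleton, pl_zero, inv_one, inv_inv]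
      ring
  rcases primes_ge p D.prime D.odd with hp3 | hp5 | hp7
  · by_cases hb1 : b = 1
    · apply D.omO
      refine Or.inr (Or.inr (Or.inr (Or.inr (Or.inr ⟨Or.inl hp3, ?_⟩))))
      have := all 1 2 one_ne_zero (by rw [hb1]; simp) (by rw [hp3]; norm_num)
      rwa [one_mul] at this
    · by_cases hb2 : b ^ 2 = 1
      · have hbm : b = -1 := by
          have h : (b - 1) * (b + 1) = 0 := by linear_combination hb2
          rcases mul_eq_zero.1 h with h | h
          · exact absurd (sub_eq_zero.1 h) hb1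
          · exact eq_neg_of_add_eq_zero_left h
        subst hp3
        have h6 := case_p3 D.mem (by rw [hM, hbm]; simp)
        refine Or.inr (Or.inl ?_)
        obtain ⟨r, hr⟩ : ∃ r, q - 1 = 2 * r := by
          obtain ⟨s, hs⟩ := D.qodd
          exact ⟨s, by omega⟩
        rw [hr, show 3 * (2 * r) = 6 * r by ring, pow_mul, h6, one_pow]
      · obtain ⟨e1, e2, e3⟩ := sq_ne_one b0 hb2
        apply D.omO
        apply omO_of hδ
        apply pow_eq_one_of_list p hδ0 [{1, b, b⁻¹}, {1, b, b⁻¹}, {1}] _ _ (by rw [hp3]; norm_num)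
        · simp [hbδ, e1, e2, e3, e1.symm, e2.symm]
        · rw [hM, pl_spc]
          simp only [List.sum_cons, List.sum_nil, pl_add, pl_singleton, pl_zero, inv_one, inv_inv, Multiset.insert_eq_cons, pl_cons]
          ring
  · by_cases hb1 : b = 1
    · apply D.omO
      refine Or.inr (Or.inr (Or.inr (Or.inr (Or.inr ⟨Or.inr hp5, ?_⟩))))
      have := all 1 2 one_ne_zero (by rw [hb1]; simp) (by rw [hp5]; norm_num)
      rwa [one_mul] at this
    · apply D.omO
      apply omO_of hδ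
      apply pow_eq_one_of_list p hδ0 [{1, b}, {1, b⁻¹}, {1, b}, {b⁻¹}] _ _ (by rw [hp5]; norm_num)
      · simp [hbδ, Ne.symm hb1, eq_comm (a := (1 : k)), hb1]
      · rw [hM, pl_spc]
        simp only [List.sum_cons, List.sum_nil, pl_add, pl_singleton, pl_zero, inv_one, inv_inv, Multiset.insert_eq_cons, pl_cons]
        ring
  · apply D.omO
    apply omO_of hδ
    exact all δ 1 hδ0 hbδ (by rw [pow_one]; exact hp7)

theorem caseB {p q : ℕ} {g : GL (Fin 7) k} (D : Dat p q φ g) {b c : k} (h : Ctx φ (-1) b c)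
    (hb1 : b ≠ 1) (hc1 : c ≠ 1) (hb : b ≠ -1) (hbc : b ≠ c)
    (hM : (g : Matrix (Fin 7) (Fin 7) k).charpoly = pl (spc (-1) b c)) : OmO p q g := by
  have h2 := D.two
  obtain ⟨-, b0, c0⟩ := h.ne0
  have hc : c = -b⁻¹ := by
    apply mul_left_cancel₀ b0
    rw [mul_neg, mul_inv_cancel₀ b0]
    linear_combination -h.abc
  have hb2 : b ^ 2 ≠ -1 := by
    intro h3
    apply hbc
    rw [hc]
    apply mul_right_cancel₀ b0
    rw [neg_mul, inv_mul_cancel₀ b0, ← h3, pow_two]
  have hb2' : b ^ 2 ≠ 1 := by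
    intro hb2
    have h : (b - 1) * (b + 1) = 0 := by linear_combination hb2
    rcases mul_eq_zero.1 h with h | h
    · exact hb1 (sub_eq_zero.1 h)
    · exact hb (eq_neg_of_add_eq_zero_left h)
  have hbb : φ (φ b) = b := by
    rcases mem_spc.1 (h.mem (x := b) (mem_spc.2 (by simp))) with e | e | e | e | e | e | e
    · exact absurd (φ.injective (by rw [e, map_one])) hb1
    · exact absurd (φ.injective (by rw [e, map_neg, map_one])) hb
    · rw [e, e]
    · rw [e, hc, map_neg, map_inv₀, e, hc, inv_neg, neg_neg, inv_inv]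
    · exfalso
      apply hb
      apply φ.injective
      rw [e, map_neg, map_one, inv_neg, inv_one]
    · rw [e, map_inv₀, e, inv_inv]
    · have e' : φ b = -b := by rw [e, hc, inv_neg, inv_inv]
      rw [e', map_neg, e', neg_neg]
  have hq := D.q2
  have hq2 : q ≤ q ^ 2 := Nat.le_self_pow two_ne_zero q
  have hbq : b ^ (q ^ 2 - 1) = 1 := by
    rw [D.fr, D.fr, ← pow_mul, ← pow_two] at hbb
    apply mul_right_cancel₀ b0
    rw [← pow_succ, Nat.sub_add_cancel (by omega), hbb, one_mul]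
  have hev : Even (q ^ 2 - 1) := Nat.Odd.sub_odd (D.qodd.pow) odd_one
  have hneg : (-1 : k) ^ (q ^ 2 - 1) = 1 := hev.neg_one_pow
  have hn : ∀ x : k, (-x) ^ (q ^ 2 - 1) = x ^ (q ^ 2 - 1) := fun x => hev.neg_pow x
  have hN : ∀ x : k, x ≠ 0 → x ≠ -x := by
    intro x hx h
    have : 2 * x = 0 := by linear_combination h
    rcases mul_eq_zero.1 this with h | h
    · exact h2 h
    · exact hx h
  obtain ⟨-, e2, e3⟩ := sq_ne_one b0 hb2'
  have e4 : b⁻¹ ≠ -1 := by
    intro h; apply hb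
    rw [← inv_inv b, h, inv_neg, inv_one]
  have e5 : b ≠ -b⁻¹ := by
    intro h; apply hb2
    rw [pow_two]
    nth_rewrite 1 [h]
    rw [neg_mul, inv_mul_cancel₀ b0]
  have e6 : -b ≠ 1 := fun h => hb (by rw [← h, neg_neg])
  have e7 : -b⁻¹ ≠ 1 := fun h => e4 (by rw [← h, neg_neg])
  refine Or.inr (Or.inr (Or.inl ?_))
  apply eq_one_of_ker h2 (pow_mem D.mem _)
  rw [Units.val_pow_eq_pow_val]
  apply ker_of_eigs ![1, -1, b, -b, b⁻¹, -b⁻¹]
  · intro i j hij
    have n1 := hN 1 one_ne_zero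
    have n2 := hN b b0
    have n3 := hN b⁻¹ (inv_ne_zero b0)
    have e3' : -b ≠ -b⁻¹ := fun h => e3 (neg_injective h)
    have e5' : -b ≠ b⁻¹ := fun h => e5 (by rw [← h, neg_neg])
    have e8 : -b ≠ -1 := fun h => hb1 (neg_injective h)
    have e9 : -b⁻¹ ≠ -1 := fun h => e2 (neg_injective h)
    fin_cases i <;> fin_cases j <;> first | rfl | (exfalso; revert hij; simp only [Fin.zero_eta, Fin.mk_one, Fin.reduceFinMk, Matrix.cons_val_zero, Matrix.cons_val_one, Matrix.cons_val]; first | assumption | (apply Ne.symm; assumption))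
  · have key : ∀ x, x ∈ spc (-1) b c → (g : Matrix (Fin 7) (Fin 7) k).charpoly.IsRoot x := by
      intro x hx
      rw [hM, ← mem_roots (by rw [← hM]; exact (charpoly_monic _).ne_zero), pl_roots]
      exact hx
    intro i
    apply key
    rw [mem_spc]
    fin_cases i <;> simp [hc, inv_neg]
  · intro i
    fin_cases i <;> simp [hneg, hbq, hn]

theorem caseC {p q : ℕ} {g : GL (Fin 7) k} (D : Dat p q φ g) {a c : k} (h : Ctx φ a a c)
    (ha1 : a ≠ 1) (hc1 : c ≠ 1)
    (hM : (g : Matrix (Fin 7) (Fin 7) k).charpoly = pl (spc a a c)) : OmO p q g := by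
  classical
  have := D.char
  have hpf : Fact p.Prime := ⟨D.prime⟩
  obtain ⟨a0, -, c0⟩ := h.ne0
  have hc : c⁻¹ = a ^ 2 := inv_eq_of_mul_eq_one_left (by rw [← h.abc]; ring)
  have ha2 : a ^ 2 ≠ 1 := by
    intro h; apply hc1
    rw [← inv_inv c, hc, h, inv_one]
  have hcount := h.count a
  have hge : 2 ≤ (spc a a c).count a := by
    simp only [spc, Multiset.insert_eq_cons, Multiset.count_cons, if_true, Multiset.count_singleton]
    omega
  obtain ⟨e1, e2, e3⟩ := sq_ne_one a0 ha2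
  have hcl : Cl (φ a) a := by
    rcases mem_spc.1 (h.mem (x := a) (mem_spc.2 (by simp))) with e | e | e | e | e | e | e
    · exact absurd (φ.injective (by rw [e, map_one])) ha1
    · exact Or.inl e
    · exact Or.inl e
    · by_contra hcon
      rw [e] at hcount hcon
      obtain ⟨f1, f2, f3, f4⟩ := ncl hcon
      have hcc : c = c⁻¹ := by
        by_contra hcc
        rw [← hcount] at hge
        simp only [spc, Multiset.insert_eq_cons, Multiset.count_cons, Multiset.count_singleton, if_neg f1, if_neg f2, if_neg hcc, if_neg hc1,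
          if_true] at hge
        omega
      apply ha2
      apply φ.injective
      rw [map_pow, e, map_one, pow_two]
      nth_rewrite 1 [hcc]
      exact inv_mul_cancel₀ c0
    · exact Or.inr e
    · exact Or.inr e
    · by_contra hcon
      rw [e] at hcount hcon
      obtain ⟨f1, f2, f3, f4⟩ := ncl hcon
      have hcc : c = c⁻¹ := by
        by_contra hcc
        rw [← hcount] at hge
        simp only [spc, Multiset.insert_eq_cons, Multiset.count_cons, Multiset.count_singleton, if_neg f1, if_neg f2, if_neg (Ne.symm hcc),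
          if_neg (show c⁻¹ ≠ 1 from fun h => hc1 (inv_eq_one.1 h)), if_true] at hge
        omega
      apply ha2
      apply φ.injective
      rw [map_pow, e, ← hcc, map_one, pow_two]
      nth_rewrite 1 [hcc]
      exact inv_mul_cancel₀ c0
  obtain ⟨δ, hδ, haδ⟩ := pow_of_cl D.q2 D.fr a0 hcl
  have hδ0 : δ ≠ 0 := by have := D.q2; omega
  have haδ' : a⁻¹ ^ δ = 1 := by rw [inv_pow, haδ, inv_one]
  have hcδ' : c⁻¹ ^ δ = 1 := by rw [hc, ← pow_mul, mul_comm, pow_mul, haδ, one_pow]
  have hcδ : c ^ δ = 1 := by rw [← inv_inv c, inv_pow, hcδ', inv_one]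
  have hp3 : 3 ≤ p ^ 1 := by
    have := D.prime.two_le
    have := D.odd
    rw [pow_one]; omega
  apply D.omO
  apply omO_of hδ
  by_cases hcc : c = c⁻¹
  · have f1 : a ≠ c⁻¹ := by
      intro h
      apply ha2
      rw [← hc, ← h]
      exfalso
      apply ha2
      rw [pow_two]
      nth_rewrite 1 [h]
      rw [← hcc, h, ← hcc]
      nth_rewrite 1 [hcc]
      exact inv_mul_cancel₀ c0
    have f2 : a⁻¹ ≠ c⁻¹ := by
      intro h
      apply f1
      rw [← hcc]
      exact inv_injective h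
    apply pow_eq_one_of_list p hδ0 [{1, c}, {a, a⁻¹}, {a, a⁻¹, c⁻¹}] _ _ hp3
    · simp [haδ, hcδ, e3, hc1, Ne.symm hc1, f1]
      intro h; exact f2 (by rw [h])
    · rw [hM, pl_spc]
      simp only [List.sum_cons, List.sum_nil, pl_add, pl_singleton, pl_zero, inv_one, inv_inv, Multiset.insert_eq_cons, pl_cons]
      ring
  · apply pow_eq_one_of_list p hδ0 [{1, a, a⁻¹}, {a, a⁻¹}, {c, c⁻¹}] _ _ hp3
    · simp [haδ, hcδ, e3, ha1, Ne.symm ha1, hcc]
    · rw [hM, pl_spc]
      simp only [List.sum_cons, List.sum_nil, pl_add, pl_singleton, pl_zero, inv_one, inv_inv, Multiset.insert_eq_cons, pl_cons]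
      ring

theorem caseG {p q : ℕ} {g : GL (Fin 7) k} (D : Dat p q φ g) {a b c : k} (h : Gen φ a b c)
    (hM : (g : Matrix (Fin 7) (Fin 7) k).charpoly = pl (spc a b c)) : OmO p q g := by
  have hq := D.q2
  have hq2 : q * 2 ≤ q ^ 2 := by rw [pow_two]; exact Nat.mul_le_mul_left q hq
  apply D.omO
  rcases h.pow D.q2 D.fr with h1 | h1 | h1
  · exact Or.inr (Or.inr (Or.inl (pow_eq_one_of_nodup (by omega) _ h.nodup h1 hM)))
  · exact Or.inr (Or.inr (Or.inr (Or.inl (pow_eq_one_of_nodup (by omega) _ h.nodup h1 hM))))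
  · exact Or.inr (Or.inr (Or.inr (Or.inr (Or.inl (pow_eq_one_of_nodup (by omega) _ h.nodup h1 hM)))))

theorem all_cases {p q : ℕ} {g : GL (Fin 7) k} (D : Dat p q φ g) {a b c : k} (h : Ctx φ a b c)
    (hM : (g : Matrix (Fin 7) (Fin 7) k).charpoly = pl (spc a b c)) : OmO p q g := by
  by_cases a1 : a = 1
  · subst a1; exact caseA D h hM
  by_cases b1 : b = 1
  · subst b1; exact caseA D h.swap12 (by rw [hM, spc_swap12])
  by_cases c1 : c = 1
  · subst c1; exact caseA D h.swap23.swap12 (by rw [hM, spc_swap23, spc_swap12])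
  by_cases ab : a = b
  · subst ab; exact caseC D h a1 c1 hM
  by_cases ac : a = c
  · subst ac; exact caseC D h.swap23 a1 b1 (by rw [hM, spc_swap23])
  by_cases bc : b = c
  · subst bc; exact caseC D h.swap12.swap23 b1 a1 (by rw [hM, spc_swap12, spc_swap23])
  have sq : ∀ x : k, x ≠ 1 → x ^ 2 = 1 → x = -1 := by
    intro x hx hx2
    have h : (x - 1) * (x + 1) = 0 := by linear_combination hx2
    rcases mul_eq_zero.1 h with h | h
    · exact absurd (sub_eq_zero.1 h) hx
    · exact eq_neg_of_add_eq_zero_left h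
  by_cases a2 : a ^ 2 = 1
  · have := sq a a1 a2
    subst this
    exact caseB D h b1 c1 (Ne.symm ab) bc hM
  by_cases b2 : b ^ 2 = 1
  · have := sq b b1 b2
    subst this
    exact caseB D h.swap12 a1 c1 ab ac (by rw [hM, spc_swap12])
  by_cases c2 : c ^ 2 = 1
  · have := sq c c1 c2
    subst this
    exact caseB D h.swap23.swap12 a1 b1 ac ab (by rw [hM, spc_swap23, spc_swap12])
  obtain ⟨a0, b0, c0⟩ := h.ne0
  have ninv : ∀ x y z : k, x ≠ 0 → y ≠ 0 → x * y * z = 1 → z ≠ 1 → x = y⁻¹ → False := by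
    intro x y z hx hy hxyz hz hxy
    apply hz
    rw [hxy, inv_mul_cancel₀ hy, one_mul] at hxyz
    exact hxyz
  have habc := h.abc
  apply caseG D (h.gen a2 b2 c2 _ _ _) hM
  · rintro (e | e)
    · exact ab e
    · exact ninv a b c a0 b0 habc c1 e
  · rintro (e | e)
    · exact ac e
    · exact ninv a c b a0 c0 (by rw [← habc]; ring) b1 e
  · rintro (e | e)
    · exact bc e
    · exact ninv b c a b0 c0 (by rw [← habc]; ring) a1 e

end Cfsg.Agent.G7
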