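import Cfsg.Agent.G7.OmEven

set_option autoImplicit false
set_option maxHeartbeats 1000000

/-!
The element orders over a finite field.
-/

namespace Cfsg.Agent.G7

open Matrix Polynomial

variable {F : Type*} [Field F] [Fintype F]

lemma gm_inj {R S : Type*} [CommRing R] [CommRing S] (f : R →+* S) (hf : Function.Injective f) : Function.Injective (gm f) := by
  intro a b h
  apply Units.ext
  have h1 : (a : Matrix (Fin 7) (Fin 7) R).map f = (b : Matrix (Fin 7) (Fin 7) R).map f := by
    rw [← coe_gm, ← coe_gm, h]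
  ext i j
  exact hf (congrFun (congrFun h1 i) j)

lemma setup {g : GL (Fin 7) F} (hg : g ∈ Grp F) : ∃ (φ : AlgebraicClosure F →+* AlgebraicClosure F) (a b c : AlgebraicClosure F),
    (∀ x, φ x = x ^ Fintype.card F) ∧ Ctx φ a b c ∧
      (gm (algebraMap F (AlgebraicClosure F)) g : Matrix (Fin 7) (Fin 7) (AlgebraicClosure F)).charpoly = pl (spc a b c) := by
  obtain ⟨a, b, c, habc, hM⟩ := eig (gm_mem (algebraMap F (AlgebraicClosure F)) hg)
  refine ⟨(FiniteField.frobeniusAlgHom F (AlgebraicClosure F) : AlgebraicClosure F →+* AlgebraicClosure F), a, b, c, fun x => rfl, ⟨habc, ?_⟩, hM⟩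
  exact spec_frob (M := (g : Matrix (Fin 7) (Fin 7) F)) hM

theorem omega_odd {p a : ℕ} (hp : p.Prime) (hp2 : p ≠ 2) (ha : 1 ≤ a) (hF : Fintype.card F = p ^ a) {g : GL (Fin 7) F} (hg : g ∈ Grp F) :
    OmO p (p ^ a) g := by
  have : Fact p.Prime := ⟨hp⟩
  have hc : CharP F p := charP_of_card_eq_prime_pow hF
  have hck : CharP (AlgebraicClosure F) p := charP_of_injective_algebraMap (algebraMap F (AlgebraicClosure F)).injective p
  obtain ⟨φ, x, y, z, hφ, hctx, hM⟩ := setup hg
  rw [hF] at hφ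
  have D : Dat p (p ^ a) φ (gm (algebraMap F (AlgebraicClosure F)) g) :=
    { prime := hp, char := hck, odd := hp2, q2 := hp.two_le.trans (Nat.le_self_pow (by omega) p),
      qodd := (hp.odd_of_ne_two hp2).pow, fr := hφ, mem := gm_mem _ hg }
  have key : ∀ n, (gm (algebraMap F (AlgebraicClosure F)) g) ^ n = 1 → g ^ n = 1 := by
    intro n hn
    apply gm_inj (algebraMap F (AlgebraicClosure F)) (algebraMap F (AlgebraicClosure F)).injective
    rw [map_pow, hn, map_one]
  rcases all_cases D hctx hM with h | h | h | h | h | ⟨h', h⟩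
  · exact Or.inl (key _ h)
  · exact Or.inr (Or.inl (key _ h))
  · exact Or.inr (Or.inr (Or.inl (key _ h)))
  · exact Or.inr (Or.inr (Or.inr (Or.inl (key _ h))))
  · exact Or.inr (Or.inr (Or.inr (Or.inr (Or.inl (key _ h)))))
  · exact Or.inr (Or.inr (Or.inr (Or.inr (Or.inr ⟨h', key _ h⟩))))

theorem omega_even {a : ℕ} (ha : 1 ≤ a) (hF : Fintype.card F = 2 ^ a) {g : GL (Fin 7) F} (hg : g ∈ Grp F) :
    OmE (2 ^ a) g := by
  have : Fact (Nat.Prime 2) := ⟨Nat.prime_two⟩
  have hc : CharP F 2 := charP_of_card_eq_prime_pow hF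
  have hck : CharP (AlgebraicClosure F) 2 := charP_of_injective_algebraMap (algebraMap F (AlgebraicClosure F)).injective 2
  obtain ⟨φ, x, y, z, hφ, hctx, hM⟩ := setup hg
  rw [hF] at hφ
  have D : Dat2 (2 ^ a) φ (gm (algebraMap F (AlgebraicClosure F)) g) :=
    { char := hck, q2 := Nat.le_self_pow (by omega) 2, fr := hφ, mem := gm_mem _ hg }
  have key : ∀ n, (gm (algebraMap F (AlgebraicClosure F)) g) ^ n = 1 → g ^ n = 1 := by
    intro n hn
    apply gm_inj (algebraMap F (AlgebraicClosure F)) (algebraMap F (AlgebraicClosure F)).injective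
    rw [map_pow, hn, map_one]
  rcases all_cases2 D hctx hM with h | h | h | h | h | h | h
  · exact Or.inl (key _ h)
  · exact Or.inr (Or.inl (key _ h))
  · exact Or.inr (Or.inr (Or.inl (key _ h)))
  · exact Or.inr (Or.inr (Or.inr (Or.inl (key _ h))))
  · exact Or.inr (Or.inr (Or.inr (Or.inr (Or.inl (key _ h)))))
  · exact Or.inr (Or.inr (Or.inr (Or.inr (Or.inr (Or.inl (key _ h))))))
  · exact Or.inr (Or.inr (Or.inr (Or.inr (Or.inr (Or.inr (key _ h))))))

end Cfsg.Agent.G7
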