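import Cfsg.Agent.G7.Char4

set_option autoImplicit false
set_option maxHeartbeats 1000000

/-!
The shape of the characteristic polynomial over any algebraically closed field, by specialization.
-/

namespace Cfsg.Agent.G7

open Matrix Polynomial

lemma xr_map {R S : Type*} [CommRing R] [CommRing S] (f : R →+* S) (r : ℕ) (t : R) : (xr r t).map f = xr r (f t) := by
  rcases lt_or_ge r 12 with hr | hr
  · have h2 : f 2 = 2 := map_ofNat f 2
    ext i j
    interval_cases r <;> fin_cases i <;> fin_cases j <;> simp [xr, h2]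
  · rw [xr_ge hr, xr_ge hr]
    simp

/-- change of rings -/
noncomputable def gm {R S : Type*} [CommRing R] [CommRing S] (f : R →+* S) : GL (Fin 7) R →* GL (Fin 7) S := GeneralLinearGroup.map f

lemma coe_gm {R S : Type*} [CommRing R] [CommRing S] (f : R →+* S) (g : GL (Fin 7) R) : ((gm f g : GL (Fin 7) S) : Matrix (Fin 7) (Fin 7) S) =
    (g : Matrix (Fin 7) (Fin 7) R).map f := rfl

lemma gm_xu {R S : Type*} [CommRing R] [CommRing S] (f : R →+* S) (r : ℕ) (t : R) : gm f (xu r t) = xu r (f t) := by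
  apply Units.ext
  rw [coe_gm, coe_xu, coe_xu, xr_map]

lemma gm_mem {R S : Type*} [CommRing R] [CommRing S] (f : R →+* S) {g : GL (Fin 7) R} (hg : g ∈ Grp R) : gm f g ∈ Grp S := by
  induction hg using Subgroup.closure_induction with
  | mem x hx =>
    obtain ⟨r, hr, t, rfl⟩ := hx
    rw [gm_xu]; exact xu_mem hr _
  | one => rw [map_one]; exact one_mem _
  | mul a b _ _ ha hb => rw [map_mul]; exact mul_mem ha hb
  | inv a _ ha => rw [map_inv]; exact inv_mem ha

lemma lift_grp {R : Type*} [CommRing R] {g : GL (Fin 7) R} (hg : g ∈ Grp R) :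
    ∃ g0 ∈ Grp (MvPolynomial R ℤ), gm (MvPolynomial.eval₂Hom (Int.castRingHom R) id) g0 = g := by
  induction hg using Subgroup.closure_induction with
  | mem x hx =>
    obtain ⟨r, hr, t, rfl⟩ := hx
    refine ⟨xu r (MvPolynomial.X t), xu_mem hr _, ?_⟩
    rw [gm_xu]
    congr 1
    simp
  | one => exact ⟨1, one_mem _, map_one _⟩
  | mul a b _ _ ha hb =>
    obtain ⟨a', ha1, ha2⟩ := ha
    obtain ⟨b', hb1, hb2⟩ := hb
    exact ⟨a' * b', mul_mem ha1 hb1, by rw [map_mul, ha2, hb2]⟩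
  | inv a _ ha =>
    obtain ⟨a', ha1, ha2⟩ := ha
    exact ⟨a'⁻¹, inv_mem ha1, by rw [map_inv, ha2]⟩

/-- the relations between the coefficients -/
def Rel {R : Type*} [CommRing R] (P : R[X]) : Prop :=
  P.coeff 0 = -1 ∧ P.coeff 1 = -P.coeff 6 ∧ P.coeff 2 = -P.coeff 5 ∧ P.coeff 3 = -P.coeff 4 ∧ P.coeff 3 = P.coeff 6 ^ 2 - P.coeff 6 - P.coeff 5

lemma Rel.map {R S : Type*} [CommRing R] [CommRing S] (f : R →+* S) {P : R[X]} (h : Rel P) : Rel (P.map f) := by
  obtain ⟨h0, h1, h2, h3, h4⟩ := h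
  refine ⟨?_, ?_, ?_, ?_, ?_⟩ <;> simp only [coeff_map]
  · rw [h0]; simp
  · rw [h1]; simp
  · rw [h2]; simp
  · rw [h3]; simp
  · rw [h4]; simp

lemma Rel.of_map {R S : Type*} [CommRing R] [CommRing S] (f : R →+* S) (hf : Function.Injective f) {P : R[X]} (h : Rel (P.map f)) : Rel P := by
  obtain ⟨h0, h1, h2, h3, h4⟩ := h
  simp only [coeff_map] at h0 h1 h2 h3 h4
  refine ⟨hf ?_, hf ?_, hf ?_, hf ?_, hf ?_⟩
  · rw [h0]; simp
  · rw [h1]; simp
  · rw [h2]; simp
  · rw [h3]; simp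
  · rw [h4]; simp

lemma expand_poly {K : Type*} [CommRing K] (α β : K) : (X - 1) * (X ^ 3 - C α * X ^ 2 + C β * X - 1) * (X ^ 3 - C β * X ^ 2 + C α * X - 1) =
    X ^ 7 + C (-(1 + (α + β))) * X ^ 6 + C (2 * (α + β) + α * β) * X ^ 5 + C (-(2 + α ^ 2 + β ^ 2 + (α + β) + α * β)) * X ^ 4 +
      C (2 + α ^ 2 + β ^ 2 + (α + β) + α * β) * X ^ 3 + C (-(2 * (α + β) + α * β)) * X ^ 2 + C (1 + (α + β)) * X + C (-1) := by
  simp only [map_add, map_neg, map_mul, map_pow, map_one, map_ofNat]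
  ring

lemma coeffs7 {K : Type*} [CommRing K] (c0 c1 c2 c3 c4 c5 c6 : K) (k : ℕ) :
    (X ^ 7 + C c6 * X ^ 6 + C c5 * X ^ 5 + C c4 * X ^ 4 + C c3 * X ^ 3 + C c2 * X ^ 2 + C c1 * X + C c0 : K[X]).coeff k =
      (if k = 7 then 1 else 0) + (if k = 6 then c6 else 0) + (if k = 5 then c5 else 0) + (if k = 4 then c4 else 0) + (if k = 3 then c3 else 0) +
      (if k = 2 then c2 else 0) + (if k = 1 then c1 else 0) + (if k = 0 then c0 else 0) := by
  simp only [coeff_add, coeff_X_pow, coeff_C_mul, coeff_X, coeff_C, mul_ite, mul_one, mul_zero, eq_comm (a := 1) (b := k)]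

lemma rel_of_form {K : Type*} [CommRing K] (α β : K) : Rel ((X - 1) * (X ^ 3 - C α * X ^ 2 + C β * X - 1) * (X ^ 3 - C β * X ^ 2 + C α * X - 1)) := by
  rw [expand_poly]
  refine ⟨?_, ?_, ?_, ?_, ?_⟩ <;> simp only [coeffs7] <;> norm_num
  ring

theorem rel_charpoly {R : Type*} [CommRing R] {g : GL (Fin 7) R} (hg : g ∈ Grp R) : Rel (g : Matrix (Fin 7) (Fin 7) R).charpoly := by
  obtain ⟨g0, hg0, rfl⟩ := lift_grp hg
  rw [coe_gm, charpoly_map]
  apply Rel.map
  let L := AlgebraicClosure (FractionRing (MvPolynomial R ℤ))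
  let f : MvPolynomial R ℤ →+* L := (algebraMap (FractionRing (MvPolynomial R ℤ)) L).comp (algebraMap (MvPolynomial R ℤ) (FractionRing (MvPolynomial R ℤ)))
  have hf : Function.Injective f := (algebraMap (FractionRing (MvPolynomial R ℤ)) L).injective.comp (IsFractionRing.injective _ _)
  apply Rel.of_map f hf
  rw [← charpoly_map, ← coe_gm]
  have h2 : (2 : L) ≠ 0 := by
    have : (2 : L) = f 2 := (map_ofNat f 2).symm
    rw [this]
    intro h
    have h3 : (2 : MvPolynomial R ℤ) = 0 := hf (by rw [h, map_zero])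
    exact two_ne_zero h3
  obtain ⟨α, β, h⟩ := charpoly_alg h2 (gm_mem f hg0)
  rw [h]
  exact rel_of_form α β

theorem form_of_rel {K : Type*} [Field K] [IsAlgClosed K] {P : K[X]} (hP : P.Monic) (hd : P.natDegree = 7) (h : Rel P) :
    ∃ α β : K, P = (X - 1) * (X ^ 3 - C α * X ^ 2 + C β * X - 1) * (X ^ 3 - C β * X ^ 2 + C α * X - 1) := by
  obtain ⟨h0, h1, h2, h3, h4⟩ := h
  obtain ⟨e1, he1⟩ : ∃ e, e = -P.coeff 6 := ⟨_, rfl⟩
  obtain ⟨e2, he2⟩ : ∃ e, e = P.coeff 5 := ⟨_, rfl⟩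
  -- the roots of the quadratic polynomial
  obtain ⟨α, hα⟩ : ∃ α : K, α ^ 2 - (e1 - 1) * α + (e2 - 2 * (e1 - 1)) = 0 := by
    have hdeg : (X ^ 2 - C (e1 - 1) * X + C (e2 - 2 * (e1 - 1)) : K[X]).degree ≠ 0 := by
      have : (X ^ 2 - C (e1 - 1) * X + C (e2 - 2 * (e1 - 1)) : K[X]).degree = 2 := by compute_degree!
      rw [this]; exact two_ne_zero
    obtain ⟨α, hα⟩ := IsAlgClosed.exists_root _ hdeg
    exact ⟨α, by simpa [IsRoot] using hα⟩
  refine ⟨α, e1 - 1 - α, ?_⟩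
  rw [expand_poly]
  ext k
  rw [coeffs7]
  have h7 : P.coeff 7 = 1 := by rw [← hd]; exact hP
  rcases lt_or_ge 7 k with hk | hk
  · rw [coeff_eq_zero_of_natDegree_lt (by omega)]
    simp only [show k ≠ 7 by omega, show k ≠ 6 by omega, show k ≠ 5 by omega, show k ≠ 4 by omega, show k ≠ 3 by omega, show k ≠ 2 by omega,
      show k ≠ 1 by omega, show k ≠ 0 by omega, if_false, add_zero]
  · have h6 : P.coeff 6 = -e1 := by rw [he1, neg_neg]
    have h5 : P.coeff 5 = e2 := he2.symm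
    rw [h5, h6] at h4
    have h4' : P.coeff 4 = -P.coeff 3 := by rw [h3, neg_neg]
    interval_cases k
    · norm_num [h0]
    · norm_num [h1, h6]
    · norm_num [h2, h5]; linear_combination -hα
    · norm_num; rw [h4]; linear_combination -hα
    · norm_num; rw [h4', h4]; linear_combination hα
    · norm_num [h5]; linear_combination hα
    · norm_num [h6]
    · norm_num [h7]

/-- the shape of the characteristic polynomial -/
theorem charpoly_shape {K : Type*} [Field K] [IsAlgClosed K] {g : GL (Fin 7) K} (hg : g ∈ Grp K) :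
    ∃ α β : K, (g : Matrix (Fin 7) (Fin 7) K).charpoly =
      (X - 1) * (X ^ 3 - C α * X ^ 2 + C β * X - 1) * (X ^ 3 - C β * X ^ 2 + C α * X - 1) :=
  form_of_rel (charpoly_monic _) (by rw [charpoly_natDegree_eq_dim]; simp) (rel_charpoly hg)

end Cfsg.Agent.G7
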